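import Mathlib

/-!
Basic definitions for the proof that every element of `SL_n(q)` is a commutator.
-/

set_option autoImplicit false

namespace Cfsg.Agent.SLComm

universe u
open Module

variable {F : Type u} [Field F] {V : Type u} [AddCommGroup V] [Module F V]

/-- `A` is a commutator of two invertible determinant one endomorphisms. -/
def Comm (A : End F V) : Prop :=
  ∃ X Y X' Y' : End F V, X * X' = 1 ∧ X' * X = 1 ∧ Y * Y' = 1 ∧ Y' * Y = 1 ∧
    LinearMap.det X = 1 ∧ LinearMap.det Y = 1 ∧ A = X * Y * X' * Y'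

/-- the polynomial `x² - τ x + 1` evaluated at `L`. -/
def G (τ : F) (L : End F V) : End F V := L * L - τ • L + 1

/-- the shape common to all levels of the recursion. -/
structure Base (τ : F) (m : ℕ) (A L C : End F V) : Prop where
  comp : A * C = L
  annL : (L - 1) ^ (m - 2) * G τ L = 0
  annC : (C - 1) ^ (m - 2) * G τ C = 0
  yL : ∃ y, G τ L y = 0 ∧ LinearIndependent F ![y, L y]
  yC : ∃ y, G τ C y = 0 ∧ LinearIndependent F ![y, C y]

/-- the recursion's target at level `m`: for `m ≥ 3` also the two "top conditions". -/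
def Good (τ : F) (m : ℕ) (A : End F V) (c : V) (b : V →ₗ[F] F) : Prop :=
  ∃ L C : End F V, Base τ m A L C ∧
    (3 ≤ m → ((L - 1) ^ (m - 3) * G τ L) c ≠ 0) ∧
    (3 ≤ m → b ∘ₗ ((C - 1) ^ (m - 3) * G τ C) ≠ 0)

lemma G_apply (τ : F) (L : End F V) (x : V) : G τ L x = L (L x) - τ • L x + x := by
  simp [G]

lemma G_eq (τ : F) (L : End F V) :
    G τ L = (L - 1) * (L - 1) + (2 - τ) • (L - 1) + (2 - τ) • (1 : End F V) := by
  ext x
  simp only [G_apply, LinearMap.add_apply, LinearMap.smul_apply, Module.End.mul_apply,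
    LinearMap.sub_apply, Module.End.one_apply, map_sub]
  module

lemma commute_G (τ : F) (L : End F V) : Commute (L - 1) (G τ L) := by
  rw [G_eq]
  apply Commute.add_right
  · apply Commute.add_right
    · exact Commute.refl _ |>.mul_right (Commute.refl _)
    · exact (Commute.refl _).smul_right _
  · exact (Commute.one_right _).smul_right _

lemma commute_pow_G (τ : F) (L : End F V) (k : ℕ) : Commute ((L - 1) ^ k) (G τ L) :=
  (commute_G τ L).pow_left k

end Cfsg.Agent.SLComm
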