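import Mathlib
import Cfsg.Agent.Lib.SLComm.Defs

/-!
From the recursion's output to a commutator.
-/

set_option autoImplicit false

namespace Cfsg.Agent.SLComm

universe u
open Module

variable {F : Type u} [Field F] {V : Type u} [AddCommGroup V] [Module F V]

lemma eq_zero_of_G_of_nil {τ : F} (hτ : (2 : F) - τ ≠ 0) {L : End F V} (k : ℕ) {v : V}
    (h : G τ L v = 0) (hn : ((L - 1) ^ k) v = 0) : v = 0 := by
  induction k generalizing v with
  | zero => simpa using hn
  | succ k ih =>
    have hw : (L - 1) v = 0 := by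
      apply ih
      · have := congrArg (fun T : End F V => T v) (commute_G τ L).eq
        simp only [Module.End.mul_apply, h, map_zero] at this
        exact this.symm
      · rw [pow_succ, Module.End.mul_apply] at hn
        exact hn
    rw [G_eq] at h
    simp only [LinearMap.add_apply, LinearMap.smul_apply, Module.End.mul_apply, hw, map_zero,
      smul_zero, zero_add, Module.End.one_apply] at h
    exact (smul_eq_zero.mp h).resolve_left hτ

lemma chain_li (N : End F V) (k : ℕ) (u : V) (h0 : (N ^ k) u = 0)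
    (h1 : ∀ j, k = j + 1 → (N ^ j) u ≠ 0) :
    LinearIndependent F (fun i : Fin k => (N ^ (i : ℕ)) u) := by
  induction k generalizing u with
  | zero => exact linearIndependent_empty_type
  | succ k ih =>
    have h2 : (fun i : Fin (k + 1) => (N ^ (i : ℕ)) u) =
        Fin.cons u (fun i : Fin k => (N ^ (i : ℕ)) (N u)) := by
      funext i
      refine Fin.cases ?_ (fun j => ?_) i
      · simp
      · simp [pow_succ]
    rw [h2, linearIndependent_fin_cons]
    constructor
    · apply ih
      · rw [← Module.End.mul_apply, ← pow_succ]; exact h0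
      · intro j hj
        subst hj
        have := h1 (j + 1) rfl
        rwa [pow_succ, Module.End.mul_apply] at this
    · intro hmem
      have h3 : Submodule.span F (Set.range fun i : Fin k => (N ^ (i : ℕ)) (N u)) ≤
          LinearMap.ker (N ^ k) := by
        rw [Submodule.span_le]
        rintro _ ⟨i, rfl⟩
        simp only [SetLike.mem_coe, LinearMap.mem_ker]
        have hc : Commute (N ^ k) (N ^ (i : ℕ)) := (Commute.refl N).pow_pow _ _
        have := congrArg (fun T : End F V => T (N u)) hc.eq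
        simp only [Module.End.mul_apply] at this
        rw [this, ← Module.End.mul_apply (N ^ k) N u, ← pow_succ, h0, map_zero]
      exact h1 k rfl (h3 hmem)

variable (τ : F)

/-- the chain family. -/
noncomputable def chainFam (L : End F V) (x y : V) (k : ℕ) : Fin k ⊕ Fin 2 → V :=
  Sum.elim (fun i => ((L - 1) ^ (i : ℕ)) (G τ L x)) ![y, L y]

variable {τ}

lemma G_comm (L : End F V) (y : V) : G τ L (L y) = L (G τ L y) := by
  simp [G_apply]

lemma chainFam_li (hτ : (2 : F) - τ ≠ 0) {L : End F V} {x y : V} {k : ℕ}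
    (hann : (L - 1) ^ k * G τ L = 0)
    (htop : ∀ j, k = j + 1 → ((L - 1) ^ j * G τ L) x ≠ 0)
    (hy : G τ L y = 0) (hli : LinearIndependent F ![y, L y]) :
    LinearIndependent F (chainFam τ L x y k) := by
  have h0 : ((L - 1) ^ k) (G τ L x) = 0 := by
    rw [← Module.End.mul_apply, hann]; rfl
  refine LinearIndependent.sum_type (chain_li (L - 1) k (G τ L x) h0 ?_) hli ?_
  · intro j hj
    exact htop j hj
  · rw [Submodule.disjoint_def]
    intro v hv1 hv2
    apply eq_zero_of_G_of_nil hτ k
    · have h3 : Submodule.span F (Set.range ![y, L y]) ≤ LinearMap.ker (G τ L) := by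
        rw [Submodule.span_le]
        rintro _ ⟨i, rfl⟩
        fin_cases i
        · simpa using hy
        · simp [G_comm, hy]
      exact h3 hv2
    · have h3 : Submodule.span F (Set.range fun i : Fin k => ((L - 1) ^ (i : ℕ)) (G τ L x)) ≤
          LinearMap.ker ((L - 1) ^ k) := by
        rw [Submodule.span_le]
        rintro _ ⟨i, rfl⟩
        simp only [SetLike.mem_coe, LinearMap.mem_ker]
        have hc : Commute ((L - 1) ^ k) ((L - 1) ^ (i : ℕ)) := (Commute.refl _).pow_pow _ _
        have := congrArg (fun T : End F V => T (G τ L x)) hc.eq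
        simp only [Module.End.mul_apply] at this
        rw [this, h0, map_zero]
      exact h3 hv1

lemma exists_chain_basis [FiniteDimensional F V] (hτ : (2 : F) - τ ≠ 0) {L : End F V} {x y : V}
    {k : ℕ} (hV : finrank F V = k + 2) (hann : (L - 1) ^ k * G τ L = 0)
    (htop : ∀ j, k = j + 1 → ((L - 1) ^ j * G τ L) x ≠ 0)
    (hy : G τ L y = 0) (hli : LinearIndependent F ![y, L y]) :
    ∃ B : Basis (Fin k ⊕ Fin 2) F V, ∀ i, B i = chainFam τ L x y k i := by
  have hl := chainFam_li hτ hann htop hy hli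
  have hc : Fintype.card (Fin k ⊕ Fin 2) = finrank F V := by simp [hV]
  exact ⟨basisOfLinearIndependentOfCardEqFinrank hl hc, fun i => by simp⟩

section Chain

variable {L : End F V} {x y : V} {k : ℕ}

lemma chain_pow_of_le (hann : (L - 1) ^ k * G τ L = 0) {n : ℕ} (hn : k ≤ n) :
    ((L - 1) ^ n) (G τ L x) = 0 := by
  obtain ⟨r, rfl⟩ := Nat.exists_eq_add_of_le hn
  rw [add_comm, pow_add, Module.End.mul_apply, ← Module.End.mul_apply ((L - 1) ^ k) (G τ L) x, hann]
  simp

lemma L_chain (n : ℕ) : L (((L - 1) ^ n) (G τ L x)) =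
    ((L - 1) ^ n) (G τ L x) + ((L - 1) ^ (n + 1)) (G τ L x) := by
  rw [pow_succ']
  simp

lemma L_L_y (hy : G τ L y = 0) : L (L y) = τ • L y - y := by
  rw [G_apply] at hy
  have : L (L y) = (L (L y) - τ • L y + y) + τ • L y - y := by abel
  rw [this, hy]
  simp

end Chain

/-- matching two chain bases gives a conjugator. -/
lemma exists_conj {L C : End F V} {x y x' y' : V} {k : ℕ}
    (hannL : (L - 1) ^ k * G τ L = 0) (hannC : (C - 1) ^ k * G τ C = 0)
    (hy : G τ L y = 0) (hy' : G τ C y' = 0)
    (BL : Basis (Fin k ⊕ Fin 2) F V) (BC : Basis (Fin k ⊕ Fin 2) F V)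
    (hBL : ∀ i, BL i = chainFam τ L x y k i) (hBC : ∀ i, BC i = chainFam τ C x' y' k i) :
    ∃ P : V ≃ₗ[F] V, ∀ v, P (C v) = L (P v) := by
  refine ⟨BC.equiv BL (Equiv.refl _), ?_⟩
  set P := BC.equiv BL (Equiv.refl _) with hP
  have hPB : ∀ i, P (BC i) = BL i := fun i => by simp [hP]
  have hchain : ∀ n : ℕ, P (((C - 1 : End F V) ^ n) (G τ C x')) =
      ((L - 1 : End F V) ^ n) (G τ L x) := by
    intro n
    by_cases hn : n < k
    · have h1 := hBC (Sum.inl ⟨n, hn⟩)
      have h2 := hBL (Sum.inl ⟨n, hn⟩)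
      simp only [chainFam, Sum.elim_inl] at h1 h2
      rw [← h1, ← h2, hPB]
    · push Not at hn
      rw [chain_pow_of_le hannC hn, chain_pow_of_le hannL hn, map_zero]
  have hy0 : P y' = y := by
    have h1 := hBC (Sum.inr 0)
    have h2 := hBL (Sum.inr 0)
    simp only [chainFam, Sum.elim_inr, Matrix.cons_val_zero] at h1 h2
    rw [← h1, ← h2, hPB]
  have hy1 : P (C y') = L y := by
    have h1 := hBC (Sum.inr 1)
    have h2 := hBL (Sum.inr 1)
    simp only [chainFam, Sum.elim_inr, Matrix.cons_val_one, Matrix.cons_val_zero] at h1 h2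
    rw [← h1, ← h2, hPB]
  have key : (P : V →ₗ[F] V) ∘ₗ C = L ∘ₗ (P : V →ₗ[F] V) := by
    apply BC.ext
    intro i
    rcases i with i | i
    · have h1 := hBC (Sum.inl i)
      simp only [chainFam, Sum.elim_inl] at h1
      simp only [LinearMap.comp_apply, LinearEquiv.coe_coe]
      rw [h1, L_chain, map_add, hchain, hchain, L_chain]
    · fin_cases i
      · have h1 := hBC (Sum.inr 0)
        simp only [chainFam, Sum.elim_inr, Matrix.cons_val_zero] at h1
        simp only [LinearMap.comp_apply, LinearEquiv.coe_coe, Fin.zero_eta]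
        rw [h1, hy1, hy0]
      · have h1 := hBC (Sum.inr 1)
        simp only [chainFam, Sum.elim_inr, Matrix.cons_val_one, Matrix.cons_val_zero] at h1
        simp only [LinearMap.comp_apply, LinearEquiv.coe_coe, Fin.mk_one]
        rw [h1, L_L_y hy', map_sub, map_smul, hy1, hy0, L_L_y hy]
  intro v
  exact LinearMap.congr_fun key v

/-- the determinant of `C` in its chain basis. -/
lemma det_eq_one_of_chain [FiniteDimensional F V] {C : End F V} {x y : V} {k : ℕ}
    (hannC : (C - 1) ^ k * G τ C = 0) (hy : G τ C y = 0)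
    (B : Basis (Fin k ⊕ Fin 2) F V) (hB : ∀ i, B i = chainFam τ C x y k i) :
    LinearMap.det C = 1 := by
  classical
  rw [← LinearMap.det_toMatrix B]
  have h_inl : ∀ j : Fin k, C (B (Sum.inl j)) = B (Sum.inl j) +
      ((C - 1) ^ ((j : ℕ) + 1)) (G τ C x) := by
    intro j
    have h1 := hB (Sum.inl j)
    simp only [chainFam, Sum.elim_inl] at h1
    rw [h1, L_chain]
  have h_chain : ∀ n : ℕ, ∀ i, B.repr (((C - 1) ^ n) (G τ C x)) i =
      if h : n < k then (if i = Sum.inl ⟨n, h⟩ then (1 : F) else 0) else 0 := by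
    intro n i
    by_cases h : n < k
    · have h1 := hB (Sum.inl ⟨n, h⟩)
      simp only [chainFam, Sum.elim_inl] at h1
      rw [dif_pos h, ← h1, Basis.repr_self, Finsupp.single_apply]
      simp [eq_comm]
    · rw [dif_neg h, chain_pow_of_le hannC (not_lt.mp h)]
      simp
  have h_r0 : C (B (Sum.inr 0)) = B (Sum.inr 1) := by
    have h0 := hB (Sum.inr 0)
    have h1 := hB (Sum.inr 1)
    simp only [chainFam, Sum.elim_inr, Matrix.cons_val_zero, Matrix.cons_val_one] at h0 h1
    rw [h0, h1]
  have h_r1 : C (B (Sum.inr 1)) = τ • B (Sum.inr 1) - B (Sum.inr 0) := by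
    have h0 := hB (Sum.inr 0)
    have h1 := hB (Sum.inr 1)
    simp only [chainFam, Sum.elim_inr, Matrix.cons_val_zero, Matrix.cons_val_one] at h0 h1
    rw [h0, h1, L_L_y hy]
  have hM : LinearMap.toMatrix B B C =
      Matrix.fromBlocks (Matrix.of fun i j : Fin k => B.repr (C (B (Sum.inl j))) (Sum.inl i)) 0 0
        !![0, -1; 1, τ] := by
    ext i j
    rcases i with i | i <;> rcases j with j | j
    · simp [LinearMap.toMatrix_apply]
    · fin_cases j
      · simp [LinearMap.toMatrix_apply, h_r0]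
      · simp [LinearMap.toMatrix_apply, h_r1]
    · simp only [LinearMap.toMatrix_apply, Matrix.fromBlocks_apply₂₁, Matrix.zero_apply]
      rw [h_inl, map_add, Finsupp.add_apply, h_chain]
      simp only [Basis.repr_self]
      split_ifs <;> simp_all
    · fin_cases i <;> fin_cases j <;> simp [LinearMap.toMatrix_apply, h_r0, h_r1]
  rw [hM, Matrix.det_fromBlocks_zero₂₁, Matrix.det_fin_two_of]
  have hK : (Matrix.of fun i j : Fin k => B.repr (C (B (Sum.inl j))) (Sum.inl i)).det = 1 := by
    rw [Matrix.det_of_lowerTriangular]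
    · apply Finset.prod_eq_one
      intro i _
      simp only [Matrix.of_apply]
      rw [h_inl, map_add, Finsupp.add_apply, h_chain]
      simp only [Basis.repr_self, Finsupp.single_apply, Sum.inl.injEq, Fin.ext_iff]
      split_ifs <;> first | omega | simp
    · intro i j hij
      simp only [Matrix.of_apply]
      rw [h_inl, map_add, Finsupp.add_apply, h_chain]
      have hlt : (i : ℕ) < j := hij
      simp only [Basis.repr_self, Finsupp.single_apply, Sum.inl.injEq, Fin.ext_iff]
      split_ifs <;> first | omega | simp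
  rw [hK]
  simp

/-- the centraliser element with prescribed determinant. -/
lemma exists_centralizer [FiniteDimensional F V] {C : End F V} {x y : V} {k : ℕ}
    (hannC : (C - 1) ^ k * G τ C = 0) (hy : G τ C y = 0)
    (B : Basis (Fin k ⊕ Fin 2) F V) (hB : ∀ i, B i = chainFam τ C x y k i) (a b : F) :
    ∃ Z : End F V, Z * C = C * Z ∧ LinearMap.det Z = a * a + τ * a * b + b * b := by
  classical
  let img : Fin k ⊕ Fin 2 → V := Sum.elim (fun j => B (Sum.inl j))
    ![a • B (Sum.inr 0) + b • B (Sum.inr 1), (-b) • B (Sum.inr 0) + (a + τ * b) • B (Sum.inr 1)]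
  let Z : End F V := B.constr F img
  have hZ : ∀ i, Z (B i) = img i := fun i => by simp [Z]
  have h_r0 : C (B (Sum.inr 0)) = B (Sum.inr 1) := by
    have h0 := hB (Sum.inr 0)
    have h1 := hB (Sum.inr 1)
    simp only [chainFam, Sum.elim_inr, Matrix.cons_val_zero, Matrix.cons_val_one] at h0 h1
    rw [h0, h1]
  have h_r1 : C (B (Sum.inr 1)) = τ • B (Sum.inr 1) - B (Sum.inr 0) := by
    have h0 := hB (Sum.inr 0)
    have h1 := hB (Sum.inr 1)
    simp only [chainFam, Sum.elim_inr, Matrix.cons_val_zero, Matrix.cons_val_one] at h0 h1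
    rw [h0, h1, L_L_y hy]
  have hZ0 : Z (B (Sum.inr 0)) = a • B (Sum.inr 0) + b • B (Sum.inr 1) := hZ _
  have hZ1 : Z (B (Sum.inr 1)) = (-b) • B (Sum.inr 0) + (a + τ * b) • B (Sum.inr 1) := hZ _
  have hZl : ∀ j, Z (B (Sum.inl j)) = B (Sum.inl j) := fun j => hZ _
  have hchain : ∀ n : ℕ, Z (((C - 1 : End F V) ^ n) (G τ C x)) = ((C - 1 : End F V) ^ n) (G τ C x) := by
    intro n
    by_cases hn : n < k
    · have h1 := hB (Sum.inl ⟨n, hn⟩)
      simp only [chainFam, Sum.elim_inl] at h1
      rw [← h1, hZl]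
    · push Not at hn
      rw [chain_pow_of_le hannC hn, map_zero]
  refine ⟨Z, ?_, ?_⟩
  · apply B.ext
    intro i
    rcases i with j | i
    · simp only [Module.End.mul_apply]
      have h1 := hB (Sum.inl j)
      simp only [chainFam, Sum.elim_inl] at h1
      rw [hZl, h1, L_chain, map_add, hchain, hchain]
    · fin_cases i
      · simp only [Module.End.mul_apply, Fin.zero_eta]
        rw [h_r0, hZ0, hZ1, map_add, map_smul, map_smul, h_r0, h_r1]
        module
      · simp only [Module.End.mul_apply, Fin.mk_one]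
        rw [h_r1, hZ1, map_sub, map_smul, hZ0, hZ1, map_add, map_smul, map_smul, h_r0, h_r1]
        module
  · rw [← LinearMap.det_toMatrix B]
    have hM : LinearMap.toMatrix B B Z =
        Matrix.fromBlocks 1 0 0 !![a, -b; b, a + τ * b] := by
      ext i j
      rcases i with i | i <;> rcases j with j | j
      · simp [LinearMap.toMatrix_apply, hZl, Matrix.one_apply, Finsupp.single_apply, eq_comm]
      · fin_cases j
        · simp [LinearMap.toMatrix_apply, hZ0]
        · simp [LinearMap.toMatrix_apply, hZ1]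
      · simp [LinearMap.toMatrix_apply, hZl]
      · fin_cases i <;> fin_cases j <;> simp [LinearMap.toMatrix_apply, hZ0, hZ1]
    rw [hM, Matrix.det_fromBlocks_zero₂₁, Matrix.det_fin_two_of]
    simp
    ring

/-- the final step. -/
theorem comm_of_good [FiniteDimensional F V] (hτ : (2 : F) - τ ≠ 0)
    (hsurj : ∀ d : F, ∃ a b : F, a * a + τ * a * b + b * b = d)
    {m : ℕ} (hV : finrank F V = m) (hm : 2 ≤ m) {A : End F V} {c : V} {b : V →ₗ[F] F}
    (h : Good τ m A c b) : Comm A := by
  obtain ⟨k, rfl⟩ : ∃ k, m = k + 2 := ⟨m - 2, by omega⟩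
  obtain ⟨L, C, hB, htL, htC⟩ := h
  have hannL : (L - 1) ^ k * G τ L = 0 := hB.annL
  have hannC : (C - 1) ^ k * G τ C = 0 := hB.annC
  obtain ⟨y, hy, hyi⟩ := hB.yL
  obtain ⟨y', hy', hyi'⟩ := hB.yC
  have htL' : ∀ j, k = j + 1 → ((L - 1) ^ j * G τ L) c ≠ 0 := by
    intro j hj
    subst hj
    exact htL (by omega)
  obtain ⟨x', hx'⟩ : ∃ x', ∀ j, k = j + 1 → ((C - 1) ^ j * G τ C) x' ≠ 0 := by
    cases k with
    | zero => exact ⟨0, fun j hj => by omega⟩
    | succ j =>
      have h1 := htC (by omega)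
      change b ∘ₗ ((C - 1) ^ j * G τ C) ≠ 0 at h1
      obtain ⟨x', hx'⟩ : ∃ x', (b ∘ₗ ((C - 1) ^ j * G τ C)) x' ≠ 0 := by
        by_contra hcon
        push Not at hcon
        exact h1 (LinearMap.ext hcon)
      refine ⟨x', fun i hi => ?_⟩
      obtain rfl : i = j := by omega
      intro h0
      apply hx'
      simp only [LinearMap.comp_apply]
      rw [h0, map_zero]
  obtain ⟨BL, hBL⟩ := exists_chain_basis hτ hV hannL htL' hy hyi
  obtain ⟨BC, hBC⟩ := exists_chain_basis hτ hV hannC hx' hy' hyi'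
  obtain ⟨P, hP⟩ := exists_conj hannL hannC hy hy' BL BC hBL hBC
  have hdetP : LinearMap.det (P : End F V) ≠ 0 := (LinearEquiv.isUnit_det' P).ne_zero
  obtain ⟨a₀, b₀, hab⟩ := hsurj (LinearMap.det (P : End F V))⁻¹
  obtain ⟨Z, hZC, hdetZ⟩ := exists_centralizer hannC hy' BC hBC a₀ b₀
  have hdetC := det_eq_one_of_chain hannC hy' BC hBC
  rw [hab] at hdetZ
  have hdetX : LinearMap.det ((P : End F V) * Z) = 1 := by
    rw [map_mul, hdetZ]
    exact mul_inv_cancel₀ hdetP
  have hXu : IsUnit ((P : End F V) * Z) := by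
    rw [LinearMap.isUnit_iff_isUnit_det, hdetX]
    exact isUnit_one
  have hCu : IsUnit C := by
    rw [LinearMap.isUnit_iff_isUnit_det, hdetC]
    exact isUnit_one
  obtain ⟨X, hX⟩ := hXu
  obtain ⟨Y, hY⟩ := hCu
  refine ⟨(X : End F V), (Y : End F V), ((X⁻¹ : (End F V)ˣ) : End F V), ((Y⁻¹ : (End F V)ˣ) : End F V),
    X.mul_inv, X.inv_mul, Y.mul_inv, Y.inv_mul, ?_, ?_, ?_⟩
  · rw [hX, hdetX]
  · rw [hY, hdetC]
  · have hPC : ((P : End F V) * Z) * C = L * ((P : End F V) * Z) := by
      rw [mul_assoc, hZC, ← mul_assoc]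
      have : (P : End F V) * C = L * (P : End F V) := by
        ext v
        exact hP v
      rw [this, mul_assoc]
    have hPC' : (X : End F V) * (Y : End F V) = L * (X : End F V) := by
      rw [hX, hY]; exact hPC
    have h1 : (X : End F V) * (Y : End F V) * ((X⁻¹ : (End F V)ˣ) : End F V) = L := by
      rw [hPC', mul_assoc, X.mul_inv, mul_one]
    rw [h1, ← hB.comp, ← hY, mul_assoc, Y.mul_inv, mul_one]

end Cfsg.Agent.SLComm
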