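import Mathlib
import Cfsg.Agent.Lib.SLComm.Defs

/-!
One step of the recursion: the Schur complement.
-/

set_option autoImplicit false

namespace Cfsg.Agent.SLComm

universe u
open Module

variable {F : Type u} [Field F] {V : Type u} [AddCommGroup V] [Module F V]

section Schur

variable (A : End F V) (e : V) (f : V →ₗ[F] F)

/-- the Schur complement of `A` on `ker f`. -/
def schur (h2 : f (A e) = 1) : End F (LinearMap.ker f) :=
  LinearMap.codRestrict (LinearMap.ker f)
    ((A - (f ∘ₗ A).smulRight (A e)) ∘ₗ (LinearMap.ker f).subtype)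
    (by intro x; simp [h2])

variable {A e f}

@[simp] lemma schur_coe (h2 : f (A e) = 1) (h : LinearMap.ker f) :
    ((schur A e f h2 h : LinearMap.ker f) : V) = A h - f (A h) • A e := by
  change (A - (f ∘ₗ A).smulRight (A e)) (h : V) = _
  simp

variable (A e f)

/-- the new top vector `A e - e`. -/
def cpr (h1 : f e = 1) (h2 : f (A e) = 1) : LinearMap.ker f :=
  ⟨A e - e, by simp [h1, h2]⟩

/-- the new top functional. -/
def bpr : LinearMap.ker f →ₗ[F] F := f ∘ₗ A ∘ₗ (LinearMap.ker f).subtype

variable {A e f}

@[simp] lemma cpr_coe (h1 : f e = 1) (h2 : f (A e) = 1) :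
    ((cpr A e f h1 h2 : LinearMap.ker f) : V) = A e - e := rfl

@[simp] lemma bpr_apply (h : LinearMap.ker f) : bpr A f h = f (A h) := rfl

variable (e f) in
/-- the projection onto `ker f` along `e`. -/
def prj (h1 : f e = 1) : V →ₗ[F] LinearMap.ker f :=
  LinearMap.codRestrict (LinearMap.ker f) (LinearMap.id - f.smulRight e)
    (by intro x; simp [h1])

@[simp] lemma prj_coe (h1 : f e = 1) (x : V) : ((prj e f h1 x : LinearMap.ker f) : V) = x - f x • e := by
  change (LinearMap.id - f.smulRight e : V →ₗ[F] V) x = _
  simp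

lemma prj_sub (h1 : f e = 1) (h : LinearMap.ker f) : prj e f h1 (h : V) = h := by
  ext
  have : f (h : V) = 0 := h.2
  simp [this]

lemma prj_self (h1 : f e = 1) : prj e f h1 e = 0 := by
  ext
  simp [h1]

lemma decomp_eq (h1 : f e = 1) (x : V) : x = f x • e + (prj e f h1 x : V) := by
  simp

lemma eq_smul_of_prj_eq_zero (h1 : f e = 1) {x : V} (hx : prj e f h1 x = 0) : x = f x • e := by
  have := decomp_eq h1 x
  rw [hx] at this
  simpa using this

end Schur

section Semi

variable {W : Type u} [AddCommGroup W] [Module F W]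

lemma semi_pow (φ : V →ₗ[F] W) (X : End F V) (Y : End F W) (h : ∀ x, φ (X x) = Y (φ x)) (k : ℕ)
    (x : V) : φ (((X - 1) ^ k) x) = ((Y - 1) ^ k) (φ x) := by
  induction k generalizing x with
  | zero => simp
  | succ k ih =>
    rw [pow_succ, pow_succ, Module.End.mul_apply, Module.End.mul_apply, ih]
    congr 1
    simp [h]

lemma semi_G (τ : F) (φ : V →ₗ[F] W) (X : End F V) (Y : End F W) (h : ∀ x, φ (X x) = Y (φ x))
    (x : V) : φ (G τ X x) = G τ Y (φ x) := by
  simp [G_apply, h]

lemma semi_both (τ : F) (φ : V →ₗ[F] W) (X : End F V) (Y : End F W) (h : ∀ x, φ (X x) = Y (φ x))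
    (k : ℕ) (x : V) : φ ((((X - 1) ^ k) * G τ X) x) = (((Y - 1) ^ k) * G τ Y) (φ x) := by
  rw [Module.End.mul_apply, Module.End.mul_apply, semi_pow φ X Y h, semi_G τ φ X Y h]

end Semi

lemma pow_succ_mul_G (τ : F) (L : End F V) (k : ℕ) :
    (L - 1) ^ (k + 1) * G τ L = ((L - 1) ^ k * G τ L) * (L - 1) := by
  rw [pow_succ, mul_assoc, mul_assoc, (commute_G τ L).eq]

lemma pow_succ_mul_G' (τ : F) (L : End F V) (k : ℕ) :
    (L - 1) ^ (k + 1) * G τ L = (L - 1) * ((L - 1) ^ k * G τ L) := by
  rw [pow_succ', mul_assoc]

/-- an annihilated endomorphism is injective. -/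
lemma injective_of_ann {τ : F} {C : End F V} {k : ℕ} (h : (C - 1) ^ k * G τ C = 0) :
    Function.Injective C := by
  rw [injective_iff_map_eq_zero]
  intro x hx
  have h1 : ∀ j : ℕ, ((C - 1) ^ j) x = (-1 : F) ^ j • x := by
    intro j
    induction j with
    | zero => simp
    | succ j ih =>
      rw [pow_succ, Module.End.mul_apply]
      have : (C - 1) x = (-1 : F) • x := by simp [hx]
      rw [this, map_smul, ih, pow_succ]
      simp
  have h2 : G τ C x = x := by simp [G_apply, hx]
  have h3 := congrArg (fun T : End F V => T x) h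
  simp only [Module.End.mul_apply, h2, h1, LinearMap.zero_apply] at h3
  rcases smul_eq_zero.mp h3 with h4 | h4
  · exact absurd h4 (pow_ne_zero _ (by simp))
  · exact h4

theorem level_step {τ : F} (hτ : (2 : F) - τ ≠ 0) [FiniteDimensional F V]
    {A : End F V} {e : V} {f : V →ₗ[F] F} {m : ℕ} (hm : 3 ≤ m) (h1 : f e = 1) (h2 : f (A e) = 1)
    {c : V} {b : V →ₗ[F] F} (hbe : b e ≠ 0) (hfc : f c ≠ 0)
    (h : Good τ (m - 1) (schur A e f h2) (cpr A e f h1 h2) (bpr A f)) : Good τ m A c b := by
  obtain ⟨k, rfl⟩ : ∃ k, m = k + 3 := ⟨m - 3, by omega⟩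
  obtain ⟨L', C', hB, htL, htC⟩ := h
  have hcomp : schur A e f h2 * C' = L' := hB.comp
  have hannL : (L' - 1) ^ k * G τ L' = 0 := hB.annL
  have hannC : (C' - 1) ^ k * G τ C' = 0 := hB.annC
  set ι := (LinearMap.ker f).subtype with hι
  set π := prj e f h1 with hπ
  have hπι : ∀ h : LinearMap.ker f, π (h : V) = h := prj_sub h1
  have hπe : π e = 0 := prj_self h1
  have hfι : ∀ h : LinearMap.ker f, f (h : V) = 0 := fun h => h.2
  set bb : LinearMap.ker f →ₗ[F] F := -(bpr A f ∘ₗ C') with hbb
  let L : End F V := f.smulRight (A e) + ι ∘ₗ L' ∘ₗ π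
  let C : End F V := (f + bb ∘ₗ π).smulRight e + ι ∘ₗ C' ∘ₗ π
  have L_apply : ∀ x, L x = f x • A e + ((L' (π x) : LinearMap.ker f) : V) := fun x => by
    simp [L, hι]
  have C_apply : ∀ x, C x = (f x + bb (π x)) • e + ((C' (π x) : LinearMap.ker f) : V) := fun x => by
    simp [C, hι]
  have L_ι : ∀ h : LinearMap.ker f, L (h : V) = (L' h : V) := fun h => by
    rw [L_apply, hπι, hfι]; simp
  have C_e : C e = e := by
    rw [C_apply, hπe, h1]; simp
  have C_ι : ∀ h : LinearMap.ker f, C (h : V) = bb h • e + (C' h : V) := fun h => by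
    rw [C_apply, hπι, hfι]; simp
  have π_C : ∀ x, π (C x) = C' (π x) := fun x => by
    rw [C_apply, map_add, map_smul, hπe, hπι]; simp
  -- `L - 1` lands in the kernel
  have hn : ∀ x, (L - 1) x = ((f x • cpr A e f h1 h2 + (L' - 1) (π x) : LinearMap.ker f) : V) := by
    intro x
    have hx := decomp_eq h1 x
    rw [LinearMap.sub_apply, Module.End.one_apply, L_apply]
    simp only [Submodule.coe_add, Submodule.coe_smul, cpr_coe, LinearMap.sub_apply,
      Module.End.one_apply, Submodule.coe_sub]
    have : ((π x : LinearMap.ker f) : V) = x - f x • e := prj_coe h1 x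
    rw [this]
    module
  have hι_L : ∀ x : LinearMap.ker f, ι (L' x) = L (ι x) := fun x => (L_ι x).symm
  have hfn : ∀ x, f ((L - 1) x) = 0 := fun x => by
    rw [hn]; exact LinearMap.mem_ker.mp (Subtype.property _)
  refine ⟨L, C, ⟨?_, ?_, ?_, ?_, ?_⟩, ?_, ?_⟩
  · -- composition
    ext x
    rw [Module.End.mul_apply, C_apply, L_apply, map_add, map_smul]
    have h3 : ((schur A e f h2 (C' (π x)) : LinearMap.ker f) : V) = (L' (π x) : V) := by
      rw [← hcomp]; rfl
    rw [schur_coe] at h3
    rw [← h3]
    have : bb (π x) = - f (A (C' (π x) : V)) := by simp [hbb]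
    rw [this]
    simp only [LinearMap.smul_apply, add_smul, neg_smul, LinearMap.add_apply]
    abel
  · -- annihilator of `L`
    change (L - 1) ^ (k + 1) * G τ L = 0
    rw [pow_succ_mul_G]
    ext x
    rw [Module.End.mul_apply, hn]
    have h3 := semi_both τ ι L' L hι_L k (f x • cpr A e f h1 h2 + (L' - 1) (π x))
    rw [hannL] at h3
    simp only [hι, Submodule.subtype_apply, LinearMap.zero_apply, ZeroMemClass.coe_zero] at h3 ⊢
    exact h3.symm
  · -- annihilator of `C`
    change (C - 1) ^ (k + 1) * G τ C = 0
    rw [pow_succ_mul_G']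
    ext x
    rw [Module.End.mul_apply]
    have h3 := semi_both τ π C C' π_C k x
    rw [hannC] at h3
    have h4 := eq_smul_of_prj_eq_zero h1 h3
    rw [h4, map_smul]
    simp [C_e]
  · -- `y` for `L`
    obtain ⟨y, hy, hi⟩ := hB.yL
    refine ⟨ι y, ?_, ?_⟩
    · have := semi_G τ ι L' L hι_L y
      rw [← this, hy]; simp
    · have h3 : LinearIndependent F (ι ∘ ![y, L' y]) :=
        hi.map' ι (Submodule.ker_subtype _)
      convert h3 using 1
      ext i
      fin_cases i
      · rfl
      · exact (L_ι y)
  · -- `y` for `C`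
    obtain ⟨y, hy, hi⟩ := hB.yC
    have h3 : π (G τ C (y : V)) = 0 := by
      rw [semi_G τ π C C' π_C, hπι, hy]
    have h4 := eq_smul_of_prj_eq_zero h1 h3
    have hGe : G τ C e = (2 - τ) • e := by
      rw [G_apply, C_e, C_e]; module
    set t := f (G τ C (y : V)) with ht
    refine ⟨(y : V) + (-(t / (2 - τ))) • e, ?_, ?_⟩
    · rw [map_add, map_smul, hGe, h4, smul_smul]
      have : -(t / (2 - τ)) * (2 - τ) = - t := by field_simp
      rw [this]
      simp
    · have hp : π ((y : V) + (-(t / (2 - τ))) • e) = y := by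
        rw [map_add, map_smul, hπe, hπι, smul_zero, add_zero]
      have hcomp' : (π ∘ ![(y : V) + (-(t / (2 - τ))) • e, C ((y : V) + (-(t / (2 - τ))) • e)])
          = ![y, C' y] := by
        funext i
        fin_cases i
        · simpa using hp
        · change π (C _) = C' y
          rw [π_C, hp]
      exact LinearIndependent.of_comp π (hcomp' ▸ hi)
  · -- top condition for `L`
    intro _
    change ((L - 1) ^ k * G τ L) c ≠ 0
    cases k with
    | zero =>
      intro h0
      have h3 : G τ L c = 0 := by simpa using h0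
      rw [G_eq] at h3
      have h4 := congrArg f h3
      simp only [LinearMap.add_apply, LinearMap.smul_apply, Module.End.mul_apply, map_add,
        map_smul, hfn, Module.End.one_apply, map_zero, smul_zero, zero_add, smul_eq_mul] at h4
      exact (mul_ne_zero hτ hfc) (by simpa using h4)
    | succ k =>
      rw [pow_succ_mul_G, Module.End.mul_apply, hn]
      have h3 := (semi_both τ ι L' L hι_L k (f c • cpr A e f h1 h2 + (L' - 1) (π c))).symm
      simp only [hι, Submodule.subtype_apply] at h3
      rw [h3]
      have h5 : (((L' - 1) ^ k * G τ L') ((L' - 1) (π c))) = 0 := by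
        have := pow_succ_mul_G τ L' k
        rw [hannL] at this
        have h6 := congrArg (fun T : End F (LinearMap.ker f) => T (π c)) this
        simpa using h6.symm
      rw [map_add, h5, add_zero, map_smul]
      have h7 := htL (by omega)
      change ((L' - 1) ^ k * G τ L') (cpr A e f h1 h2) ≠ 0 at h7
      intro h0
      have h8 : f c • ((L' - 1) ^ k * G τ L') (cpr A e f h1 h2) = 0 := by
        exact Subtype.ext h0
      rcases smul_eq_zero.mp h8 with h9 | h9
      · exact hfc h9
      · exact h7 h9
  · -- top condition for `C`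
    intro _
    change b ∘ₗ ((C - 1) ^ k * G τ C) ≠ 0
    cases k with
    | zero =>
      intro h0
      have h3 := congrArg (fun T : V →ₗ[F] F => T e) h0
      have hGe : G τ C e = (2 - τ) • e := by
        rw [G_apply, C_e, C_e]; module
      simp [hGe] at h3
      rcases h3 with h3 | h3
      · exact hτ h3
      · exact hbe h3
    | succ k =>
      intro h0
      have h7 := htC (by omega)
      change bpr A f ∘ₗ ((C' - 1) ^ k * G τ C') ≠ 0 at h7
      obtain ⟨h₀, hh₀⟩ : ∃ h₀, (bpr A f ∘ₗ ((C' - 1) ^ k * G τ C')) h₀ ≠ 0 := by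
        by_contra hcon
        push Not at hcon
        exact h7 (LinearMap.ext hcon)
      have hinj : Function.Injective C' := injective_of_ann hannC
      obtain ⟨h₁, rfl⟩ := (LinearMap.injective_iff_surjective.mp hinj) h₀
      set T' := (C' - 1) ^ k * G τ C' with hT'
      have hcT : C' (T' h₁) = T' (C' h₁) := by
        have hc : Commute C' T' := by
          apply Commute.mul_right
          · apply Commute.pow_right
            exact (Commute.refl _).sub_right (Commute.one_right _)
          · rw [G]
            apply Commute.add_right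
            · apply Commute.sub_right
              · exact (Commute.refl _).mul_right (Commute.refl _)
              · exact (Commute.refl _).smul_right _
            · exact Commute.one_right _
        exact congrArg (fun T : End F (LinearMap.ker f) => T h₁) hc.eq
      have h3 := congrArg (fun T : V →ₗ[F] F => T (h₁ : V)) h0
      simp only [LinearMap.comp_apply, LinearMap.zero_apply] at h3
      rw [pow_succ_mul_G', Module.End.mul_apply] at h3
      set T := (C - 1) ^ k * G τ C with hT
      have h4 : π (T (h₁ : V)) = T' h₁ := by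
        have := semi_both τ π C C' π_C k (h₁ : V)
        rw [hπι] at this
        exact this
      have h5 : T (h₁ : V) = f (T (h₁ : V)) • e + (T' h₁ : V) := by
        rw [← h4]; exact decomp_eq h1 _
      rw [h5, map_add, map_smul] at h3
      have h6 : (C - 1) e = 0 := by simp [C_e]
      have h8 : (C - 1) ((T' h₁ : LinearMap.ker f) : V) = bb (T' h₁) • e +
          ((C' - 1) (T' h₁) : LinearMap.ker f) := by
        rw [LinearMap.sub_apply, C_ι]
        simp only [Module.End.one_apply, LinearMap.sub_apply, Submodule.coe_sub]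
        abel
      have h9 : (C' - 1) (T' h₁) = 0 := by
        have h10 : (C' - 1) * T' = 0 := by
          rw [hT', ← pow_succ_mul_G']; exact hannC
        exact congrArg (fun T : End F (LinearMap.ker f) => T h₁) h10
      rw [h6, smul_zero, zero_add, h8, h9] at h3
      simp only [ZeroMemClass.coe_zero, add_zero, map_smul, smul_eq_mul] at h3
      have h10 : bb (T' h₁) = - bpr A f (T' (C' h₁)) := by
        simp [hbb, hcT]
      rcases mul_eq_zero.mp h3 with h11 | h11
      · rw [h10] at h11
        apply hh₀
        simpa using h11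
      · exact hbe h11

end Cfsg.Agent.SLComm
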