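import Mathlib
import Cfsg.Agent.Lib.SLComm.Step
import Cfsg.Agent.Lib.SLComm.Final

/-!
The base of the recursion, dimension two; and `det (schur) = det`.
-/

set_option autoImplicit false

namespace Cfsg.Agent.SLComm

universe u
open Module

variable {F : Type u} [Field F] {V : Type u} [AddCommGroup V] [Module F V]

section Numbers

lemma two_sub_ne {τ : F} (h : τ * τ ≠ 4) : (2 : F) - τ ≠ 0 := by
  intro h0
  apply h
  have : τ = 2 := by linear_combination -h0
  rw [this]; norm_num

lemma form_universal [Fintype F] {τ : F} (h : τ * τ ≠ 4) (d : F) :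
    ∃ a b : F, a * a + τ * a * b + b * b = d := by
  classical
  by_cases h2 : ringChar F = 2
  · obtain ⟨a, ha⟩ := FiniteField.isSquare_of_char_two h2 d
    exact ⟨a, 0, by simp [ha]⟩
  · have hodd : Fintype.card F % 2 = 1 := FiniteField.odd_card_of_char_ne_two h2
    have h2' : (2 : F) ≠ 0 := Ring.two_ne_zero h2
    set κ : F := 1 - τ * τ / 4 with hκ
    have h4 : (4 : F) ≠ 0 := by
      have : (4 : F) = 2 * 2 := by norm_num
      rw [this]; exact mul_ne_zero h2' h2'
    have hκ0 : κ ≠ 0 := by
      intro h0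
      apply h
      rw [hκ] at h0
      field_simp at h0
      linear_combination -h0
    let f : Polynomial F := Polynomial.X ^ 2
    let g : Polynomial F := Polynomial.C κ * Polynomial.X ^ 2 + Polynomial.C 0 * Polynomial.X +
      Polynomial.C (-d)
    have hf : f.degree = 2 := by simp [f]
    have hg : g.degree = 2 := Polynomial.degree_quadratic hκ0
    obtain ⟨u, w, huw⟩ := FiniteField.exists_root_sum_quadratic hf hg hodd
    simp only [f, g, Polynomial.eval_pow, Polynomial.eval_X, Polynomial.eval_add,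
      Polynomial.eval_mul, Polynomial.eval_C] at huw
    refine ⟨u - τ * w / 2, w, ?_⟩
    have h3 : (u - τ * w / 2) * (u - τ * w / 2) + τ * (u - τ * w / 2) * w + w * w =
        u ^ 2 + κ * w ^ 2 := by
      rw [hκ]; field_simp; ring
    rw [h3]
    linear_combination huw

/-- a good choice of `τ`. -/
lemma exists_tau [Fintype F] :
    ∃ τ : F, τ * τ ≠ 4 ∧ ((τ = 0 ∧ (2 : F) ≠ 0) ∨ (τ = 1 ∧ (2 : F) = 0)) := by
  by_cases h2 : (2 : F) = 0
  · refine ⟨1, ?_, Or.inr ⟨rfl, h2⟩⟩
    have : (4 : F) = 2 * 2 := by norm_num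
    rw [this, h2]; simp
  · refine ⟨0, ?_, Or.inl ⟨rfl, h2⟩⟩
    have : (4 : F) = 2 * 2 := by norm_num
    rw [this]
    simpa using (mul_ne_zero h2 h2).symm

end Numbers

section Det

variable [FiniteDimensional F V]

/-- the Schur complement has the same determinant. -/
lemma det_schur {A : End F V} {e : V} {f : V →ₗ[F] F} (h1 : f e = 1) (h2 : f (A e) = 1) :
    LinearMap.det (schur A e f h2) = LinearMap.det A := by
  set S := schur A e f h2 with hS
  set π := prj e f h1 with hπ
  let E : V ≃ₗ[F] F × LinearMap.ker f :=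
    LinearEquiv.ofLinear (f.prod π)
      ((LinearMap.id.smulRight e).coprod (LinearMap.ker f).subtype)
      (by
        ext x
        · simp [h1]
        · simp [prj_self h1, hπ]
        · simp [prj_self h1, hπ]
        · simp [prj_sub h1, hπ])
      (by
        ext x
        simp [hπ])
  let Sext : End F V := (E.symm : (F × LinearMap.ker f) →ₗ[F] V) ∘ₗ
    (LinearMap.prodMap LinearMap.id S) ∘ₗ (E : V →ₗ[F] (F × LinearMap.ker f))
  have hSext_e : Sext e = e := by
    simp [Sext, E, h1, prj_self h1, hπ]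
  have hSext_h : ∀ h : LinearMap.ker f, Sext (h : V) = (S h : V) := by
    intro h
    have : f (h : V) = 0 := h.2
    simp [Sext, E, this, prj_sub h1, hπ]
  have hdetS : LinearMap.det Sext = LinearMap.det S := by
    have : LinearMap.det Sext = LinearMap.det (LinearMap.prodMap (LinearMap.id : F →ₗ[F] F) S) := by
      simpa [Sext] using LinearMap.det_conj (LinearMap.prodMap (LinearMap.id : F →ₗ[F] F) S) E.symm
    rw [this, LinearMap.det_prodMap]
    simp
  let φ : V →ₗ[F] F := bpr A f ∘ₗ π
  have hT₁ : LinearMap.det (LinearMap.transvection f (A e - e)) = 1 := by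
    rw [LinearMap.transvection.det]
    simp [h1, h2]
  have hT₂ : LinearMap.det (LinearMap.transvection φ e) = 1 := by
    rw [LinearMap.transvection.det]
    simp [φ, prj_self h1, hπ]
  have hfac : A = LinearMap.transvection f (A e - e) * Sext * LinearMap.transvection φ e := by
    ext x
    have hx := decomp_eq h1 x
    simp only [Module.End.mul_apply, LinearMap.transvection.apply]
    have hφx : φ x = f (A (π x)) := rfl
    have hSh := schur_coe h2 (π x)
    have hx2 : x + φ x • e = (f x + φ x) • e + (π x : V) := by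
      rw [hπ, prj_coe]; module
    have hSS : Sext (x + φ x • e) = (f x + φ x) • e + ((S (π x) : LinearMap.ker f) : V) := by
      rw [hx2, map_add, map_smul, hSext_e, hSext_h]
    rw [hSS]
    have hfS : f ((S (π x) : LinearMap.ker f) : V) = 0 := (S (π x)).2
    have hAx : A x = f x • A e + A (π x : V) := by
      conv_lhs => rw [hx, map_add, map_smul]
    rw [map_add, map_smul, h1, hfS, hSh, ← hφx, hAx]
    simp only [smul_eq_mul, mul_one, add_zero]
    module
  rw [hfac, map_mul, map_mul, hT₁, hT₂, hdetS]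
  simp

end Det

section Two

variable {H : Type u} [AddCommGroup H] [Module F H]

/-- Cayley–Hamilton in a two dimensional space, in a basis. -/
lemma G_eq_zero_of_entries {τ : F} (B : Basis (Fin 2) F H) {M : End F H} {p q r s : F}
    (h0 : M (B 0) = p • B 0 + r • B 1) (h1 : M (B 1) = q • B 0 + s • B 1)
    (htr : p + s = τ) (hdet : p * s - q * r = 1) : G τ M = 0 := by
  apply B.ext
  intro i
  fin_cases i
  · simp only [Fin.zero_eta, G_apply, LinearMap.zero_apply]
    rw [h0, map_add, map_smul, map_smul, h0, h1, ← htr]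
    have e1 : (p + s) * p - (p * p + r * q) - 1 + 0 = (p * s - q * r - 1) := by ring
    have e2 : (p + s) * r - (p * r + r * s) = 0 := by ring
    have : p • (p • B 0 + r • B 1) + r • (q • B 0 + s • B 1) - (p + s) • (p • B 0 + r • B 1) + B 0 =
        (1 - (p * s - q * r)) • B 0 := by module
    rw [this, hdet]; simp
  · simp only [Fin.mk_one, G_apply, LinearMap.zero_apply]
    rw [h1, map_add, map_smul, map_smul, h0, h1, ← htr]
    have : q • (p • B 0 + r • B 1) + s • (q • B 0 + s • B 1) - (p + s) • (q • B 0 + s • B 1) + B 1 =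
        (1 - (p * s - q * r)) • B 1 := by module
    rw [this, hdet]; simp

/-- a matrix of trace `τ`, `τ² ≠ 4`, determinant one is not a scalar. -/
lemma exists_y_of_entries {τ : F} (hτ : τ * τ ≠ 4) (B : Basis (Fin 2) F H) {M : End F H}
    {p q r s : F}
    (h0 : M (B 0) = p • B 0 + r • B 1) (h1 : M (B 1) = q • B 0 + s • B 1)
    (htr : p + s = τ) (hdet : p * s - q * r = 1) :
    ∃ y, G τ M y = 0 ∧ LinearIndependent F ![y, M y] := by
  have hG := G_eq_zero_of_entries B h0 h1 htr hdet
  have hli : ∀ a b c d : F, a * d - b * c ≠ 0 → LinearIndependent F ![a • B 0 + b • B 1, c • B 0 + d • B 1] := by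
    intro a b c d hne
    rw [LinearIndependent.pair_iff]
    intro x y hxy
    have hxy' : (x * a + y * c) • B 0 + (x * b + y * d) • B 1 = 0 := by
      rw [← hxy]; module
    have hBfun : (⇑B : Fin 2 → H) = ![B 0, B 1] := by
      funext i; fin_cases i <;> rfl
    have hB := LinearIndependent.pair_iff.mp (hBfun ▸ B.linearIndependent :
      LinearIndependent F ![B 0, B 1]) _ _ hxy'
    obtain ⟨h3, h4⟩ := hB
    have h5 : x * (a * d - b * c) = 0 := by linear_combination d * h3 - c * h4
    have h6 : y * (a * d - b * c) = 0 := by linear_combination a * h4 - b * h3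
    exact ⟨(mul_eq_zero.mp h5).resolve_right hne, (mul_eq_zero.mp h6).resolve_right hne⟩
  by_cases hr : r ≠ 0
  · refine ⟨B 0, by rw [hG]; rfl, ?_⟩
    rw [h0]
    have := hli 1 0 p r (by simpa using hr)
    simpa using this
  push Not at hr
  by_cases hq : q ≠ 0
  · refine ⟨B 1, by rw [hG]; rfl, ?_⟩
    rw [h1]
    have := hli 0 1 q s (by simpa using hq)
    simpa using this
  push Not at hq
  refine ⟨B 0 + B 1, by rw [hG]; rfl, ?_⟩
  have hne : s - p ≠ 0 := by
    intro h
    apply hτ
    have hs : s = p := by linear_combination h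
    subst hs
    rw [hq, hr] at hdet
    rw [← htr]
    linear_combination 4 * hdet
  rw [map_add, h0, h1, hr, hq]
  have := hli 1 1 p s (by simpa using hne)
  simpa using this

lemma exists_conic [Fintype F] {τ : F} (hτ : (τ = 0 ∧ (2 : F) ≠ 0) ∨ (τ = 1 ∧ (2 : F) = 0)) {t : F}
    (ht : t * t ≠ 4) :
    ∃ a b c d : F, a + d = τ ∧ a * d - b * c = 1 ∧ -c + (b + d * t) = τ := by
  classical
  rcases hτ with ⟨rfl, h2⟩ | ⟨rfl, h2⟩
  · have ht' : (-t) * (-t) ≠ 4 := by simpa using ht
    obtain ⟨a, b, hab⟩ := form_universal ht' (-1)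
    refine ⟨a, b, b - t * a, -a, by ring, ?_, by ring⟩
    linear_combination -hab
  · have h4 : (4 : F) = 0 := by
      have : (4 : F) = 2 * 2 := by norm_num
      rw [this, h2]; simp
    have ht0 : t ≠ 0 := by
      intro h0
      apply ht
      rw [h0, h4]; simp
    have hchar : ringChar F = 2 := by
      haveI : CharP F 2 := by
        have := ringChar.charP F
        exact (CharTwo.of_one_ne_zero_of_two_eq_zero (R := F) one_ne_zero h2)
      exact ringChar.eq F 2
    obtain ⟨a, ha⟩ := FiniteField.isSquare_of_char_two hchar ((t + 1) / t)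
    have ha' : t * (a * a) = t + 1 := by
      rw [← ha]; field_simp
    refine ⟨a, a + 1, a + t + t * a, 1 + a, ?_, ?_, by ring⟩
    · linear_combination a * h2
    · linear_combination (-1 : F) * ha' - (a * t + t + 1) * h2

/-- `S` in companion form has a solution. -/
theorem good2_of_companion [Fintype F] {τ : F} (hτ4 : τ * τ ≠ 4)
    (hτ : (τ = 0 ∧ (2 : F) ≠ 0) ∨ (τ = 1 ∧ (2 : F) = 0)) (B : Basis (Fin 2) F H) {S : End F H} {t : F}
    (h0 : S (B 0) = B 1) (h1 : S (B 1) = t • B 1 - B 0) (ht : t * t ≠ 4)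
    (x : H) (y : H →ₗ[F] F) : Good τ 2 S x y := by
  obtain ⟨a, b, c, d, h3, h4, h5⟩ := exists_conic hτ ht
  let C : End F H := B.constr F ![a • B 0 + c • B 1, b • B 0 + d • B 1]
  have hC0 : C (B 0) = a • B 0 + c • B 1 := by simp [C]
  have hC1 : C (B 1) = b • B 0 + d • B 1 := by simp [C]
  have hL0 : (S * C) (B 0) = (-c) • B 0 + (a + c * t) • B 1 := by
    rw [Module.End.mul_apply, hC0, map_add, map_smul, map_smul, h0, h1]; module
  have hL1 : (S * C) (B 1) = (-d) • B 0 + (b + d * t) • B 1 := by
    rw [Module.End.mul_apply, hC1, map_add, map_smul, map_smul, h0, h1]; module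
  have htrL : -c + (b + d * t) = τ := h5
  have hdetL : (-c) * (b + d * t) - (-d) * (a + c * t) = 1 := by linear_combination h4
  refine ⟨S * C, C, ⟨rfl, ?_, ?_, ?_, ?_⟩, by omega, by omega⟩
  · simp [G_eq_zero_of_entries B hL0 hL1 htrL hdetL]
  · simp [G_eq_zero_of_entries B hC0 hC1 h3 h4]
  · exact exists_y_of_entries hτ4 B hL0 hL1 htrL hdetL
  · exact exists_y_of_entries hτ4 B hC0 hC1 h3 h4

/-- `-1` has a solution. -/
theorem good2_of_neg_one {τ : F} (hτ4 : τ * τ ≠ 4) (hτ0 : τ = 0) (h2 : (2 : F) ≠ 0)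
    (B : Basis (Fin 2) F H) {S : End F H} (hS : ∀ v, S v = -v)
    (x : H) (y : H →ₗ[F] F) : Good τ 2 S x y := by
  subst hτ0
  let C : End F H := B.constr F ![B 1, -B 0]
  have hC0 : C (B 0) = (0 : F) • B 0 + (1 : F) • B 1 := by simp [C]
  have hC1 : C (B 1) = (-1 : F) • B 0 + (0 : F) • B 1 := by simp [C]
  have hL0 : (S * C) (B 0) = (0 : F) • B 0 + (-1 : F) • B 1 := by
    rw [Module.End.mul_apply, hC0, hS]; module
  have hL1 : (S * C) (B 1) = (1 : F) • B 0 + (0 : F) • B 1 := by
    rw [Module.End.mul_apply, hC1, hS]; module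
  refine ⟨S * C, C, ⟨rfl, ?_, ?_, ?_, ?_⟩, by omega, by omega⟩
  · simp [G_eq_zero_of_entries (τ := 0) B hL0 hL1 (by ring) (by ring)]
  · simp [G_eq_zero_of_entries (τ := 0) B hC0 hC1 (by ring) (by ring)]
  · exact exists_y_of_entries hτ4 B hL0 hL1 (by ring) (by ring)
  · exact exists_y_of_entries hτ4 B hC0 hC1 (by ring) (by ring)

lemma exists_basis_pair [FiniteDimensional F H] (hH : finrank F H = 2) {v w : H}
    (hl : LinearIndependent F ![v, w]) : ∃ B : Basis (Fin 2) F H, B 0 = v ∧ B 1 = w := by
  have hc : Fintype.card (Fin 2) = finrank F H := by simp [hH]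
  refine ⟨basisOfLinearIndependentOfCardEqFinrank hl hc, by simp, by simp⟩

/-- determinant in companion form -/
lemma det_companion [FiniteDimensional F H] (B : Basis (Fin 2) F H) {S : End F H} {t n : F}
    (h0 : S (B 0) = B 1) (h1 : S (B 1) = t • B 1 - n • B 0) : LinearMap.det S = n := by
  rw [← LinearMap.det_toMatrix B]
  have : LinearMap.toMatrix B B S = !![0, -n; 1, t] := by
    ext i j
    fin_cases i <;> fin_cases j <;> simp [LinearMap.toMatrix_apply, h0, h1]
  rw [this, Matrix.det_fin_two_of]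
  ring

/-- the form of the base case used by the recursion. -/
theorem good2_of_cyclic [Fintype F] [FiniteDimensional F H] {τ : F} (hτ4 : τ * τ ≠ 4)
    (hτ : (τ = 0 ∧ (2 : F) ≠ 0) ∨ (τ = 1 ∧ (2 : F) = 0)) (hH : finrank F H = 2) {S : End F H} {v : H}
    {t n : F} (hl : LinearIndependent F ![v, S v]) (hS : S (S v) = t • S v - n • v)
    (hdet : LinearMap.det S = 1) (ht : t * t ≠ 4) (x : H) (y : H →ₗ[F] F) : Good τ 2 S x y := by
  obtain ⟨B, hB0, hB1⟩ := exists_basis_pair hH hl
  have h0 : S (B 0) = B 1 := by rw [hB0, hB1]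
  have h1' : S (B 1) = t • B 1 - n • B 0 := by rw [hB0, hB1, hS]
  have hn : n = 1 := by rw [← det_companion B h0 h1', hdet]
  have h1 : S (B 1) = t • B 1 - B 0 := by rw [h1', hn, one_smul]
  exact good2_of_companion hτ4 hτ B h0 h1 ht x y

end Two

end Cfsg.Agent.SLComm
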