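import Mathlib
import Cfsg.Agent.Lib.SLComm.Level2

/-!
Cyclic subspaces and how they behave under the Schur complement.
-/

set_option autoImplicit false

namespace Cfsg.Agent.SLComm

universe u
open Module Polynomial

variable {F : Type u} [Field F] {V : Type u} [AddCommGroup V] [Module F V]

/-- the cyclic subspace generated by `v`. -/
noncomputable def kry (A : End F V) (v : V) : Submodule F V :=
  LinearMap.range (LinearMap.applyₗ v ∘ₗ (aeval A : F[X] →ₐ[F] End F V).toLinearMap)

lemma mem_kry {A : End F V} {v x : V} : x ∈ kry A v ↔ ∃ p : F[X], aeval A p v = x := by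
  simp [kry]

lemma self_mem_kry (A : End F V) (v : V) : v ∈ kry A v :=
  mem_kry.mpr ⟨1, by simp⟩

lemma kry_inv (A : End F V) (v : V) {x : V} (hx : x ∈ kry A v) : A x ∈ kry A v := by
  obtain ⟨p, rfl⟩ := mem_kry.mp hx
  refine mem_kry.mpr ⟨X * p, ?_⟩
  simp

lemma kry_le {A : End F V} {v : V} {N : Submodule F V} (hN : ∀ x ∈ N, A x ∈ N) (hv : v ∈ N) :
    kry A v ≤ N := by
  intro x hx
  obtain ⟨p, rfl⟩ := mem_kry.mp hx
  induction p using Polynomial.induction_on' with
  | add p q hp hq =>
    simp only [map_add, LinearMap.add_apply]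
    exact N.add_mem (hp (mem_kry.mpr ⟨p, rfl⟩)) (hq (mem_kry.mpr ⟨q, rfl⟩))
  | monomial n a =>
    have h1 : ∀ n : ℕ, (A ^ n) v ∈ N := by
      intro n
      induction n with
      | zero => simpa using hv
      | succ n ih =>
        rw [pow_succ', Module.End.mul_apply]
        exact hN _ ih
    have : aeval A (monomial n a) v = a • (A ^ n) v := by
      rw [aeval_monomial]
      simp [Module.algebraMap_end_apply]
    rw [this]
    exact N.smul_mem _ (h1 n)

lemma sub_one_mem_of_inv {A : End F V} {N : Submodule F V} (hN : ∀ x ∈ N, A x ∈ N) {x : V}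
    (hx : x ∈ N) : (A - 1) x ∈ N := by
  simpa using N.sub_mem (hN x hx) hx

/-- invariance under `A` follows from invariance under `A - 1`. -/
lemma inv_of_sub_one {A : End F V} {N : Submodule F V} (hN : ∀ x ∈ N, (A - 1) x ∈ N) {x : V}
    (hx : x ∈ N) : A x ∈ N := by
  have := N.add_mem (hN x hx) hx
  simpa using this

section Dim

variable [FiniteDimensional F V]

lemma li_two_of_finrank {A : End F V} {v : V} (h : 2 ≤ finrank F (kry A v)) :
    LinearIndependent F ![v, (A - 1) v] := by
  by_contra hcon
  have hle : kry A v ≤ Submodule.span F {v} := by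
    by_cases hv : v = 0
    · subst hv
      apply kry_le
      · intro x hx
        have : x = 0 := by simpa using hx
        subst this; simp
      · simp
    · have hex : ∃ t : F, (A - 1) v = t • v := by
        by_contra hno
        push Not at hno
        apply hcon
        rw [LinearIndependent.pair_iff]
        intro s t hst
        by_cases ht : t = 0
        · subst ht
          simp only [zero_smul, add_zero] at hst
          exact ⟨(smul_eq_zero.mp hst).resolve_right hv, rfl⟩
        · exfalso
          apply hno (-(s / t))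
          have : t • (A - 1) v = (-s) • v := by
            rw [neg_smul]; exact eq_neg_of_add_eq_zero_right hst
          calc (A - 1) v = t⁻¹ • (t • (A - 1) v) := by rw [smul_smul, inv_mul_cancel₀ ht, one_smul]
            _ = -(s / t) • v := by rw [this, smul_smul]; congr 1; field_simp
      obtain ⟨t, ht⟩ := hex
      apply kry_le
      · intro x hx
        obtain ⟨s, rfl⟩ := Submodule.mem_span_singleton.mp hx
        rw [map_smul]
        apply Submodule.smul_mem
        have : A v = (t + 1) • v := by
          have h0 : A v = (A - 1) v + v := by simp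
          rw [h0, ht]; module
        rw [this]
        exact Submodule.smul_mem _ _ (Submodule.mem_span_singleton_self v)
      · exact Submodule.mem_span_singleton_self v
  have h1 := Submodule.finrank_mono hle
  have h2 : finrank F (Submodule.span F {v}) ≤ 1 := by
    have := finrank_range_le_card (R := F) (fun _ : Fin 1 => v)
    rw [Set.range_const] at this
    simpa [Set.finrank] using this
  omega

lemma finrank_span_pair_le (v w : V) : finrank F (Submodule.span F (Set.range ![v, w])) ≤ 2 := by
  have := finrank_range_le_card (R := F) ![v, w]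
  simpa [Set.finrank] using this

lemma li_three_of_finrank {A : End F V} {v : V} (h : 3 ≤ finrank F (kry A v)) :
    LinearIndependent F ![v, (A - 1) v, (A - 1) ((A - 1) v)] := by
  have h2 := li_two_of_finrank (A := A) (v := v) (by omega)
  have hs : (![v, (A - 1) v, (A - 1) ((A - 1) v)] : Fin 3 → V) =
      Fin.snoc ![v, (A - 1) v] ((A - 1) ((A - 1) v)) := by
    funext i
    fin_cases i <;> simp [Fin.snoc]
  rw [hs, linearIndependent_fin_snoc]
  refine ⟨h2, fun hmem => ?_⟩
  obtain ⟨w, hw⟩ := Submodule.mem_span_range_iff_exists_fun F |>.mp hmem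
  simp only [Fin.sum_univ_two, Matrix.cons_val_zero, Matrix.cons_val_one] at hw
  have hle : kry A v ≤ Submodule.span F (Set.range ![v, (A - 1) v]) := by
    apply kry_le
    · apply inv_of_sub_one
      intro x hx
      obtain ⟨t, rfl⟩ := Submodule.mem_span_range_iff_exists_fun F |>.mp hx
      simp only [Fin.sum_univ_two, Matrix.cons_val_zero, Matrix.cons_val_one, map_add, map_smul]
      apply Submodule.add_mem
      · exact Submodule.smul_mem _ _ (Submodule.subset_span ⟨1, by simp⟩)
      · exact Submodule.smul_mem _ _ hmem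
    · exact Submodule.subset_span ⟨0, by simp⟩
  have h1 := Submodule.finrank_mono hle
  have := finrank_span_pair_le (F := F) v ((A - 1) v)
  omega

lemma sub_one_mem_kry (A : End F V) (v : V) {x : V} (hx : x ∈ kry A v) : (A - 1) x ∈ kry A v :=
  sub_one_mem_of_inv (fun _ h => kry_inv A v h) hx

lemma exists_rel_two {A : End F V} {c : V} (h : finrank F (kry A c) = 2) :
    ∃ α β : F, (A - 1) ((A - 1) c) = α • (A - 1) c + β • c := by
  have h2 := li_two_of_finrank (A := A) (v := c) (by omega)
  have hle : Submodule.span F (Set.range ![c, (A - 1) c]) ≤ kry A c := by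
    rw [Submodule.span_le]
    rintro _ ⟨i, rfl⟩
    fin_cases i
    · exact self_mem_kry A c
    · exact sub_one_mem_kry A c (self_mem_kry A c)
  have hfr : finrank F (Submodule.span F (Set.range ![c, (A - 1) c])) = 2 := by
    rw [finrank_span_eq_card h2]; simp
  have heq := Submodule.eq_of_le_of_finrank_eq hle (by omega)
  have hmem : (A - 1) ((A - 1) c) ∈ kry A c := sub_one_mem_kry A c (sub_one_mem_kry A c (self_mem_kry A c))
  rw [← heq] at hmem
  obtain ⟨w, hw⟩ := Submodule.mem_span_range_iff_exists_fun F |>.mp hmem
  simp only [Fin.sum_univ_two, Matrix.cons_val_zero, Matrix.cons_val_one] at hw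
  exact ⟨w 1, w 0, by rw [← hw, add_comm]⟩

lemma exists_rel_three {A : End F V} {c : V} (h : finrank F (kry A c) = 3) :
    ∃ σ₂ σ₁ σ₀ : F, (A - 1) ((A - 1) ((A - 1) c)) =
      σ₂ • (A - 1) ((A - 1) c) + σ₁ • (A - 1) c + σ₀ • c := by
  have h2 := li_three_of_finrank (A := A) (v := c) (by omega)
  have hle : Submodule.span F (Set.range ![c, (A - 1) c, (A - 1) ((A - 1) c)]) ≤ kry A c := by
    rw [Submodule.span_le]
    rintro _ ⟨i, rfl⟩
    fin_cases i
    · exact self_mem_kry A c
    · exact sub_one_mem_kry A c (self_mem_kry A c)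
    · exact sub_one_mem_kry A c (sub_one_mem_kry A c (self_mem_kry A c))
  have hfr : finrank F (Submodule.span F (Set.range ![c, (A - 1) c, (A - 1) ((A - 1) c)])) = 3 := by
    rw [finrank_span_eq_card h2]; simp
  have heq := Submodule.eq_of_le_of_finrank_eq hle (by omega)
  have hmem : (A - 1) ((A - 1) ((A - 1) c)) ∈ kry A c :=
    sub_one_mem_kry A c (sub_one_mem_kry A c (sub_one_mem_kry A c (self_mem_kry A c)))
  rw [← heq] at hmem
  obtain ⟨w, hw⟩ := Submodule.mem_span_range_iff_exists_fun F |>.mp hmem
  simp only [Fin.sum_univ_three, Matrix.cons_val_zero, Matrix.cons_val_one, Matrix.cons_val] at hw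
  exact ⟨w 2, w 1, w 0, by rw [← hw]; abel⟩

/-- prescribing a functional on an independent family, vanishing on a disjoint subspace. -/
lemma exists_functional {n : ℕ} {v : Fin n → V} (hli : LinearIndependent F v) {W : Submodule F V}
    (hd : Disjoint (Submodule.span F (Set.range v)) W) (t : Fin n → F) :
    ∃ f : V →ₗ[F] F, (∀ i, f (v i) = t i) ∧ W ≤ LinearMap.ker f := by
  have hli' : LinearIndependent F (W.mkQ ∘ v) := by
    apply hli.map
    rwa [Submodule.ker_mkQ]
  let g₀ : Submodule.span F (Set.range (W.mkQ ∘ v)) →ₗ[F] F :=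
    (Finsupp.linearCombination F t) ∘ₗ hli'.repr
  obtain ⟨g, hg⟩ := LinearMap.exists_extend g₀
  refine ⟨g ∘ₗ W.mkQ, ?_, ?_⟩
  · intro i
    have hmem : W.mkQ (v i) ∈ Submodule.span F (Set.range (W.mkQ ∘ v)) :=
      Submodule.subset_span ⟨i, rfl⟩
    have h1 := LinearMap.congr_fun hg ⟨W.mkQ (v i), hmem⟩
    simp only [LinearMap.comp_apply, Submodule.subtype_apply] at h1 ⊢
    rw [h1]
    simp only [g₀, LinearMap.comp_apply]
    have h2 : hli'.repr ⟨W.mkQ (v i), hmem⟩ = Finsupp.single i 1 := hli'.repr_eq_single i _ rfl
    rw [h2]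
    simp
  · intro x hx
    simp only [LinearMap.mem_ker, LinearMap.comp_apply]
    have : W.mkQ x = 0 := by simpa using hx
    rw [this, map_zero]

end Dim

section SchurTransfer

variable {A : End F V} {e : V} {f : V →ₗ[F] F}

/-- shorthand for the inclusion of the hyperplane. -/
abbrev kι (f : V →ₗ[F] F) : LinearMap.ker f →ₗ[F] V := (LinearMap.ker f).subtype

lemma comap_isCompl {M W : Submodule F V} (h : IsCompl M W) (hW : W ≤ LinearMap.ker f) :
    IsCompl (M.comap (kι f)) (W.comap (kι f)) := by
  constructor
  · rw [Submodule.disjoint_def]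
    intro x hx hy
    have : (x : V) = 0 := by
      have := Submodule.disjoint_def.mp h.disjoint (x : V) hx hy
      exact this
    exact Subtype.ext this
  · rw [codisjoint_iff, eq_top_iff]
    intro x _
    have hx : (x : V) ∈ M ⊔ W := by rw [h.sup_eq_top]; trivial
    obtain ⟨m, hm, w, hw, hmw⟩ := Submodule.mem_sup.mp hx
    have hfw : f w = 0 := hW hw
    have hfm : f m = 0 := by
      have hfx : f (x : V) = 0 := x.2
      rw [← hmw, map_add, hfw, add_zero] at hfx
      exact hfx
    have hmem : x = ⟨m, hfm⟩ + ⟨w, hfw⟩ := Subtype.ext hmw.symm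
    rw [hmem]
    exact Submodule.add_mem_sup hm hw

variable (h2 : f (A e) = 1)

lemma schur_eq_of_fA (x : LinearMap.ker f) (hx : f (A x) = 0) :
    ((schur A e f h2 x : LinearMap.ker f) : V) = A x := by
  rw [schur_coe, hx]; simp

lemma comap_inv_of_le {W : Submodule F V} (hW : W ≤ LinearMap.ker f) (hinv : ∀ x ∈ W, A x ∈ W) :
    ∀ x ∈ W.comap (kι f), schur A e f h2 x ∈ W.comap (kι f) := by
  intro x hx
  have h3 : f (A x) = 0 := hW (hinv _ hx)
  simp only [Submodule.mem_comap, Submodule.subtype_apply] at hx ⊢
  rw [schur_eq_of_fA h2 x h3]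
  exact hinv _ hx

lemma comap_inv_of_mem {M : Submodule F V} (he : e ∈ M) (hinv : ∀ x ∈ M, A x ∈ M) :
    ∀ x ∈ M.comap (kι f), schur A e f h2 x ∈ M.comap (kι f) := by
  intro x hx
  simp only [Submodule.mem_comap, Submodule.subtype_apply] at hx ⊢
  rw [schur_coe]
  exact M.sub_mem (hinv _ hx) (M.smul_mem _ (hinv _ he))

variable (h1 : f e = 1)

/-- the key fact: cyclic subspaces stay cyclic. -/
lemma kry_cpr : kry (schur A e f h2) (cpr A e f h1 h2) = (kry A e).comap (kι f) := by
  apply le_antisymm
  · apply kry_le
    · exact comap_inv_of_mem h2 (self_mem_kry A e) (fun _ h => kry_inv A e h)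
    · simp only [Submodule.mem_comap, Submodule.subtype_apply, cpr_coe]
      exact (kry A e).sub_mem (kry_inv A e (self_mem_kry A e)) (self_mem_kry A e)
  · intro x hx
    set K := (kry (schur A e f h2) (cpr A e f h1 h2)).map (kι f) ⊔ Submodule.span F {e} with hK
    have hAe : A e ∈ K := by
      have h3 : A e = ((cpr A e f h1 h2 : LinearMap.ker f) : V) + e := by simp
      rw [h3]
      exact K.add_mem
        (Submodule.mem_sup_left (Submodule.mem_map_of_mem (self_mem_kry _ _)))
        (Submodule.mem_sup_right (Submodule.mem_span_singleton_self e))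
    have hle : kry A e ≤ K := by
      apply kry_le
      · intro y hy
        obtain ⟨a, ha, b, hb, rfl⟩ := Submodule.mem_sup.mp hy
        rw [map_add]
        apply K.add_mem
        · obtain ⟨k, hk, rfl⟩ := Submodule.mem_map.mp ha
          have h3 : A (k : V) = (schur A e f h2 k : V) + f (A k) • A e := by
            rw [schur_coe]; abel
          simp only [Submodule.subtype_apply]
          rw [h3]
          apply K.add_mem
          · exact Submodule.mem_sup_left (Submodule.mem_map_of_mem (kry_inv _ _ hk))
          · exact K.smul_mem _ hAe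
        · obtain ⟨s, rfl⟩ := Submodule.mem_span_singleton.mp hb
          rw [map_smul]
          exact K.smul_mem _ hAe
      · exact Submodule.mem_sup_right (Submodule.mem_span_singleton_self e)
    have hxK := hle hx
    obtain ⟨a, ha, b, hb, hab⟩ := Submodule.mem_sup.mp hxK
    obtain ⟨k, hk, rfl⟩ := Submodule.mem_map.mp ha
    obtain ⟨s, rfl⟩ := Submodule.mem_span_singleton.mp hb
    have hfx : f (x : V) = 0 := x.2
    have hfk : f (k : V) = 0 := k.2
    have hab' : (k : V) + s • e = (x : V) := hab
    rw [← hab', map_add, map_smul, h1] at hfx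
    simp only [hfk, smul_eq_mul, mul_one, zero_add] at hfx
    subst hfx
    simp only [zero_smul, add_zero] at hab'
    have : x = k := Subtype.ext hab'.symm
    rw [this]
    exact hk

variable [FiniteDimensional F V]

include h1 in
omit h2 in
/-- dimension drops by one. -/
lemma finrank_comap_add_one {N : Submodule F V} (he : e ∈ N) :
    finrank F (N.comap (kι f)) + 1 = finrank F N := by
  let g : N →ₗ[F] F := f ∘ₗ N.subtype
  have hg : LinearMap.range g = ⊤ := by
    rw [LinearMap.range_eq_top]
    intro t
    exact ⟨t • ⟨e, he⟩, by simp [g, h1]⟩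
  have h3 := LinearMap.finrank_range_add_finrank_ker g
  rw [hg, finrank_top, finrank_self] at h3
  have h4 : finrank F (LinearMap.ker g) = finrank F (N.comap (kι f)) := by
    have h5 : (LinearMap.ker g).map N.subtype = (N.comap (kι f)).map (kι f) := by
      ext x
      simp only [Submodule.mem_map, LinearMap.mem_ker, Submodule.subtype_apply, Subtype.exists,
        exists_and_right, exists_eq_right, Submodule.mem_comap, g, LinearMap.comp_apply]
      constructor
      · rintro ⟨hx, hfx⟩
        exact ⟨hfx, hx⟩
      · rintro ⟨hfx, hx⟩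
        exact ⟨hx, hfx⟩
    rw [← Submodule.finrank_map_subtype_eq, h5, Submodule.finrank_map_subtype_eq]
  omega

include h1 in
omit h2 in
lemma finrank_ker_add_one : finrank F (LinearMap.ker f) + 1 = finrank F V := by
  have := finrank_comap_add_one h1 (N := ⊤) Submodule.mem_top
  rw [Submodule.comap_top, finrank_top, finrank_top] at this
  exact this

end SchurTransfer

end Cfsg.Agent.SLComm
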