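import Mathlib
import Cfsg.Agent.Lib.SLComm.Kry

/-!
Splitting off a cyclic primary block, via the structure theorem over `F[X]`.
-/

set_option autoImplicit false

namespace Cfsg.Agent.SLComm

universe u
open Module Polynomial DirectSum

variable {F : Type u} [Field F] {V : Type u} [AddCommGroup V] [Module F V]

section Semi

variable {W : Type u} [AddCommGroup W] [Module F W]

lemma semi_aeval (φ : V →ₗ[F] W) (X' : End F V) (Y : End F W) (h : ∀ x, φ (X' x) = Y (φ x))
    (p : F[X]) (x : V) : φ (aeval X' p x) = aeval Y p (φ x) := by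
  induction p using Polynomial.induction_on' with
  | add p q hp hq => simp [hp, hq]
  | monomial n a =>
    have h1 : ∀ n : ℕ, φ ((X' ^ n) x) = (Y ^ n) (φ x) := by
      intro n
      induction n with
      | zero => simp
      | succ n ih => rw [pow_succ', pow_succ', Module.End.mul_apply, Module.End.mul_apply, h, ih]
    simp only [aeval_monomial, Module.End.mul_apply, Module.algebraMap_end_apply, map_smul, h1]

end Semi

theorem exists_idem_cyclic [FiniteDimensional F V] [Nontrivial V] (A : End F V) :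
    ∃ (v : V) (P : End F V) (π : F[X]) (k : ℕ), v ≠ 0 ∧ P * P = P ∧ P * A = A * P ∧ Irreducible π ∧
      aeval A (π ^ k) v = 0 ∧ LinearMap.range P = kry A v := by
  classical
  have htor : Module.IsTorsion F[X] (AEval' A) := Module.AEval.isTorsion_of_finiteDimensional (K := F) (M := V) A
  obtain ⟨ι, _, p, irr, e, ⟨φ⟩⟩ := Module.equiv_directSum_of_isTorsion (R := F[X]) (M := AEval' A) htor
  set Q : ι → Type u := fun i => F[X] ⧸ (F[X] ∙ p i ^ e i) with hQ
  -- a nontrivial summand
  have hex : ∃ i₀, (Submodule.Quotient.mk (1 : F[X]) : Q i₀) ≠ 0 := by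
    by_contra hcon
    push Not at hcon
    have hall : ∀ (i : ι) (y : Q i), y = 0 := by
      intro i y
      obtain ⟨q, rfl⟩ := Submodule.Quotient.mk_surjective _ y
      have : (Submodule.Quotient.mk q : Q i) = q • (Submodule.Quotient.mk (1 : F[X]) : Q i) := by
        rw [← Submodule.Quotient.mk_smul]; simp
      rw [this, hcon i, smul_zero]
    have hsub : Subsingleton (⨁ i, Q i) := by
      constructor
      intro a b
      ext i
      rw [hall i (a i), hall i (b i)]
    obtain ⟨x, hx⟩ := exists_ne (0 : V)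
    apply hx
    have : φ (AEval'.of A x) = φ (AEval'.of A 0) := Subsingleton.elim _ _
    have := φ.injective this
    exact (AEval'.of A).injective this
  obtain ⟨i₀, hi₀⟩ := hex
  set π := p i₀ with hπ
  set k := e i₀ with hk
  let lo : Q i₀ →ₗ[F[X]] (⨁ i, Q i) := DirectSum.lof F[X] ι Q i₀
  let co : (⨁ i, Q i) →ₗ[F[X]] Q i₀ := DirectSum.component F[X] ι Q i₀
  have hcolo : ∀ y, co (lo y) = y := fun y => DirectSum.component.lof_self _ _ _
  let ρ : AEval' A →ₗ[F[X]] AEval' A := (φ.symm : _ →ₗ[F[X]] _) ∘ₗ lo ∘ₗ co ∘ₗ (φ : _ →ₗ[F[X]] _)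
  have hρ : ∀ y, ρ y = φ.symm (lo (co (φ y))) := fun _ => rfl
  have hρρ : ∀ y, ρ (ρ y) = ρ y := by
    intro y
    rw [hρ, hρ, φ.apply_symm_apply, hcolo]
  let P : End F V := ((AEval'.of A).symm : AEval' A →ₗ[F] V) ∘ₗ (ρ.restrictScalars F) ∘ₗ
    ((AEval'.of A) : V →ₗ[F] AEval' A)
  have hP : ∀ x, AEval'.of A (P x) = ρ (AEval'.of A x) := fun x => by
    simp [P]
  have hPA : P * A = A * P := by
    ext x
    apply (AEval'.of A).injective
    rw [Module.End.mul_apply, Module.End.mul_apply, hP]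
    have h1 : AEval'.of A (A x) = (X : F[X]) • AEval'.of A x := (AEval'.X_smul_of A x).symm
    have h2 : AEval'.of A (A (P x)) = (X : F[X]) • AEval'.of A (P x) := (AEval'.X_smul_of A (P x)).symm
    rw [h1, h2, hP, map_smul]
  let one : Q i₀ := Submodule.Quotient.mk (1 : F[X])
  set v : V := (AEval'.of A).symm (φ.symm (lo one)) with hv
  have hofv : AEval'.of A v = φ.symm (lo one) := by simp [hv]
  have hq : ∀ q : F[X], AEval'.of A (aeval A q v) = φ.symm (lo (q • one)) := by
    intro q
    have h1 := Module.AEval.of_aeval_smul (R := F) (M := V) A q v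
    change AEval'.of A (aeval A q • v) = q • AEval'.of A v at h1
    have h2 : aeval A q v = aeval A q • v := rfl
    rw [h2, h1, hofv, map_smul, map_smul]
  have hPv : P v = v := by
    apply (AEval'.of A).injective
    rw [hP, hofv, hρ, φ.apply_symm_apply, hcolo]
  have hρfix : ∀ y, ρ (φ.symm (lo y)) = φ.symm (lo y) := by
    intro y
    rw [hρ, φ.apply_symm_apply, hcolo]
  refine ⟨v, P, π, k, ?_, ?_, ?_, irr i₀, ?_, ?_⟩
  · intro h0
    apply hi₀
    have h1 : AEval'.of A v = 0 := by rw [h0, map_zero]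
    rw [hofv] at h1
    have h2 : lo one = 0 := by
      have := congrArg φ h1
      simpa using this
    have h3 := congrArg co h2
    rw [hcolo, map_zero] at h3
    exact h3
  · ext x
    apply (AEval'.of A).injective
    rw [Module.End.mul_apply, hP, hP, hρρ]
  · exact hPA
  · apply (AEval'.of A).injective
    rw [hq, map_zero]
    have : (π ^ k) • one = 0 := by
      rw [← Submodule.Quotient.mk_smul]
      simp only [smul_eq_mul, mul_one]
      rw [Submodule.Quotient.mk_eq_zero]
      exact Submodule.mem_span_singleton_self _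
    rw [this]
    simp
  · apply le_antisymm
    · rintro _ ⟨x, rfl⟩
      apply mem_kry.mpr
      obtain ⟨q, hq'⟩ := Submodule.Quotient.mk_surjective _ (co (φ (AEval'.of A x)))
      refine ⟨q, ?_⟩
      apply (AEval'.of A).injective
      rw [hq, hP, hρ, ← hq']
      have : (Submodule.Quotient.mk q : Q i₀) = q • one := by
        rw [← Submodule.Quotient.mk_smul]; simp [one]
      rw [this]
    · apply kry_le
      · rintro _ ⟨x, rfl⟩
        refine ⟨A x, ?_⟩
        rw [← Module.End.mul_apply, hPA, Module.End.mul_apply]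
      · exact ⟨v, hPv⟩

/-- a cyclic primary direct summand of the invariant subspace `W`. -/
structure Blk (A : End F V) (W : Submodule F V) (v : V) (W₁ : Submodule F V) (π : F[X]) (k : ℕ) :
    Prop where
  v_ne : v ≠ 0
  kry_le : kry A v ≤ W
  W₁_le : W₁ ≤ W
  disj : Disjoint (kry A v) W₁
  sup : kry A v ⊔ W₁ = W
  inv₁ : ∀ x ∈ W₁, A x ∈ W₁
  irr : Irreducible π
  notX : ¬ π ∣ X
  ann : aeval A (π ^ k) v = 0

lemma not_dvd_X {A : End F V} (hA : Function.Injective A) {π : F[X]} {k : ℕ} {v : V} (hv : v ≠ 0)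
    (hann : aeval A (π ^ k) v = 0) : ¬ π ∣ X := by
  rintro ⟨q, hq⟩
  have h1 : (X : F[X]) ^ k = π ^ k * q ^ k := by rw [hq, mul_pow]
  have h2 : aeval A ((X : F[X]) ^ k) v = 0 := by
    rw [h1, mul_comm, map_mul, Module.End.mul_apply, hann, map_zero]
  have h3 : ∀ n : ℕ, (A ^ n) v = 0 → v = 0 := by
    intro n
    induction n with
    | zero => simp
    | succ n ih =>
      intro h
      rw [pow_succ', Module.End.mul_apply] at h
      exact ih (hA (by rw [h, map_zero]))
  simp only [map_pow, aeval_X] at h2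
  exact hv (h3 k h2)

theorem exists_blk [FiniteDimensional F V] {A : End F V} (hA : Function.Injective A)
    {W : Submodule F V} (hW : ∀ x ∈ W, A x ∈ W) (hne : W ≠ ⊥) :
    ∃ v W₁ π k, Blk A W v W₁ π k := by
  classical
  haveI : Nontrivial W := Submodule.nontrivial_iff_ne_bot.mpr hne
  let B : End F W := A.restrict hW
  obtain ⟨v', P, π, k, hv', hPP, hPB, hirr, hann, hrange⟩ := exists_idem_cyclic B
  have hsemi : ∀ x : W, W.subtype (B x) = A (W.subtype x) := fun x => rfl
  have hv0 : ((v' : W) : V) ≠ 0 := fun h => hv' (Subtype.ext h)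
  have hann' : aeval A (π ^ k) (v' : V) = 0 := by
    have := semi_aeval W.subtype B A hsemi (π ^ k) v'
    rw [hann] at this
    simpa using this.symm
  have hkry : kry A (v' : V) = (kry B v').map W.subtype := by
    apply le_antisymm
    · apply kry_le
      · rintro _ ⟨y, hy, rfl⟩
        exact ⟨B y, kry_inv _ _ hy, rfl⟩
      · exact ⟨v', self_mem_kry _ _, rfl⟩
    · rintro _ ⟨y, hy, rfl⟩
      obtain ⟨p, rfl⟩ := mem_kry.mp hy
      exact mem_kry.mpr ⟨p, (semi_aeval W.subtype B A hsemi p v').symm⟩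
  have hidem : ∀ y, P (P y) = P y := fun y => by
    rw [← Module.End.mul_apply, hPP]
  refine ⟨(v' : V), (LinearMap.ker P).map W.subtype, π, k, hv0, ?_, ?_, ?_, ?_, ?_, hirr,
    not_dvd_X hA hv0 hann', hann'⟩
  · rw [hkry]
    exact Submodule.map_subtype_le _ _
  · exact Submodule.map_subtype_le _ _
  · rw [Submodule.disjoint_def, hkry, ← hrange]
    rintro _ ⟨a, ⟨a', rfl⟩, rfl⟩ ⟨b, hb, hab⟩
    have h1 : b = P a' := Subtype.ext hab
    have h2 : P (P a') = 0 := by rw [← h1]; exact hb
    rw [hidem] at h2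
    simp [h2]
  · apply le_antisymm
    · rw [hkry]
      exact sup_le (Submodule.map_subtype_le _ _) (Submodule.map_subtype_le _ _)
    · intro y hy
      rw [hkry, ← hrange, Submodule.mem_sup]
      have h_a : ((P ⟨y, hy⟩ : W) : V) ∈ (LinearMap.range P).map W.subtype :=
        ⟨P ⟨y, hy⟩, ⟨⟨y, hy⟩, rfl⟩, rfl⟩
      have h_b : (((⟨y, hy⟩ : W) - P ⟨y, hy⟩ : W) : V) ∈ (LinearMap.ker P).map W.subtype :=
        ⟨(⟨y, hy⟩ : W) - P ⟨y, hy⟩, by simp [hidem], rfl⟩
      exact ⟨_, h_a, _, h_b, by simp⟩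
  · rintro _ ⟨b, hb, rfl⟩
    refine ⟨B b, ?_, rfl⟩
    have hb' : P b = 0 := hb
    have : P (B b) = B (P b) := by
      rw [← Module.End.mul_apply, hPB, Module.End.mul_apply]
    simp [this, hb']

/-- no fixed line is a summand. -/
def NoFix (A : End F V) (W : Submodule F V) : Prop :=
  ∀ y ∈ W, y ≠ 0 → A y = y → ∀ W₂ : Submodule F V, W₂ ≤ W → (∀ x ∈ W₂, A x ∈ W₂) →
    Disjoint (Submodule.span F {y}) W₂ → Submodule.span F {y} ⊔ W₂ = W → False

lemma NoFix.sub {A : End F V} {W : Submodule F V} (h : NoFix A W) {v : V} {W₁ : Submodule F V}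
    {π : F[X]} {k : ℕ} (hb : Blk A W v W₁ π k) : NoFix A W₁ := by
  intro y hy hy0 hfix W₂ hW₂ hinv hd hs
  refine h y (hb.W₁_le hy) hy0 hfix (W₂ ⊔ kry A v) (sup_le (hW₂.trans hb.W₁_le) hb.kry_le) ?_ ?_ ?_
  · intro x hx
    obtain ⟨a, ha, b, hb', rfl⟩ := Submodule.mem_sup.mp hx
    rw [map_add]
    exact Submodule.add_mem_sup (hinv a ha) (kry_inv _ _ hb')
  · rw [Submodule.disjoint_def]
    intro x hx hx'
    obtain ⟨a, ha, b, hb', rfl⟩ := Submodule.mem_sup.mp hx'
    have hyW : Submodule.span F {y} ≤ W₁ := by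
      rw [Submodule.span_le]; simpa using hy
    have h1 : b ∈ W₁ := by
      have h2 : a + b ∈ W₁ := hyW hx
      have h3 : a ∈ W₁ := hW₂ ha
      simpa using W₁.sub_mem h2 h3
    have hb0 : b = 0 := Submodule.disjoint_def.mp hb.disj b hb' h1
    subst hb0
    rw [add_zero] at hx ⊢
    exact Submodule.disjoint_def.mp hd a hx ha
  · rw [← sup_assoc, hs, sup_comm]
    exact hb.sup

section Transfer

variable {A : End F V} {e : V} {f : V →ₗ[F] F} (h2 : f (A e) = 1)
variable {W : Submodule F V} (hW₀ : W ≤ LinearMap.ker f) (hW : ∀ x ∈ W, A x ∈ W)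

include hW₀ hW

lemma schur_pow_coe (x : LinearMap.ker f) (hx : (x : V) ∈ W) (n : ℕ) :
    (((schur A e f h2 ^ n) x : LinearMap.ker f) : V) = (A ^ n) (x : V) := by
  have hpow : ∀ n : ℕ, (A ^ n) (x : V) ∈ W := by
    intro n
    induction n with
    | zero => simpa using hx
    | succ n ih =>
      rw [pow_succ', Module.End.mul_apply]
      exact hW _ ih
  induction n with
  | zero => simp
  | succ n ih =>
    rw [pow_succ', Module.End.mul_apply, pow_succ', Module.End.mul_apply, schur_coe, ih]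
    have : f (A ((A ^ n) (x : V))) = 0 := hW₀ (hW _ (hpow n))
    rw [this]; simp

lemma aeval_schur_coe (p : F[X]) (x : LinearMap.ker f) (hx : (x : V) ∈ W) :
    ((aeval (schur A e f h2) p x : LinearMap.ker f) : V) = aeval A p (x : V) := by
  induction p using Polynomial.induction_on' with
  | add p q hp hq => simp [hp, hq]
  | monomial n a =>
    simp only [aeval_monomial, Module.End.mul_apply, Module.algebraMap_end_apply, Submodule.coe_smul,
      schur_pow_coe h2 hW₀ hW x hx n]

lemma kry_schur_of_mem (x : LinearMap.ker f) (hx : kry A (x : V) ≤ W) :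
    kry (schur A e f h2) x = (kry A (x : V)).comap (kι f) := by
  have hxW : (x : V) ∈ W := hx (self_mem_kry _ _)
  apply le_antisymm
  · apply kry_le
    · intro y hy
      simp only [Submodule.mem_comap, Submodule.subtype_apply] at hy ⊢
      rw [schur_eq_of_fA h2 y (hW₀ (hW _ (hx hy)))]
      exact kry_inv _ _ hy
    · exact self_mem_kry A (x : V)
  · intro y hy
    have hy' : (y : V) ∈ kry A (x : V) := hy
    obtain ⟨p, hp⟩ := mem_kry.mp hy'
    refine mem_kry.mpr ⟨p, Subtype.ext ?_⟩
    rw [aeval_schur_coe h2 hW₀ hW p x hxW, hp]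

lemma Blk.comap {v : V} {W₁ : Submodule F V} {π : F[X]} {k : ℕ} (hb : Blk A W v W₁ π k) :
    Blk (schur A e f h2) (W.comap (kι f)) ⟨v, hW₀ (hb.kry_le (self_mem_kry _ _))⟩ (W₁.comap (kι f)) π k := by
  have hv : v ∈ W := hb.kry_le (self_mem_kry _ _)
  have hk := kry_schur_of_mem h2 hW₀ hW ⟨v, hW₀ hv⟩ hb.kry_le
  refine ⟨?_, ?_, ?_, ?_, ?_, ?_, hb.irr, hb.notX, ?_⟩
  · intro h
    exact hb.v_ne (congrArg Subtype.val h)
  · rw [hk]
    exact Submodule.comap_mono hb.kry_le
  · exact Submodule.comap_mono hb.W₁_le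
  · rw [hk, Submodule.disjoint_def]
    intro x hx hx'
    exact Subtype.ext (Submodule.disjoint_def.mp hb.disj _ hx hx')
  · rw [hk]
    apply le_antisymm
    · exact sup_le (Submodule.comap_mono hb.kry_le) (Submodule.comap_mono hb.W₁_le)
    · intro x hx
      have hx' : (x : V) ∈ kry A v ⊔ W₁ := by
        rw [hb.sup]; exact hx
      obtain ⟨a, ha, c, hc, hac⟩ := Submodule.mem_sup.mp hx'
      have hfa : f a = 0 := hW₀ (hb.kry_le ha)
      have hfc : f c = 0 := hW₀ (hb.W₁_le hc)
      have : x = ⟨a, hfa⟩ + ⟨c, hfc⟩ := Subtype.ext hac.symm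
      rw [this]
      exact Submodule.add_mem_sup ha hc
  · intro x hx
    simp only [Submodule.mem_comap, Submodule.subtype_apply] at hx ⊢
    rw [schur_eq_of_fA h2 x (hW₀ (hb.W₁_le (hb.inv₁ _ hx)))]
    exact hb.inv₁ _ hx
  · apply Subtype.ext
    rw [aeval_schur_coe h2 hW₀ hW _ _ hv, hb.ann]
    rfl

lemma NoFix.comap (h : NoFix A W) : NoFix (schur A e f h2) (W.comap (kι f)) := by
  intro y hy hy0 hfix W₂ hW₂ hinv hd hs
  have hyW : (y : V) ∈ W := hy
  have hAy : A (y : V) = (y : V) := by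
    rw [← schur_eq_of_fA h2 y (hW₀ (hW _ hyW)), hfix]
  refine h (y : V) hyW (fun h0 => hy0 (Subtype.ext h0)) hAy (W₂.map (kι f)) ?_ ?_ ?_ ?_
  · rintro _ ⟨x, hx, rfl⟩
    exact hW₂ hx
  · rintro _ ⟨x, hx, rfl⟩
    refine ⟨schur A e f h2 x, hinv x hx, ?_⟩
    have hxW : (x : V) ∈ W := hW₂ hx
    exact schur_eq_of_fA h2 x (hW₀ (hW _ hxW))
  · rw [Submodule.disjoint_def]
    intro x hx hx'
    obtain ⟨t, rfl⟩ := Submodule.mem_span_singleton.mp hx
    obtain ⟨z, hz, hzx⟩ := hx'
    have h1 : z = t • y := Subtype.ext hzx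
    have h3 : z = 0 := Submodule.disjoint_def.mp hd z
      (by rw [h1]; exact Submodule.smul_mem _ _ (Submodule.mem_span_singleton_self y)) hz
    rw [← hzx, h3]; rfl
  · apply le_antisymm
    · refine sup_le ?_ ?_
      · rw [Submodule.span_le]; simpa using hyW
      · rintro _ ⟨x, hx, rfl⟩
        exact hW₂ hx
    · intro z hz
      have hz' : (⟨z, hW₀ hz⟩ : LinearMap.ker f) ∈ Submodule.span F {y} ⊔ W₂ := by
        rw [hs]; exact hz
      obtain ⟨a, ha, b, hb, hab⟩ := Submodule.mem_sup.mp hz'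
      obtain ⟨t, rfl⟩ := Submodule.mem_span_singleton.mp ha
      have : z = t • (y : V) + (b : V) := by
        have := congrArg Subtype.val hab
        simpa using this.symm
      rw [this]
      exact Submodule.add_mem_sup (Submodule.smul_mem _ _ (Submodule.mem_span_singleton_self _))
        ⟨b, hb, rfl⟩

end Transfer

end Cfsg.Agent.SLComm
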