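import Mathlib

/-!
A finite check over the field with three elements.
-/

set_option autoImplicit false

namespace Cfsg.Agent.SLComm

universe u

set_option synthInstance.maxHeartbeats 2000000 in
set_option synthInstance.maxSize 4000 in
set_option maxRecDepth 100000 in
theorem t3_zmod3 : ∀ α β ρ b₀ b₁ z : ZMod 3, ρ ≠ 0 → ρ + 1 ≠ 0 → ρ * ρ - α * ρ - β ≠ 0 →
    1 + α - β ≠ 0 → b₀ ≠ 0 → ∃ u₀ u₁ φ₀ φ₁ η : ZMod 3,
      u₀ * b₀ + u₁ * b₁ ≠ 0 ∧ u₀ * u₀ + α * u₀ * u₁ - β * u₁ * u₁ ≠ 0 ∧ φ₀ ≠ 0 ∧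
      u₀ * φ₀ + u₁ * φ₁ + η = 1 ∧ (u₁ * β) * φ₀ + (u₀ + u₁ * α) * φ₁ + ρ * η = 0 ∧
      (u₀ + u₁ * α) * β * φ₀ + (u₁ * β + (u₀ + u₁ * α) * α) * φ₁ + ρ * ρ * η = z := by
  decide +kernel

variable {F : Type u} [Field F]

theorem T3_exists [Fintype F] (hq : 3 ≤ Fintype.card F) {α β ρ b₀ b₁ z : F} (hρ : ρ ≠ 0)
    (hρ1 : ρ + 1 ≠ 0) (hκ : ρ * ρ - α * ρ - β ≠ 0) (hN : 1 + α - β ≠ 0) (hb₀ : b₀ ≠ 0)
    (hz : 4 ≤ Fintype.card F → z ≠ ρ * ρ - α * ρ) :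
    ∃ u₀ u₁ φ₀ φ₁ η : F,
      u₀ * b₀ + u₁ * b₁ ≠ 0 ∧ u₀ * u₀ + α * u₀ * u₁ - β * u₁ * u₁ ≠ 0 ∧ φ₀ ≠ 0 ∧
      u₀ * φ₀ + u₁ * φ₁ + η = 1 ∧ (u₁ * β) * φ₀ + (u₀ + u₁ * α) * φ₁ + ρ * η = 0 ∧
      (u₀ + u₁ * α) * β * φ₀ + (u₁ * β + (u₀ + u₁ * α) * α) * φ₁ + ρ * ρ * η = z := by
  by_cases h4 : 4 ≤ Fintype.card F
  · have hz' := hz h4
    set κ := ρ * ρ - α * ρ - β with hκ'
    set η := (z - β) / κ with hη
    have hηκ : η * κ = z - β := by rw [hη]; field_simp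
    refine ⟨1, 0, 1 - η, -(ρ * η), η, by simpa using hb₀, by simp, ?_, by ring, by ring, ?_⟩
    · intro h0
      have h1 : η = 1 := by linear_combination -h0
      rw [h1] at hηκ
      apply hz'
      rw [hκ'] at hηκ
      linear_combination hηκ.symm
    · linear_combination hηκ
  · have h3 : Fintype.card F = 3 := by omega
    let e : ZMod 3 ≃+* F := ZMod.ringEquivOfPrime F Nat.prime_three h3
    obtain ⟨a, rfl⟩ := e.surjective α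
    obtain ⟨b, rfl⟩ := e.surjective β
    obtain ⟨r, rfl⟩ := e.surjective ρ
    obtain ⟨c, rfl⟩ := e.surjective b₀
    obtain ⟨d, rfl⟩ := e.surjective b₁
    obtain ⟨w, rfl⟩ := e.surjective z
    have hne : ∀ {x : ZMod 3}, e x ≠ 0 → x ≠ 0 := by
      intro x hx h0
      rw [h0, map_zero] at hx
      exact hx rfl
    obtain ⟨u₀, u₁, p₀, p₁, η, h1, h2, h3', h4', h5, h6⟩ := t3_zmod3 a b r c d w
      (hne hρ) (hne (by simpa using hρ1)) (hne (by simpa using hκ)) (hne (by simpa using hN)) (hne hb₀)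
    have hne' : ∀ {x : ZMod 3}, x ≠ 0 → e x ≠ 0 := fun {x} hx => by
      simpa using hx
    refine ⟨e u₀, e u₁, e p₀, e p₁, e η, ?_, ?_, hne' h3', ?_, ?_, ?_⟩
    · simpa using hne' h1
    · simpa using hne' h2
    · have := congrArg e h4'
      simpa using this
    · have := congrArg e h5
      simpa using this
    · have := congrArg e h6
      simpa using this

end Cfsg.Agent.SLComm
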