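import Mathlib
import Cfsg.Agent.Lib.SLComm.Block
import Cfsg.Agent.Lib.SLComm.T3

/-!
The main recursion: walking down through cyclic blocks.
-/

set_option autoImplicit false

namespace Cfsg.Agent.SLComm

universe u
open Module Polynomial

variable {F : Type u} [Field F] {V : Type u} [AddCommGroup V] [Module F V]

/-- the quadratic `(X-1)² - α (X-1) - β`. -/
noncomputable def polQ (α β : F) : F[X] := (X - 1) ^ 2 - C α * (X - 1) - C β

lemma aeval_polQ (A : End F V) (α β : F) (c : V) :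
    aeval A (polQ α β) c = (A - 1) ((A - 1) c) - α • (A - 1) c - β • c := by
  simp [polQ, pow_two, Module.algebraMap_end_apply]

lemma polQ_sub (σ₂ s z : F) : polQ (σ₂ - z) (s - z) = polQ σ₂ s + C z * X := by
  simp only [polQ, C_sub]
  ring

/-- at most one bad parameter. -/
lemma exists_zbad (Q : F[X]) {π : F[X]} (hπ : Irreducible π) (hX : ¬ π ∣ X) (k : ℕ) :
    ∃ zb : F, ∀ z, z ≠ zb → IsCoprime (Q + C z * X) (π ^ k) := by
  by_cases h : ∃ z₀ : F, π ∣ Q + C z₀ * X
  · obtain ⟨z₀, hz₀⟩ := h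
    refine ⟨z₀, fun z hz => ?_⟩
    apply IsCoprime.pow_right
    apply IsCoprime.symm
    rw [hπ.coprime_iff_not_dvd]
    intro hd
    apply hX
    have h1 : π ∣ C (z - z₀) * X := by
      have := dvd_sub hd hz₀
      convert this using 1
      simp only [C_sub]; ring
    have hu : IsUnit (C (z - z₀)) := by
      apply Polynomial.isUnit_C.mpr
      exact (sub_ne_zero.mpr hz).isUnit
    exact (hu.dvd_mul_left).mp h1
  · push Not at h
    refine ⟨0, fun z _ => ?_⟩
    apply IsCoprime.pow_right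
    apply IsCoprime.symm
    rw [hπ.coprime_iff_not_dvd]
    exact h z

lemma exists_ne₂ [Fintype F] (h : 3 ≤ Fintype.card F) (a b : F) : ∃ z, z ≠ a ∧ z ≠ b := by
  classical
  have : ({a, b} : Finset F).card < (Finset.univ : Finset F).card := by
    rw [Finset.card_univ]
    exact lt_of_le_of_lt (Finset.card_le_two) (by omega)
  obtain ⟨z, _, hz⟩ := Finset.exists_mem_notMem_of_card_lt_card this
  simp only [Finset.mem_insert, Finset.mem_singleton, not_or] at hz
  exact ⟨z, hz.1, hz.2⟩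

lemma exists_ne₃ [Fintype F] (h : 4 ≤ Fintype.card F) (a b c : F) : ∃ z, z ≠ a ∧ z ≠ b ∧ z ≠ c := by
  classical
  have : ({a, b, c} : Finset F).card < (Finset.univ : Finset F).card := by
    rw [Finset.card_univ]
    exact lt_of_le_of_lt (Finset.card_le_three) (by omega)
  obtain ⟨z, _, hz⟩ := Finset.exists_mem_notMem_of_card_lt_card this
  simp only [Finset.mem_insert, Finset.mem_singleton, not_or] at hz
  exact ⟨z, hz.1, hz.2.1, hz.2.2⟩

/-- merging coprime cyclic subspaces. -/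
lemma kry_add_of_coprime {A : End F V} {c v : V} {p μ : F[X]} (hc : aeval A p c = 0)
    (hv : aeval A μ v = 0) (hcop : IsCoprime p μ) :
    kry A (c + v) = kry A c ⊔ kry A v := by
  obtain ⟨a, b, hab⟩ := hcop
  apply le_antisymm
  · apply kry_le
    · intro x hx
      obtain ⟨y, hy, z, hz, rfl⟩ := Submodule.mem_sup.mp hx
      rw [map_add]
      exact Submodule.add_mem_sup (kry_inv _ _ hy) (kry_inv _ _ hz)
    · exact Submodule.add_mem_sup (self_mem_kry _ _) (self_mem_kry _ _)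
  · have hcm : c ∈ kry A (c + v) := by
      refine mem_kry.mpr ⟨b * μ, ?_⟩
      have h1 : b * μ = 1 - a * p := by rw [← hab]; ring
      rw [map_add]
      have h2 : aeval A (b * μ) v = 0 := by
        rw [map_mul, Module.End.mul_apply, hv, map_zero]
      rw [h2, add_zero, h1, map_sub, map_mul, LinearMap.sub_apply, Module.End.mul_apply, hc]
      simp
    have hvm : v ∈ kry A (c + v) := by
      have := (kry A (c + v)).sub_mem (self_mem_kry A (c + v)) hcm
      simpa using this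
    exact sup_le (kry_le (fun _ h => kry_inv _ _ h) hcm) (kry_le (fun _ h => kry_inv _ _ h) hvm)

/-- a pair stays independent. -/
lemma li_pair_add {x y : V} (h : LinearIndependent F ![x, y]) : LinearIndependent F ![x, y + x] := by
  rw [LinearIndependent.pair_iff] at h ⊢
  intro s t hst
  have h1 : (s + t) • x + t • y = 0 := by
    rw [← hst]; module
  obtain ⟨h2, h3⟩ := h _ _ h1
  subst h3
  simpa using h2

section SchurR

variable {A : End F V} {e : V} {f : V →ₗ[F] F}

lemma schur_sub_one_coe (h1 : f e = 1) (h2 : f (A e) = 1) (x : LinearMap.ker f) :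
    (((schur A e f h2 - 1) x : LinearMap.ker f) : V) = (A - 1) (x : V) - f ((A - 1) (x : V)) • A e := by
  have hx : f (x : V) = 0 := x.2
  simp only [LinearMap.sub_apply, Module.End.one_apply, Submodule.coe_sub, schur_coe, map_sub, hx,
    sub_zero]
  abel

lemma f_R_e (h1 : f e = 1) (h2 : f (A e) = 1) : f ((A - 1) e) = 0 := by
  simp [h1, h2]

lemma A_e_eq (A : End F V) (e : V) : A e = e + (A - 1) e := by simp

/-- the relation satisfied by the new top vector. -/
lemma rel_cpr (h1 : f e = 1) (h2 : f (A e) = 1) {z σ₂ σ₁ σ₀ : F}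
    (hz : f ((A - 1) ((A - 1) e)) = z)
    (h3 : (A - 1) ((A - 1) ((A - 1) e)) = σ₂ • (A - 1) ((A - 1) e) + σ₁ • (A - 1) e + σ₀ • e) :
    (schur A e f h2 - 1) ((schur A e f h2 - 1) (cpr A e f h1 h2)) =
      (σ₂ - z) • (schur A e f h2 - 1) (cpr A e f h1 h2) + (σ₁ - σ₀ - z) • cpr A e f h1 h2 := by
  have hf1 := f_R_e h1 h2
  have hc : ((cpr A e f h1 h2 : LinearMap.ker f) : V) = (A - 1) e := by simp
  have hd : (((schur A e f h2 - 1) (cpr A e f h1 h2) : LinearMap.ker f) : V) =
      (A - 1) ((A - 1) e) - z • (e + (A - 1) e) := by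
    rw [schur_sub_one_coe h1 h2, hc, hz, A_e_eq A e]
  apply Subtype.ext
  rw [schur_sub_one_coe h1 h2, hd]
  simp only [Submodule.coe_add, Submodule.coe_smul, hd, hc]
  have hR : (A - 1) ((A - 1) ((A - 1) e) - z • (e + (A - 1) e)) =
      (A - 1) ((A - 1) ((A - 1) e)) - z • ((A - 1) e + (A - 1) ((A - 1) e)) := by
    simp only [map_sub, map_smul, map_add]
  rw [hR, h3, A_e_eq A e]
  have hf : f (σ₂ • (A - 1) ((A - 1) e) + σ₁ • (A - 1) e + σ₀ • e - z • ((A - 1) e + (A - 1) ((A - 1) e))) =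
      σ₂ * z + σ₀ - z * z := by
    simp only [map_sub, map_add, map_smul, hf1, hz, h1, smul_eq_mul]
    ring
  rw [hf]
  module

lemma bpr_cpr (h1 : f e = 1) (h2 : f (A e) = 1) :
    bpr A f (cpr A e f h1 h2) = f ((A - 1) ((A - 1) e)) := by
  have hf1 := f_R_e h1 h2
  rw [bpr_apply, cpr_coe]
  have : A (A e - e) = (A - 1) ((A - 1) e) + (A - 1) e := by simp
  rw [this, map_add, hf1, add_zero]

end SchurR

lemma exists_alpha [Fintype F] : ∃ x : F, x * (x + 4) ≠ 0 := by
  by_cases h : (5 : F) = 0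
  · refine ⟨2, ?_⟩
    have h1 : (2 : F) * (2 + 4) = 2 + 2 * 5 := by norm_num
    rw [h1, h]
    intro h0
    have h2 : (1 : F) = 0 := by
      have h3 : (2 : F) = 0 := by simpa using h0
      linear_combination h - 2 * h3
    exact one_ne_zero h2
  · refine ⟨1, ?_⟩
    have h1 : (1 : F) * (1 + 4) = 5 := by norm_num
    rwa [h1]

section Main

variable [Fintype F]

/-- the condition on the remaining part. -/
def CondW (A : End F V) (W : Submodule F V) : Prop :=
  W = ⊥ ∨ (3 ≤ Fintype.card F ∧ NoFix A W)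

lemma CondW.comap {A : End F V} {W : Submodule F V} {e : V} {f : V →ₗ[F] F} (h : CondW A W)
    (h2 : f (A e) = 1) (hW₀ : W ≤ LinearMap.ker f) (hW : ∀ x ∈ W, A x ∈ W) :
    CondW (schur A e f h2) (W.comap (kι f)) := by
  rcases h with h | ⟨h3, h4⟩
  · left
    subst h
    rw [Submodule.comap_bot]
    exact Submodule.ker_subtype _
  · exact Or.inr ⟨h3, NoFix.comap h2 hW₀ hW h4⟩

/-- the statement proved by induction. -/
def PathStmt (τ : F) (m : ℕ) : Prop :=
  ∀ (V : Type u) [AddCommGroup V] [Module F V] [FiniteDimensional F V], finrank F V = m →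
    ∀ (A : End F V) (W : Submodule F V) (c : V) (b : V →ₗ[F] F), LinearMap.det A = 1 →
      IsCompl (kry A c) W → (∀ x ∈ W, A x ∈ W) → W ≤ LinearMap.ker b → b c ≠ 0 → CondW A W →
      (3 ≤ finrank F (kry A c) → Good τ m A c b) ∧
      (finrank F (kry A c) = 2 → ∀ (α β : F) (v : V) (W₁ : Submodule F V) (π : F[X]) (k : ℕ),
        (A - 1) ((A - 1) c) = α • (A - 1) c + β • c → Blk A W v W₁ π k →
        IsCoprime (polQ α β) (π ^ k) → Good τ m A c b)

variable {τ : F}

lemma descend_path (hτ4 : τ * τ ≠ 4) {m : ℕ} (IH : PathStmt τ m) [FiniteDimensional F V]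
    (hV : finrank F V = m + 1) {A : End F V} (hdet : LinearMap.det A = 1) {e : V} {f : V →ₗ[F] F}
    (h1 : f e = 1) (h2 : f (A e) = 1) {W₁ : Submodule F V} (hc : IsCompl (kry A e) W₁)
    (hinv : ∀ x ∈ W₁, A x ∈ W₁) (hW₀ : W₁ ≤ LinearMap.ker f) (hcond : CondW A W₁)
    (hD : 4 ≤ finrank F (kry A e)) (hz : f ((A - 1) ((A - 1) e)) ≠ 0) {c : V} {b : V →ₗ[F] F}
    (hbe : b e ≠ 0) (hfc : f c ≠ 0) (hm : 3 ≤ m + 1) : Good τ (m + 1) A c b := by
  apply level_step (two_sub_ne hτ4) hm h1 h2 hbe hfc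
  have hH : finrank F (LinearMap.ker f) = m := by
    have := finrank_ker_add_one h1
    omega
  have hk := kry_cpr h2 h1
  have hIH := IH (LinearMap.ker f) hH (schur A e f h2) (W₁.comap (kι f)) (cpr A e f h1 h2) (bpr A f)
    (by rw [det_schur h1 h2]; exact hdet) (by rw [hk]; exact comap_isCompl hc hW₀)
    (comap_inv_of_le h2 hW₀ hinv)
    (by
      intro x hx
      exact hW₀ (hinv _ hx))
    (by rw [bpr_cpr]; exact hz) (hcond.comap h2 hW₀ hinv)
  refine hIH.1 ?_
  rw [hk]
  have := finrank_comap_add_one h1 (self_mem_kry A e)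
  omega

lemma descend_two (hτ4 : τ * τ ≠ 4) {m : ℕ} (IH : PathStmt τ m) [FiniteDimensional F V]
    (hV : finrank F V = m + 1) {A : End F V} (hdet : LinearMap.det A = 1) {e : V} {f : V →ₗ[F] F}
    (h1 : f e = 1) (h2 : f (A e) = 1) {W₁ : Submodule F V} (hc : IsCompl (kry A e) W₁)
    (hinv : ∀ x ∈ W₁, A x ∈ W₁) (hW₀ : W₁ ≤ LinearMap.ker f) (hcond : CondW A W₁)
    (hD : finrank F (kry A e) = 3) {z σ₂ σ₁ σ₀ : F} (hz : f ((A - 1) ((A - 1) e)) = z) (hz0 : z ≠ 0)
    (h3 : (A - 1) ((A - 1) ((A - 1) e)) = σ₂ • (A - 1) ((A - 1) e) + σ₁ • (A - 1) e + σ₀ • e)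
    {v : V} {W₂ : Submodule F V} {π : F[X]} {k : ℕ} (hblk : Blk A W₁ v W₂ π k)
    (hcop : IsCoprime (polQ (σ₂ - z) (σ₁ - σ₀ - z)) (π ^ k)) {c : V} {b : V →ₗ[F] F}
    (hbe : b e ≠ 0) (hfc : f c ≠ 0) (hm : 3 ≤ m + 1) : Good τ (m + 1) A c b := by
  apply level_step (two_sub_ne hτ4) hm h1 h2 hbe hfc
  have hH : finrank F (LinearMap.ker f) = m := by
    have := finrank_ker_add_one h1
    omega
  have hk := kry_cpr h2 h1
  have hIH := IH (LinearMap.ker f) hH (schur A e f h2) (W₁.comap (kι f)) (cpr A e f h1 h2) (bpr A f)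
    (by rw [det_schur h1 h2]; exact hdet) (by rw [hk]; exact comap_isCompl hc hW₀)
    (comap_inv_of_le h2 hW₀ hinv)
    (by
      intro x hx
      exact hW₀ (hinv _ hx))
    (by rw [bpr_cpr, hz]; exact hz0) (hcond.comap h2 hW₀ hinv)
  refine hIH.2 ?_ _ _ _ _ _ _ (rel_cpr h1 h2 hz h3) (Blk.comap h2 hW₀ hinv hblk) hcop
  rw [hk]
  have := finrank_comap_add_one h1 (self_mem_kry A e)
  omega

lemma descend_level2 (hτ4 : τ * τ ≠ 4) (hτ : (τ = 0 ∧ (2 : F) ≠ 0) ∨ (τ = 1 ∧ (2 : F) = 0))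
    [FiniteDimensional F V] (hV : finrank F V = 3) {A : End F V} (hdet : LinearMap.det A = 1)
    {e : V} {f : V →ₗ[F] F} (h1 : f e = 1) (h2 : f (A e) = 1) (htop : kry A e = ⊤)
    {z σ₂ σ₁ σ₀ : F} (hz : f ((A - 1) ((A - 1) e)) = z)
    (h3 : (A - 1) ((A - 1) ((A - 1) e)) = σ₂ • (A - 1) ((A - 1) e) + σ₁ • (A - 1) e + σ₀ • e)
    (hα : (σ₂ - z) * ((σ₂ - z) + 4) ≠ 0) {c : V} {b : V →ₗ[F] F}
    (hbe : b e ≠ 0) (hfc : f c ≠ 0) : Good τ 3 A c b := by
  apply level_step (two_sub_ne hτ4) (le_refl 3) h1 h2 hbe hfc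
  have hH : finrank F (LinearMap.ker f) = 2 := by
    have := finrank_ker_add_one h1
    omega
  have hk := kry_cpr h2 h1
  have hktop : kry (schur A e f h2) (cpr A e f h1 h2) = ⊤ := by
    rw [hk, htop, Submodule.comap_top]
  have hli := li_two_of_finrank (A := schur A e f h2) (v := cpr A e f h1 h2) (by
    rw [hktop, finrank_top, hH])
  have hli' : LinearIndependent F ![cpr A e f h1 h2, schur A e f h2 (cpr A e f h1 h2)] := by
    have h0 := li_pair_add hli
    have h00 : (![cpr A e f h1 h2, schur A e f h2 (cpr A e f h1 h2)] : Fin 2 → LinearMap.ker f) =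
        ![cpr A e f h1 h2, (schur A e f h2 - 1) (cpr A e f h1 h2) + cpr A e f h1 h2] := by
      funext i
      fin_cases i
      · rfl
      · simp
    rw [h00]
    exact h0
  have hrel := rel_cpr h1 h2 hz h3
  refine good2_of_cyclic hτ4 hτ hH (t := 2 + (σ₂ - z)) (n := 1 + (σ₂ - z) - (σ₁ - σ₀ - z)) hli' ?_
    (by rw [det_schur h1 h2]; exact hdet) ?_ _ _
  · simp only [LinearMap.sub_apply, Module.End.one_apply, map_sub] at hrel
    have : schur A e f h2 (schur A e f h2 (cpr A e f h1 h2)) =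
        (schur A e f h2 (schur A e f h2 (cpr A e f h1 h2)) - schur A e f h2 (cpr A e f h1 h2) -
          (schur A e f h2 (cpr A e f h1 h2) - cpr A e f h1 h2)) +
          (2 : F) • schur A e f h2 (cpr A e f h1 h2) - cpr A e f h1 h2 := by module
    rw [this, hrel]
    module
  · intro h0
    apply hα
    linear_combination h0

/-- a functional for the long steps. -/
lemma exists_f_T1 (hq : 3 ≤ Fintype.card F) [FiniteDimensional F V] {e e1 e2 c : V}
    (hli : LinearIndependent F ![e, e1, e2]) {M W₁ : Submodule F V} (he : e ∈ M) (he1 : e1 ∈ M)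
    (he2 : e2 ∈ M) (hcM : c ∈ M) (hd : Disjoint M W₁) (hc : ∀ t : F, c ≠ t • e1) :
    ∃ f : V →ₗ[F] F, f e = 1 ∧ f e1 = 0 ∧ f e2 ≠ 0 ∧ f c ≠ 0 ∧ W₁ ≤ LinearMap.ker f := by
  have hsp : Submodule.span F (Set.range ![e, e1, e2]) ≤ M := by
    rw [Submodule.span_le]
    rintro _ ⟨i, rfl⟩
    fin_cases i
    · exact he
    · exact he1
    · exact he2
  by_cases hcT : c ∈ Submodule.span F (Set.range ![e, e1, e2])
  · obtain ⟨w, hw⟩ := Submodule.mem_span_range_iff_exists_fun F |>.mp hcT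
    simp only [Fin.sum_univ_three, Matrix.cons_val_zero, Matrix.cons_val_one, Matrix.cons_val] at hw
    have hw02 : w 0 ≠ 0 ∨ w 2 ≠ 0 := by
      by_contra hcon
      push Not at hcon
      apply hc (w 1)
      rw [← hw, hcon.1, hcon.2]
      simp
    obtain ⟨z, hz0, hz1⟩ : ∃ z : F, z ≠ 0 ∧ w 0 + w 2 * z ≠ 0 := by
      by_cases h2 : w 2 = 0
      · refine ⟨1, one_ne_zero, ?_⟩
        rw [h2]
        simpa [h2] using hw02
      · obtain ⟨z, h3, h4⟩ := exists_ne₂ hq 0 (-(w 0) / w 2)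
        refine ⟨z, h3, fun h0 => h4 ?_⟩
        field_simp
        linear_combination h0
    obtain ⟨f, hf, hfW⟩ := exists_functional hli (hd.mono_left hsp) ![1, 0, z]
    have h0 := hf 0
    have h1 := hf 1
    have h2 := hf 2
    simp only [Matrix.cons_val_zero, Matrix.cons_val_one, Matrix.cons_val] at h0 h1 h2
    refine ⟨f, h0, h1, by rw [h2]; exact hz0, ?_, hfW⟩
    rw [← hw, map_add, map_add, map_smul, map_smul, map_smul, h0, h1, h2]
    simpa using hz1
  · have hs : (Fin.snoc ![e, e1, e2] c : Fin 4 → V) = ![e, e1, e2, c] := by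
      funext i
      fin_cases i
      · rfl
      · rfl
      · rfl
      · simp [Fin.snoc]
    have hli4 : LinearIndependent F ![e, e1, e2, c] := by
      rw [← hs, linearIndependent_fin_snoc]
      exact ⟨hli, hcT⟩
    have hsp4 : Submodule.span F (Set.range ![e, e1, e2, c]) ≤ M := by
      rw [Submodule.span_le]
      rintro _ ⟨i, rfl⟩
      fin_cases i
      · exact he
      · exact he1
      · exact he2
      · exact hcM
    obtain ⟨f, hf, hfW⟩ := exists_functional hli4 (hd.mono_left hsp4) ![1, 0, 1, 1]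
    have h0 := hf 0
    have h1 := hf 1
    have h2 := hf 2
    have h3 := hf 3
    simp only [Matrix.cons_val_zero, Matrix.cons_val_one, Matrix.cons_val] at h0 h1 h2 h3
    exact ⟨f, h0, h1, by rw [h2]; exact one_ne_zero, by rw [h3]; exact one_ne_zero, hfW⟩

end Main

end Cfsg.Agent.SLComm
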