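import Mathlib
import Cfsg.Agent.Lib.SLComm.Path

/-!
The main recursion, putting the steps together.
-/

set_option autoImplicit false

namespace Cfsg.Agent.SLComm

universe u
open Module Polynomial

variable {F : Type u} [Field F] {V : Type u} [AddCommGroup V] [Module F V]

lemma inj_of_det [FiniteDimensional F V] {A : End F V} (h : LinearMap.det A = 1) :
    Function.Injective A := by
  have : IsUnit A := (LinearMap.isUnit_iff_isUnit_det A).mpr (by rw [h]; exact isUnit_one)
  exact ((Module.End.isUnit_iff A).mp this).1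

lemma span_three_le_kry [FiniteDimensional F V] (A : End F V) (c : V) :
    Submodule.span F (Set.range ![c, (A - 1) c, (A - 1) ((A - 1) c)]) ≤ kry A c := by
  rw [Submodule.span_le]
  rintro _ ⟨i, rfl⟩
  fin_cases i
  · exact self_mem_kry A c
  · exact sub_one_mem_kry A c (self_mem_kry A c)
  · exact sub_one_mem_kry A c (sub_one_mem_kry A c (self_mem_kry A c))

lemma exists_f_val [FiniteDimensional F V] {A : End F V} {c : V} {W : Submodule F V}
    (hc : IsCompl (kry A c) W) (hD : 3 ≤ finrank F (kry A c)) (z : F) :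
    ∃ f : V →ₗ[F] F, f c = 1 ∧ f (A c) = 1 ∧ f ((A - 1) ((A - 1) c)) = z ∧ W ≤ LinearMap.ker f := by
  have hli := li_three_of_finrank hD
  obtain ⟨f, hf, hW⟩ := exists_functional hli (hc.disjoint.mono_left (span_three_le_kry A c)) ![1, 0, z]
  have h0 := hf 0
  have h1 := hf 1
  have h2 := hf 2
  simp only [Matrix.cons_val_zero, Matrix.cons_val_one, Matrix.cons_val] at h0 h1 h2
  exact ⟨f, h0, by rw [A_e_eq, map_add, h0, h1, add_zero], h2, hW⟩

section Main

variable [Fintype F] {τ : F}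

lemma path_part1 (hτ4 : τ * τ ≠ 4) (hτ : (τ = 0 ∧ (2 : F) ≠ 0) ∨ (τ = 1 ∧ (2 : F) = 0)) {m : ℕ}
    (IH : PathStmt τ m) [FiniteDimensional F V] (hV : finrank F V = m + 1) {A : End F V}
    {W : Submodule F V} {c : V} {b : V →ₗ[F] F} (hdet : LinearMap.det A = 1)
    (hc : IsCompl (kry A c) W) (hinv : ∀ x ∈ W, A x ∈ W) (hb : b c ≠ 0) (hcond : CondW A W)
    (hD : 3 ≤ finrank F (kry A c)) : Good τ (m + 1) A c b := by
  have hA := inj_of_det hdet
  have hle : finrank F (kry A c) ≤ m + 1 := by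
    rw [← hV]; exact Submodule.finrank_le _
  by_cases hD4 : 4 ≤ finrank F (kry A c)
  · obtain ⟨f, h1, h2, hz, hW₀⟩ := exists_f_val hc hD 1
    exact descend_path hτ4 IH hV hdet h1 h2 hc hinv hW₀ hcond hD4 (by rw [hz]; exact one_ne_zero) hb
      (by rw [h1]; exact one_ne_zero) (by omega)
  · have hD3 : finrank F (kry A c) = 3 := by omega
    obtain ⟨σ₂, σ₁, σ₀, h3⟩ := exists_rel_three hD3
    by_cases hWbot : W = ⊥
    · subst hWbot
      have htop : kry A c = ⊤ := by
        have := hc.sup_eq_top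
        simpa using this
      have hV3 : finrank F V = 3 := by
        rw [← finrank_top (R := F) (M := V), ← htop]
        exact hD3
      have hm : m + 1 = 3 := by omega
      obtain ⟨α', hα'⟩ := exists_alpha (F := F)
      obtain ⟨f, h1, h2, hz, hW₀⟩ := exists_f_val hc hD (σ₂ - α')
      rw [hm]
      exact descend_level2 hτ4 hτ hV3 hdet h1 h2 htop hz h3 (by simpa using hα') hb
        (by rw [h1]; exact one_ne_zero)
    · rcases hcond with h | ⟨hq, hNF⟩
      · exact absurd h hWbot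
      obtain ⟨v, W₂, π, k, hblk⟩ := exists_blk hA hinv hWbot
      obtain ⟨zb, hzb⟩ := exists_zbad (polQ σ₂ (σ₁ - σ₀)) hblk.irr hblk.notX k
      obtain ⟨z, hz0, hz1⟩ := exists_ne₂ hq 0 zb
      obtain ⟨f, h1, h2, hz, hW₀⟩ := exists_f_val hc hD z
      refine descend_two hτ4 IH hV hdet h1 h2 hc hinv hW₀ (Or.inr ⟨hq, hNF⟩) hD3 hz hz0 h3 hblk ?_ hb
        (by rw [h1]; exact one_ne_zero) (by omega)
      rw [polQ_sub]
      exact hzb z hz1

end Main

/-- splitting off a block keeps things complementary. -/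
lemma isCompl_sup_of_blk {M W : Submodule F V} (hc : IsCompl M W) {A : End F V} {v : V}
    {W₁ : Submodule F V} {π : F[X]} {k : ℕ} (hb : Blk A W v W₁ π k) : IsCompl (M ⊔ kry A v) W₁ := by
  constructor
  · rw [Submodule.disjoint_def]
    intro x hx hx'
    obtain ⟨p, hp, q, hq, rfl⟩ := Submodule.mem_sup.mp hx
    have hpW : p ∈ W := by
      have h1 : p + q ∈ W := hb.W₁_le hx'
      have h2 : q ∈ W := hb.kry_le hq
      simpa using W.sub_mem h1 h2
    have hp0 : p = 0 := Submodule.disjoint_def.mp hc.disjoint p hp hpW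
    subst hp0
    rw [zero_add] at hx' ⊢
    exact Submodule.disjoint_def.mp hb.disj q hq hx'
  · rw [codisjoint_iff, sup_assoc, hb.sup]
    exact hc.sup_eq_top

lemma finrank_sup_blk [FiniteDimensional F V] {M W : Submodule F V} (hc : IsCompl M W) {A : End F V}
    {v : V} {W₁ : Submodule F V} {π : F[X]} {k : ℕ} (hb : Blk A W v W₁ π k) :
    finrank F (M ⊔ kry A v : Submodule F V) = finrank F M + finrank F (kry A v) := by
  have hd : Disjoint M (kry A v) := hc.disjoint.mono_right hb.kry_le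
  have := Submodule.finrank_sup_add_finrank_inf_eq M (kry A v)
  rw [hd.eq_bot, finrank_bot, add_zero] at this
  exact this

lemma two_le_finrank_of_li [FiniteDimensional F V] {A : End F V} {v : V}
    (hli : LinearIndependent F ![v, (A - 1) v]) : 2 ≤ finrank F (kry A v) := by
  have hle : Submodule.span F (Set.range ![v, (A - 1) v]) ≤ kry A v := by
    rw [Submodule.span_le]
    rintro _ ⟨i, rfl⟩
    fin_cases i
    · exact self_mem_kry A v
    · exact sub_one_mem_kry A v (self_mem_kry A v)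
  have hfr : finrank F (Submodule.span F (Set.range ![v, (A - 1) v])) = 2 := by
    rw [finrank_span_eq_card hli]; simp
  have := Submodule.finrank_mono hle
  omega

/-- eigenvectors generate lines. -/
lemma kry_eigen {A : End F V} {v : V} {ρ : F} (h : (A - 1) v = ρ • v) :
    kry A v = Submodule.span F {v} := by
  apply le_antisymm
  · apply kry_le
    · intro x hx
      obtain ⟨s, rfl⟩ := Submodule.mem_span_singleton.mp hx
      have : A v = (ρ + 1) • v := by
        rw [A_e_eq, h]; module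
      rw [map_smul, this]
      exact Submodule.smul_mem _ _ (Submodule.smul_mem _ _ (Submodule.mem_span_singleton_self v))
    · exact Submodule.mem_span_singleton_self v
  · rw [Submodule.span_le]
    simpa using self_mem_kry A v

lemma eq_smul_of_not_li {x y : V} (hx : x ≠ 0) (h : ¬ LinearIndependent F ![x, y]) :
    ∃ t : F, y = t • x := by
  by_contra hno
  push Not at hno
  apply h
  rw [LinearIndependent.pair_iff]
  intro s t hst
  by_cases ht : t = 0
  · subst ht
    simp only [zero_smul, add_zero] at hst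
    exact ⟨(smul_eq_zero.mp hst).resolve_right hx, rfl⟩
  · exfalso
    apply hno (-(s / t))
    have : t • y = (-s) • x := by
      rw [neg_smul]; exact eq_neg_of_add_eq_zero_right hst
    calc y = t⁻¹ • (t • y) := by rw [smul_smul, inv_mul_cancel₀ ht, one_smul]
      _ = -(s / t) • x := by rw [this, smul_smul]; congr 1; field_simp

section Main2

variable [Fintype F] {τ : F}

lemma path_part2a (hq : 3 ≤ Fintype.card F) (hτ4 : τ * τ ≠ 4) {m : ℕ}
    (IH : PathStmt τ m) [FiniteDimensional F V] (hV : finrank F V = m + 1) {A : End F V}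
    {W : Submodule F V} {c : V} {b : V →ₗ[F] F} (hdet : LinearMap.det A = 1)
    (hc : IsCompl (kry A c) W) (hW : W ≤ LinearMap.ker b) (hbc : b c ≠ 0) (hNF : NoFix A W)
    (hD : finrank F (kry A c) = 2) {α β : F}
    (hrel : (A - 1) ((A - 1) c) = α • (A - 1) c + β • c) {v : V} {W₁ : Submodule F V} {π : F[X]}
    {k : ℕ} (hblk : Blk A W v W₁ π k) (hcop : IsCoprime (polQ α β) (π ^ k))
    (hli : LinearIndependent F ![v, (A - 1) v]) : Good τ (m + 1) A c b := by
  have hpc : aeval A (polQ α β) c = 0 := by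
    rw [aeval_polQ, hrel]; abel
  have hke : kry A (c + v) = kry A c ⊔ kry A v := kry_add_of_coprime hpc hblk.ann hcop
  have hcomp : IsCompl (kry A (c + v)) W₁ := by
    rw [hke]; exact isCompl_sup_of_blk hc hblk
  have hfr : 4 ≤ finrank F (kry A (c + v)) := by
    rw [hke, finrank_sup_blk hc hblk, hD]
    have := two_le_finrank_of_li hli
    omega
  have hle : finrank F (kry A (c + v)) ≤ m + 1 := by
    rw [← hV]; exact Submodule.finrank_le _
  have hli3 := li_three_of_finrank (A := A) (v := c + v) (by omega)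
  have hvW : v ∈ W := hblk.kry_le (self_mem_kry _ _)
  have hRvW : (A - 1) v ∈ W := hblk.kry_le (sub_one_mem_kry _ _ (self_mem_kry _ _))
  have hc0 : c ≠ 0 := by
    rintro rfl
    exact hbc (map_zero b)
  have hcne : ∀ t : F, c ≠ t • (A - 1) (c + v) := by
    intro t h
    have h1 : c - t • (A - 1) c = t • (A - 1) v := by
      rw [map_add, smul_add] at h
      nth_rw 1 [h]
      abel
    have h2 : c - t • (A - 1) c ∈ kry A c :=
      (kry A c).sub_mem (self_mem_kry _ _) ((kry A c).smul_mem _ (sub_one_mem_kry _ _ (self_mem_kry _ _)))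
    have h3 : c - t • (A - 1) c = 0 := Submodule.disjoint_def.mp hc.disjoint _ h2
      (by rw [h1]; exact W.smul_mem _ hRvW)
    have h4 : t • (A - 1) v = 0 := by rw [← h1, h3]
    have hRv : (A - 1) v ≠ 0 := by
      have := hli.ne_zero 1
      simpa using this
    have ht : t = 0 := (smul_eq_zero.mp h4).resolve_right hRv
    subst ht
    apply hc0
    simpa using h3
  have hcmem : c ∈ kry A (c + v) := by
    rw [hke]
    exact Submodule.mem_sup_left (self_mem_kry _ _)
  obtain ⟨f, h1, h0, hz, hfc, hW₀⟩ := exists_f_T1 hq hli3 (M := kry A (c + v)) (self_mem_kry _ _)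
    (sub_one_mem_kry _ _ (self_mem_kry _ _))
    (sub_one_mem_kry _ _ (sub_one_mem_kry _ _ (self_mem_kry _ _))) hcmem hcomp.disjoint hcne
  have h2 : f (A (c + v)) = 1 := by
    rw [A_e_eq A (c + v), map_add, h1, h0, add_zero]
  have hbe : b (c + v) ≠ 0 := by
    have : b v = 0 := hW hvW
    rwa [map_add, this, add_zero]
  exact descend_path hτ4 IH hV hdet h1 h2 hcomp hblk.inv₁ hW₀ (Or.inr ⟨hq, hNF.sub hblk⟩) hfr hz
    hbe hfc (by omega)

/-- combinations of `c` and `Rc` generate the same cyclic space. -/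
lemma kry_comb [FiniteDimensional F V] {A : End F V} {c : V} {α β u₀ u₁ : F}
    (hrel : (A - 1) ((A - 1) c) = α • (A - 1) c + β • c)
    (hN : u₀ * u₀ + α * u₀ * u₁ - β * u₁ * u₁ ≠ 0) :
    kry A (u₀ • c + u₁ • (A - 1) c) = kry A c := by
  apply le_antisymm
  · apply kry_le (fun _ h => kry_inv A c h)
    exact (kry A c).add_mem ((kry A c).smul_mem _ (self_mem_kry _ _))
      ((kry A c).smul_mem _ (sub_one_mem_kry _ _ (self_mem_kry _ _)))
  · apply kry_le (fun _ h => kry_inv _ _ h)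
    set u := u₀ • c + u₁ • (A - 1) c with hu
    have hRu : (A - 1) u = u₀ • (A - 1) c + u₁ • (α • (A - 1) c + β • c) := by
      rw [hu]
      simp only [map_add, map_smul, hrel]
    have h1 : (u₀ * u₀ + α * u₀ * u₁ - β * u₁ * u₁) • c = (u₀ + α * u₁) • u - u₁ • (A - 1) u := by
      rw [hRu, hu]
      module
    have h2 : c = (u₀ * u₀ + α * u₀ * u₁ - β * u₁ * u₁)⁻¹ • ((u₀ + α * u₁) • u - u₁ • (A - 1) u) := by
      rw [← h1, smul_smul, inv_mul_cancel₀ hN, one_smul]
    rw [h2]
    exact Submodule.smul_mem _ _ (Submodule.sub_mem _ (Submodule.smul_mem _ _ (self_mem_kry _ _))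
      (Submodule.smul_mem _ _ (sub_one_mem_kry _ _ (self_mem_kry _ _))))

lemma exists_e_f (hq : 3 ≤ Fintype.card F) [FiniteDimensional F V] {A : End F V}
    {W : Submodule F V} {c : V} {b : V →ₗ[F] F} (hc : IsCompl (kry A c) W)
    (hW : W ≤ LinearMap.ker b) (hbc : b c ≠ 0)
    (hD : finrank F (kry A c) = 2) {α β : F}
    (hrel : (A - 1) ((A - 1) c) = α • (A - 1) c + β • c) {v : V} {W₁ : Submodule F V} {π : F[X]}
    {k : ℕ} (hblk : Blk A W v W₁ π k) (hcop : IsCoprime (polQ α β) (π ^ k)) {ρ : F}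
    (hρv : (A - 1) v = ρ • v) (hρ : ρ ≠ 0) (hρ1 : ρ + 1 ≠ 0) (hκ : ρ * ρ - α * ρ - β ≠ 0)
    (hN : 1 + α - β ≠ 0) {z : F} (hz : 4 ≤ Fintype.card F → z ≠ ρ * ρ - α * ρ) :
    ∃ (e : V) (f : V →ₗ[F] F), f e = 1 ∧ f (A e) = 1 ∧ f ((A - 1) ((A - 1) e)) = z ∧ f c ≠ 0 ∧
      b e ≠ 0 ∧ W₁ ≤ LinearMap.ker f ∧ kry A e = kry A c ⊔ kry A v ∧
      (A - 1) ((A - 1) ((A - 1) e)) =
        (α + ρ) • (A - 1) ((A - 1) e) + (β - α * ρ) • (A - 1) e + (-(β * ρ)) • e := by
  have hvW : v ∈ W := hblk.kry_le (self_mem_kry _ _)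
  have hcomp := isCompl_sup_of_blk hc hblk
  have hli2 := li_two_of_finrank (A := A) (v := c) (by omega)
  -- the three vectors are independent
  have hspan2 : Submodule.span F (Set.range ![c, (A - 1) c]) ≤ kry A c := by
    rw [Submodule.span_le]
    rintro _ ⟨i, rfl⟩
    fin_cases i
    · exact self_mem_kry A c
    · exact sub_one_mem_kry A c (self_mem_kry A c)
  have hli3 : LinearIndependent F ![c, (A - 1) c, v] := by
    have hs : (![c, (A - 1) c, v] : Fin 3 → V) = Fin.snoc ![c, (A - 1) c] v := by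
      funext i
      fin_cases i <;> simp [Fin.snoc]
    rw [hs, linearIndependent_finSnoc]
    refine ⟨hli2, fun hmem => hblk.v_ne ?_⟩
    exact Submodule.disjoint_def.mp hc.disjoint v (hspan2 hmem) hvW
  have hspan3 : Submodule.span F (Set.range ![c, (A - 1) c, v]) ≤ kry A c ⊔ kry A v := by
    rw [Submodule.span_le]
    rintro _ ⟨i, rfl⟩
    fin_cases i
    · exact Submodule.mem_sup_left (self_mem_kry A c)
    · exact Submodule.mem_sup_left (sub_one_mem_kry A c (self_mem_kry A c))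
    · exact Submodule.mem_sup_right (self_mem_kry A v)
  obtain ⟨u₀, u₁, φ₀, φ₁, η, hb1, hN1, hφ, h1, h2, h3⟩ :=
    T3_exists (α := α) (β := β) (ρ := ρ) (b₀ := b c) (b₁ := b ((A - 1) c)) (z := z) hq hρ hρ1 hκ hN hbc hz
  obtain ⟨f, hf, hfW⟩ := exists_functional hli3 (hcomp.disjoint.mono_left hspan3) ![φ₀, φ₁, η]
  have hf0 := hf 0
  have hf1 := hf 1
  have hf2 := hf 2
  simp only [Matrix.cons_val_zero, Matrix.cons_val_one, Matrix.cons_val] at hf0 hf1 hf2
  have hpu : aeval A (polQ α β) (u₀ • c + u₁ • (A - 1) c) = 0 := by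
    rw [aeval_polQ]
    simp only [map_add, map_smul, hrel]
    module
  have hke : kry A (u₀ • c + u₁ • (A - 1) c + v) = kry A c ⊔ kry A v := by
    rw [kry_add_of_coprime hpu hblk.ann hcop, kry_comb hrel hN1]
  have hRe : (A - 1) (u₀ • c + u₁ • (A - 1) c + v) =
      (u₁ * β) • c + (u₀ + u₁ * α) • (A - 1) c + ρ • v := by
    simp only [map_add, map_smul, hrel, hρv]
    module
  have hRRe : (A - 1) ((A - 1) (u₀ • c + u₁ • (A - 1) c + v)) =
      ((u₀ + u₁ * α) * β) • c + (u₁ * β + (u₀ + u₁ * α) * α) • (A - 1) c + (ρ * ρ) • v := by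
    rw [hRe]
    simp only [map_add, map_smul, hrel, hρv]
    module
  have hRRRe : (A - 1) ((A - 1) ((A - 1) (u₀ • c + u₁ • (A - 1) c + v))) =
      (α + ρ) • (A - 1) ((A - 1) (u₀ • c + u₁ • (A - 1) c + v)) +
        (β - α * ρ) • (A - 1) (u₀ • c + u₁ • (A - 1) c + v) +
        (-(β * ρ)) • (u₀ • c + u₁ • (A - 1) c + v) := by
    rw [hRRe, hRe]
    simp only [map_add, map_smul, hrel, hρv]
    module
  have hfe : f (u₀ • c + u₁ • (A - 1) c + v) = 1 := by
    simp only [map_add, map_smul, hf0, hf1, hf2, smul_eq_mul]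
    exact h1
  have hfRe : f ((A - 1) (u₀ • c + u₁ • (A - 1) c + v)) = 0 := by
    rw [hRe]
    simp only [map_add, map_smul, hf0, hf1, hf2, smul_eq_mul]
    exact h2
  refine ⟨u₀ • c + u₁ • (A - 1) c + v, f, hfe, ?_, ?_, ?_, ?_, hfW, hke, hRRRe⟩
  · rw [A_e_eq A (u₀ • c + u₁ • (A - 1) c + v), map_add, hfe, hfRe, add_zero]
  · rw [hRRe]
    simp only [map_add, map_smul, hf0, hf1, hf2, smul_eq_mul]
    exact h3
  · rw [hf0]; exact hφ
  · have hbv : b v = 0 := hW hvW
    simp only [map_add, map_smul, hbv, smul_eq_mul, add_zero]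
    exact hb1

lemma path_part2b (hq : 3 ≤ Fintype.card F) (hτ4 : τ * τ ≠ 4)
    (hτ : (τ = 0 ∧ (2 : F) ≠ 0) ∨ (τ = 1 ∧ (2 : F) = 0)) {m : ℕ}
    (IH : PathStmt τ m) [FiniteDimensional F V] (hV : finrank F V = m + 1) {A : End F V}
    {W : Submodule F V} {c : V} {b : V →ₗ[F] F} (hdet : LinearMap.det A = 1)
    (hc : IsCompl (kry A c) W) (hW : W ≤ LinearMap.ker b) (hbc : b c ≠ 0) (hNF : NoFix A W)
    (hD : finrank F (kry A c) = 2) {α β : F}
    (hrel : (A - 1) ((A - 1) c) = α • (A - 1) c + β • c) {v : V} {W₁ : Submodule F V} {π : F[X]}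
    {k : ℕ} (hblk : Blk A W v W₁ π k) (hcop : IsCoprime (polQ α β) (π ^ k)) {ρ : F}
    (hρv : (A - 1) v = ρ • v) : Good τ (m + 1) A c b := by
  have hA := inj_of_det hdet
  have hvW : v ∈ W := hblk.kry_le (self_mem_kry _ _)
  have hk := kry_eigen hρv
  have hAv : A v = (ρ + 1) • v := by
    rw [A_e_eq, hρv]; module
  have hρ : ρ ≠ 0 := by
    intro h0
    have hAv' : A v = v := by rw [hAv, h0]; simp
    exact hNF v hvW hblk.v_ne hAv' W₁ hblk.W₁_le hblk.inv₁ (by rw [← hk]; exact hblk.disj)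
      (by rw [← hk]; exact hblk.sup)
  have hρ1 : ρ + 1 ≠ 0 := by
    intro h0
    rw [h0, zero_smul] at hAv
    exact hblk.v_ne (hA (by rw [hAv, map_zero]))
  have hκ : ρ * ρ - α * ρ - β ≠ 0 := by
    intro h0
    obtain ⟨a', b', hab⟩ := hcop
    have h1 : aeval A (polQ α β) v = 0 := by
      rw [aeval_polQ, hρv]
      simp only [map_smul, hρv]
      have : ρ • ρ • v - α • ρ • v - β • v = (ρ * ρ - α * ρ - β) • v := by module
      rw [this, h0, zero_smul]
    have h2 : aeval A (a' * polQ α β + b' * π ^ k) v = v := by rw [hab]; simp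
    rw [map_add, LinearMap.add_apply, map_mul, map_mul, Module.End.mul_apply, Module.End.mul_apply,
      h1, hblk.ann, map_zero, map_zero, add_zero] at h2
    exact hblk.v_ne h2.symm
  have hN : 1 + α - β ≠ 0 := by
    intro h0
    have hli2 := li_two_of_finrank (A := A) (v := c) (by omega)
    have h1 : A ((A - 1) c - (1 + α) • c) = 0 := by
      rw [map_sub, map_smul, A_e_eq A ((A - 1) c), A_e_eq A c, hrel]
      have : (A - 1) c + (α • (A - 1) c + β • c) - (1 + α) • (c + (A - 1) c) = (-(1 + α - β)) • c := by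
        module
      rw [this, h0]
      simp
    have h2 : (A - 1) c - (1 + α) • c = 0 := hA (by rw [h1, map_zero])
    have h3 := LinearIndependent.pair_iff.mp hli2 (-(1 + α)) 1 (by rw [← h2]; module)
    exact one_ne_zero h3.2
  have hcomp := isCompl_sup_of_blk hc hblk
  have hfr : finrank F (kry A c ⊔ kry A v : Submodule F V) = 3 := by
    rw [finrank_sup_blk hc hblk, hD, hk, finrank_span_singleton hblk.v_ne]
  have hle : finrank F (kry A c ⊔ kry A v : Submodule F V) ≤ m + 1 := by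
    rw [← hV]; exact Submodule.finrank_le _
  by_cases hW₁ : W₁ = ⊥
  · subst hW₁
    have htop : kry A c ⊔ kry A v = ⊤ := by
      have := hcomp.sup_eq_top
      simpa using this
    have hV3 : finrank F V = 3 := by
      rw [← finrank_top (R := F) (M := V), ← htop]
      exact hfr
    have hm : m + 1 = 3 := by omega
    obtain ⟨α', hα', hα'z⟩ : ∃ α' : F, α' * (α' + 4) ≠ 0 ∧
        (4 ≤ Fintype.card F → (α + ρ) - α' ≠ ρ * ρ - α * ρ) := by
      by_cases h4 : 4 ≤ Fintype.card F
      · obtain ⟨x, h1, h2, h3⟩ := exists_ne₃ h4 0 (-4) ((α + ρ) - (ρ * ρ - α * ρ))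
        refine ⟨x, mul_ne_zero h1 ?_, fun _ h0 => h3 ?_⟩
        · intro h0
          apply h2
          linear_combination h0
        · linear_combination -h0
      · obtain ⟨x, hx⟩ := exists_alpha (F := F)
        exact ⟨x, hx, fun h => absurd h h4⟩
    obtain ⟨e, f, h1, h2, hz, hfc, hbe, hfW, hke, hrel3⟩ :=
      exists_e_f hq hc hW hbc hD hrel hblk hcop hρv hρ hρ1 hκ hN hα'z
    rw [hm]
    refine descend_level2 hτ4 hτ hV3 hdet h1 h2 (by rw [hke, htop]) hz hrel3 ?_ hbe hfc
    simpa using hα'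
  · obtain ⟨v₂, W₂, π₂, k₂, hblk₂⟩ := exists_blk hA hblk.inv₁ hW₁
    obtain ⟨zb, hzb⟩ := exists_zbad (polQ (α + ρ) ((β - α * ρ) - (-(β * ρ)))) hblk₂.irr hblk₂.notX k₂
    obtain ⟨z, hz0, hz1, hz2⟩ : ∃ z : F, z ≠ 0 ∧ z ≠ zb ∧
        (4 ≤ Fintype.card F → z ≠ ρ * ρ - α * ρ) := by
      by_cases h4 : 4 ≤ Fintype.card F
      · obtain ⟨x, h1, h2, h3⟩ := exists_ne₃ h4 0 zb (ρ * ρ - α * ρ)
        exact ⟨x, h1, h2, fun _ => h3⟩
      · obtain ⟨x, h1, h2⟩ := exists_ne₂ hq 0 zb
        exact ⟨x, h1, h2, fun h => absurd h h4⟩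
    obtain ⟨e, f, h1, h2, hz, hfc, hbe, hfW, hke, hrel3⟩ :=
      exists_e_f hq hc hW hbc hD hrel hblk hcop hρv hρ hρ1 hκ hN hz2
    have hv₂ : v₂ ∈ W₁ := hblk₂.kry_le (self_mem_kry _ _)
    have hv₂0 : v₂ ≠ 0 := hblk₂.v_ne
    have hm4 : 3 ≤ m + 1 := by omega
    refine descend_two hτ4 IH hV hdet h1 h2 (by rw [hke]; exact hcomp) hblk.inv₁ hfW
      (Or.inr ⟨hq, hNF.sub hblk⟩) (by rw [hke]; exact hfr) hz hz0 hrel3 hblk₂ ?_ hbe hfc hm4
    rw [polQ_sub]
    exact hzb z hz1

/-- the main theorem of the recursion. -/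
theorem path_main (hτ4 : τ * τ ≠ 4) (hτ : (τ = 0 ∧ (2 : F) ≠ 0) ∨ (τ = 1 ∧ (2 : F) = 0)) (m : ℕ) :
    PathStmt τ m := by
  induction m with
  | zero =>
    intro V _ _ _ hV A W c b _ _ _ _ _ _
    have hle : ∀ N : Submodule F V, finrank F N = 0 := by
      intro N
      have := Submodule.finrank_le N
      omega
    refine ⟨fun h => ?_, fun h => ?_⟩
    · have := hle (kry A c)
      omega
    · have := hle (kry A c)
      omega
  | succ m IH =>
    intro V _ _ _ hV A W c b hdet hc hinv hW hbc hcond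
    refine ⟨fun hD => path_part1 hτ4 hτ IH hV hdet hc hinv hbc hcond hD, ?_⟩
    intro hD α β v W₁ π k hrel hblk hcop
    have hv0 : W ≠ ⊥ := by
      rintro rfl
      have := hblk.kry_le (self_mem_kry _ _)
      exact hblk.v_ne (by simpa using this)
    rcases hcond with h | ⟨hq, hNF⟩
    · exact absurd h hv0
    by_cases hli : LinearIndependent F ![v, (A - 1) v]
    · exact path_part2a hq hτ4 IH hV hdet hc hW hbc hNF hD hrel hblk hcop hli
    · obtain ⟨ρ, hρ⟩ := eq_smul_of_not_li hblk.v_ne hli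
      exact path_part2b hq hτ4 hτ IH hV hdet hc hW hbc hNF hD hrel hblk hcop hρ

end Main2

end Cfsg.Agent.SLComm
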