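import Mathlib
import Cfsg.Agent.Lib.SLComm.PathMain

/-!
Elementary closure properties of the predicate `Comm`.
-/

set_option autoImplicit false

namespace Cfsg.Agent.SLComm

universe u
open Module Polynomial

variable {F : Type u} [Field F] {V : Type u} [AddCommGroup V] [Module F V]

lemma Comm.det_eq_one {A : End F V} (h : Comm A) : LinearMap.det A = 1 := by
  obtain ⟨X, Y, X', Y', hX, hX', hY, hY', hdX, hdY, rfl⟩ := h
  have h1 : LinearMap.det X' = 1 := by
    have := congrArg LinearMap.det hX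
    rw [map_mul, hdX, one_mul, map_one] at this
    exact this
  have h2 : LinearMap.det Y' = 1 := by
    have := congrArg LinearMap.det hY
    rw [map_mul, hdY, one_mul, map_one] at this
    exact this
  simp only [map_mul, hdX, hdY, h1, h2, mul_one]

lemma Comm.one : Comm (1 : End F V) :=
  ⟨1, 1, 1, 1, one_mul 1, one_mul 1, one_mul 1, one_mul 1, map_one _, map_one _, by simp⟩

lemma Comm.transport {V' : Type u} [AddCommGroup V'] [Module F V'] (e : V ≃ₗ[F] V') {A : End F V}
    {A' : End F V'} (h : ∀ x, e (A x) = A' (e x)) (hc : Comm A) : Comm A' := by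
  obtain ⟨X, Y, X', Y', hX, hX', hY, hY', hdX, hdY, hA⟩ := hc
  let φ : End F V ≃+* End F V' := e.conjRingEquiv
  have hφ : ∀ Z : End F V, φ Z = (e : V →ₗ[F] V') ∘ₗ Z ∘ₗ (e.symm : V' →ₗ[F] V) := fun Z => by
    ext x
    simp [φ]
  have hdet : ∀ Z : End F V, LinearMap.det (φ Z) = LinearMap.det Z := fun Z => by
    rw [hφ]
    exact LinearMap.det_conj Z e
  refine ⟨φ X, φ Y, φ X', φ Y', ?_, ?_, ?_, ?_, ?_, ?_, ?_⟩
  · rw [← map_mul, hX, map_one]
  · rw [← map_mul, hX', map_one]
  · rw [← map_mul, hY, map_one]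
  · rw [← map_mul, hY', map_one]
  · rw [hdet, hdX]
  · rw [hdet, hdY]
  · rw [← map_mul, ← map_mul, ← map_mul, ← hA, hφ]
    ext x
    simp [h]

lemma Comm.prod {V₁ V₂ : Type u} [AddCommGroup V₁] [Module F V₁] [AddCommGroup V₂] [Module F V₂]
    [FiniteDimensional F V₁] [FiniteDimensional F V₂] {A₁ : End F V₁} {A₂ : End F V₂}
    (h₁ : Comm A₁) (h₂ : Comm A₂) : Comm (LinearMap.prodMap A₁ A₂ : End F (V₁ × V₂)) := by
  obtain ⟨X, Y, X', Y', hX, hX', hY, hY', hdX, hdY, rfl⟩ := h₁
  obtain ⟨P, Q, P', Q', hP, hP', hQ, hQ', hdP, hdQ, rfl⟩ := h₂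
  refine ⟨LinearMap.prodMap X P, LinearMap.prodMap Y Q, LinearMap.prodMap X' P',
    LinearMap.prodMap Y' Q', ?_, ?_, ?_, ?_, ?_, ?_, ?_⟩
  · rw [LinearMap.prodMap_mul, hX, hP]; rfl
  · rw [LinearMap.prodMap_mul, hX', hP']; rfl
  · rw [LinearMap.prodMap_mul, hY, hQ]; rfl
  · rw [LinearMap.prodMap_mul, hY', hQ']; rfl
  · rw [LinearMap.det_prodMap, hdX, hdP, one_mul]
  · rw [LinearMap.det_prodMap, hdY, hdQ, one_mul]
  · simp only [LinearMap.prodMap_mul]

section Split

variable {A : End F V} {W₁ W₂ : Submodule F V} (h₁ : ∀ x ∈ W₁, A x ∈ W₁) (h₂ : ∀ x ∈ W₂, A x ∈ W₂)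
  (hc : IsCompl W₁ W₂)

include hc in
lemma intertwine_prod (x : W₁ × W₂) :
    Submodule.prodEquivOfIsCompl W₁ W₂ hc (LinearMap.prodMap (A.restrict h₁) (A.restrict h₂) x) =
      A (Submodule.prodEquivOfIsCompl W₁ W₂ hc x) := by
  simp [Submodule.coe_prodEquivOfIsCompl']

include hc in
/-- commutators on complementary invariant subspaces glue. -/
lemma Comm.of_isCompl [FiniteDimensional F V] (c₁ : Comm (A.restrict h₁)) (c₂ : Comm (A.restrict h₂)) :
    Comm A :=
  Comm.transport (Submodule.prodEquivOfIsCompl W₁ W₂ hc) (intertwine_prod h₁ h₂ hc) (c₁.prod c₂)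

include hc in
lemma det_of_isCompl [FiniteDimensional F V] :
    LinearMap.det A = LinearMap.det (A.restrict h₁) * LinearMap.det (A.restrict h₂) := by
  rw [← LinearMap.det_prodMap]
  have h := LinearMap.det_conj (LinearMap.prodMap (A.restrict h₁) (A.restrict h₂) : End F (W₁ × W₂))
    (Submodule.prodEquivOfIsCompl W₁ W₂ hc)
  rw [← h]
  congr 1
  ext x
  obtain ⟨y, rfl⟩ := (Submodule.prodEquivOfIsCompl W₁ W₂ hc).surjective x
  simp only [LinearMap.comp_apply, LinearEquiv.coe_coe, LinearEquiv.symm_apply_apply]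
  exact (intertwine_prod h₁ h₂ hc y).symm

end Split

section Matrices

variable {ι : Type*} [Fintype ι] [DecidableEq ι]

/-- a matrix commutator in a basis gives `Comm`. -/
lemma comm_of_matrix [FiniteDimensional F V] (B : Basis ι F V) {A : End F V}
    (X Y X' Y' : Matrix ι ι F) (hX : X * X' = 1) (hY : Y * Y' = 1) (hdX : X.det = 1) (hdY : Y.det = 1)
    (hA : LinearMap.toMatrix B B A = X * Y * X' * Y') : Comm A := by
  have hX' : X' * X = 1 := mul_eq_one_comm.mp hX
  have hY' : Y' * Y = 1 := mul_eq_one_comm.mp hY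
  let φ : Matrix ι ι F ≃ₐ[F] End F V := Matrix.toLinAlgEquiv B
  have hdet : ∀ M : Matrix ι ι F, LinearMap.det (φ M) = M.det := fun M => by
    rw [← LinearMap.det_toMatrix B]
    congr 1
    exact LinearMap.toMatrixAlgEquiv_toLinAlgEquiv B M
  refine ⟨φ X, φ Y, φ X', φ Y', ?_, ?_, ?_, ?_, ?_, ?_, ?_⟩
  · rw [← map_mul, hX, map_one]
  · rw [← map_mul, hX', map_one]
  · rw [← map_mul, hY, map_one]
  · rw [← map_mul, hY', map_one]
  · rw [hdet, hdX]
  · rw [hdet, hdY]
  · rw [← map_mul, ← map_mul, ← map_mul, ← hA]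
    exact (Matrix.toLinAlgEquiv_toMatrixAlgEquiv B A).symm

end Matrices

/-- restrictions and cyclic subspaces -/
lemma kry_restrict {A : End F V} {N : Submodule F V} (hN : ∀ x ∈ N, A x ∈ N) (x : N) :
    kry (A.restrict hN) x = (kry A (x : V)).comap N.subtype := by
  have hsemi : ∀ y : N, N.subtype ((A.restrict hN) y) = A (N.subtype y) := fun _ => rfl
  apply le_antisymm
  · apply kry_le
    · intro y hy
      simp only [Submodule.mem_comap] at hy ⊢
      rw [hsemi]
      exact kry_inv _ _ hy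
    · exact self_mem_kry A (x : V)
  · intro y hy
    have hy' : (y : V) ∈ kry A (x : V) := hy
    obtain ⟨p, hp⟩ := mem_kry.mp hy'
    refine mem_kry.mpr ⟨p, Subtype.ext ?_⟩
    have := semi_aeval N.subtype (A.restrict hN) A hsemi p x
    simp only [Submodule.subtype_apply] at this
    rw [this, hp]

lemma aeval_restrict_coe {A : End F V} {N : Submodule F V} (hN : ∀ x ∈ N, A x ∈ N) (x : N)
    (p : F[X]) : ((aeval (A.restrict hN) p x : N) : V) = aeval A p (x : V) :=
  semi_aeval N.subtype (A.restrict hN) A (fun _ => rfl) p x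

lemma restrict_sub_one_coe {A : End F V} {N : Submodule F V} (hN : ∀ x ∈ N, A x ∈ N) (x : N) :
    (((A.restrict hN - 1) x : N) : V) = (A - 1) (x : V) := by
  simp

lemma isCompl_comap_of_sup {N M₁ M₂ : Submodule F V} (hd : Disjoint M₁ M₂) (hs : M₁ ⊔ M₂ = N) :
    IsCompl (M₁.comap N.subtype) (M₂.comap N.subtype) := by
  constructor
  · rw [Submodule.disjoint_def]
    intro x hx hx'
    exact Subtype.ext (Submodule.disjoint_def.mp hd _ hx hx')
  · rw [codisjoint_iff, eq_top_iff]
    intro x _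
    have hx : (x : V) ∈ M₁ ⊔ M₂ := by rw [hs]; exact x.2
    obtain ⟨a, ha, b, hb, hab⟩ := Submodule.mem_sup.mp hx
    have ha' : a ∈ N := by rw [← hs]; exact Submodule.mem_sup_left ha
    have hb' : b ∈ N := by rw [← hs]; exact Submodule.mem_sup_right hb
    have : x = ⟨a, ha'⟩ + ⟨b, hb'⟩ := Subtype.ext hab.symm
    rw [this]
    exact Submodule.add_mem_sup ha hb

lemma finrank_comap_subtype_of_le [FiniteDimensional F V] {N M : Submodule F V} (h : M ≤ N) :
    finrank F (M.comap N.subtype) = finrank F M := by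
  have h1 : (M.comap N.subtype).map N.subtype = M := by
    rw [Submodule.map_comap_subtype, inf_eq_right.mpr h]
  rw [← Submodule.finrank_map_subtype_eq N (M.comap N.subtype), h1]

end Cfsg.Agent.SLComm
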