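import Mathlib
import Cfsg.Agent.Lib.SLComm.CommBasic

/-!
A cyclic direct summand whose annihilator kills everything.
-/

set_option autoImplicit false

namespace Cfsg.Agent.SLComm

universe u
open Module Polynomial

variable {F : Type u} [Field F] {V : Type u} [AddCommGroup V] [Module F V]

/-- the annihilator ideal of a vector. -/
noncomputable def annI (A : End F V) (v : V) : Ideal F[X] where
  carrier := {p | aeval A p v = 0}
  add_mem' := by
    intro a b ha hb
    simp only [Set.mem_setOf_eq] at *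
    rw [map_add, LinearMap.add_apply, ha, hb, add_zero]
  zero_mem' := by simp
  smul_mem' := by
    intro c p hp
    simp only [Set.mem_setOf_eq] at *
    rw [smul_eq_mul, map_mul, Module.End.mul_apply, hp, map_zero]

lemma aeval_comm (A : End F V) (p q : F[X]) (v : V) :
    aeval A p (aeval A q v) = aeval A q (aeval A p v) := by
  rw [← Module.End.mul_apply, ← map_mul, mul_comm, map_mul, Module.End.mul_apply]

lemma aeval_kills_kry {A : End F V} {v : V} {p : F[X]} (h : aeval A p v = 0) {x : V}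
    (hx : x ∈ kry A v) : aeval A p x = 0 := by
  obtain ⟨q, rfl⟩ := mem_kry.mp hx
  rw [aeval_comm, h, map_zero]

lemma aeval_dvd_kills {A : End F V} {v : V} {p q : F[X]} (h : aeval A p v = 0) (hd : p ∣ q) :
    aeval A q v = 0 := by
  obtain ⟨r, rfl⟩ := hd
  rw [mul_comm, map_mul, Module.End.mul_apply, h, map_zero]

lemma kry_zero (A : End F V) : kry A 0 = ⊥ := by
  rw [eq_bot_iff]
  apply kry_le
  · intro x hx
    have : x = 0 := by simpa using hx
    subst this
    simp
  · simp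

lemma pow_dvd_of_kills {A : End F V} {v : V} {π p : F[X]} (hπ : Irreducible π) {j : ℕ}
    (h1 : aeval A (π ^ (j + 1)) v = 0) (h2 : aeval A (π ^ j) v ≠ 0) (hp : aeval A p v = 0) :
    π ^ (j + 1) ∣ p := by
  set g := Submodule.IsPrincipal.generator (annI A v) with hg
  have hgk : aeval A g v = 0 := Submodule.IsPrincipal.generator_mem (annI A v)
  have hdvd : ∀ {q : F[X]}, aeval A q v = 0 → g ∣ q := fun {q} hq =>
    (Submodule.IsPrincipal.mem_iff_generator_dvd (annI A v)).mp hq
  obtain ⟨i, hi, hass⟩ := (dvd_prime_pow hπ.prime (j + 1)).mp (hdvd h1)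
  have hij : i = j + 1 := by
    by_contra hne
    have hle : i ≤ j := by omega
    apply h2
    apply aeval_dvd_kills hgk
    exact hass.dvd.trans (pow_dvd_pow π hle)
  subst hij
  exact hass.symm.dvd.trans (hdvd hp)

lemma disj_sup₁ {Kv W₁ K₁ W₂ : Submodule F V} (h1 : Disjoint Kv W₁) (h2 : Disjoint K₁ W₂)
    (hs2 : K₁ ⊔ W₂ = W₁) : Disjoint K₁ (W₂ ⊔ Kv) := by
  rw [Submodule.disjoint_def]
  intro x hx hx'
  obtain ⟨d, hd, a, ha, rfl⟩ := Submodule.mem_sup.mp hx'
  have hK : K₁ ≤ W₁ := by rw [← hs2]; exact le_sup_left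
  have hW : W₂ ≤ W₁ := by rw [← hs2]; exact le_sup_right
  have ha0 : a = 0 := by
    apply Submodule.disjoint_def.mp h1 a ha
    have := W₁.sub_mem (hK hx) (hW hd)
    simpa using this
  subst ha0
  rw [add_zero] at hx ⊢
  exact Submodule.disjoint_def.mp h2 d hx hd

lemma disj_sup₂ {Kv W₁ K₁ W₂ K' Kπ : Submodule F V} (h1 : Disjoint Kv W₁) (h2 : Disjoint K₁ W₂)
    (h3 : Disjoint K' Kπ) (hs2 : K₁ ⊔ W₂ = W₁) (hs3 : K' ⊔ Kπ = K₁) :
    Disjoint (Kv ⊔ K') (W₂ ⊔ Kπ) := by
  rw [Submodule.disjoint_def]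
  intro x hx hx'
  obtain ⟨a, ha, b, hb, rfl⟩ := Submodule.mem_sup.mp hx
  obtain ⟨d, hd, e, he, hde⟩ := Submodule.mem_sup.mp hx'
  have hK : K₁ ≤ W₁ := by rw [← hs2]; exact le_sup_left
  have hW : W₂ ≤ W₁ := by rw [← hs2]; exact le_sup_right
  have hK' : K' ≤ K₁ := by rw [← hs3]; exact le_sup_left
  have hKπ : Kπ ≤ K₁ := by rw [← hs3]; exact le_sup_right
  have ha0 : a = 0 := by
    apply Submodule.disjoint_def.mp h1 a ha
    have h4 : a = d + e - b := by rw [hde]; abel
    rw [h4]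
    exact W₁.sub_mem (W₁.add_mem (hW hd) (hK (hKπ he))) (hK (hK' hb))
  subst ha0
  rw [zero_add] at hde ⊢
  have hd0 : d = 0 := by
    apply Submodule.disjoint_def.mp h2 d _ hd
    have h4 : d = b - e := by rw [← hde]; abel
    rw [h4]
    exact K₁.sub_mem (hK' hb) (hKπ he)
  subst hd0
  rw [zero_add] at hde
  exact Submodule.disjoint_def.mp h3 b hb (by rw [← hde]; exact he)

/-- the main lemma: a cyclic summand with the full annihilator. -/
theorem exists_cyc [FiniteDimensional F V] {A : End F V} (hA : Function.Injective A) :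
    ∀ (n : ℕ) (W : Submodule F V), finrank F W = n → (∀ x ∈ W, A x ∈ W) →
    ∃ (c : V) (W' : Submodule F V), kry A c ≤ W ∧ W' ≤ W ∧ Disjoint (kry A c) W' ∧
      kry A c ⊔ W' = W ∧ (∀ x ∈ W', A x ∈ W') ∧
      ∀ p : F[X], aeval A p c = 0 → ∀ x ∈ W, aeval A p x = 0 := by
  intro n
  induction n using Nat.strong_induction_on with
  | _ n IH =>
  intro W hn hW
  by_cases hbot : W = ⊥
  · subst hbot
    refine ⟨0, ⊥, ?_, bot_le, disjoint_bot_right, ?_, ?_, ?_⟩
    · rw [kry_zero]
    · rw [kry_zero, bot_sup_eq]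
    · intro x hx
      have : x = 0 := by simpa using hx
      subst this
      simp
    · intro p _ x hx
      have : x = 0 := by simpa using hx
      subst this
      simp
  obtain ⟨v, W₁, π, k, hb⟩ := exists_blk hA hW hbot
  have hv : v ∈ W := hb.kry_le (self_mem_kry _ _)
  -- the exact order of `v`
  classical
  have hex : ∃ k₀, aeval A (π ^ k₀) v = 0 := ⟨k, hb.ann⟩
  obtain ⟨j₀, hj₀⟩ : ∃ j₀, Nat.find hex = j₀ + 1 := by
    refine ⟨Nat.find hex - 1, ?_⟩
    have h0 : Nat.find hex ≠ 0 := by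
      intro h0
      have := Nat.find_spec hex
      rw [h0] at this
      exact hb.v_ne (by simpa using this)
    omega
  have hk₁ : aeval A (π ^ (j₀ + 1)) v = 0 := by
    have := Nat.find_spec hex
    rwa [hj₀] at this
  have hk₂ : aeval A (π ^ j₀) v ≠ 0 := Nat.find_min hex (by omega)
  have hlt : finrank F W₁ < n := by
    rw [← hn]
    apply Submodule.finrank_lt_finrank_of_lt
    refine lt_of_le_of_ne hb.W₁_le ?_
    rintro rfl
    exact hb.v_ne (Submodule.disjoint_def.mp hb.disj v (self_mem_kry _ _) hv)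
  obtain ⟨c₁, W₂, h₁, h₂, h₃, h₄, h₅, h₆⟩ := IH _ hlt W₁ rfl hb.inv₁
  -- the annihilator of c₁
  set μ₁ := Submodule.IsPrincipal.generator (annI A c₁) with hμ₁
  have hμk : aeval A μ₁ c₁ = 0 := Submodule.IsPrincipal.generator_mem (annI A c₁)
  have hdvd : ∀ {q : F[X]}, aeval A q c₁ = 0 → μ₁ ∣ q := fun {q} hq =>
    (Submodule.IsPrincipal.mem_iff_generator_dvd (annI A c₁)).mp hq
  have hμ0 : μ₁ ≠ 0 := by
    intro h0
    have h1 := hdvd (q := minpoly F A) (by
      rw [minpoly.aeval]; rfl)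
    rw [h0, zero_dvd_iff] at h1
    exact minpoly.ne_zero (Algebra.IsIntegral.isIntegral A) h1
  obtain ⟨μ', hμ, hnd⟩ := (FiniteMultiplicity.of_prime_left hb.irr.prime hμ0).exists_eq_pow_mul_and_not_dvd
  set j := multiplicity π μ₁ with hj
  have hW₁W : ∀ x ∈ W₁, aeval A μ₁ x = 0 := h₆ μ₁ hμk
  by_cases hjj : j₀ + 1 ≤ j
  · -- the new block is already covered
    refine ⟨c₁, W₂ ⊔ kry A v, h₁.trans hb.W₁_le, sup_le (h₂.trans hb.W₁_le) hb.kry_le,
      disj_sup₁ hb.disj h₃ h₄, ?_, ?_, ?_⟩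
    · rw [← sup_assoc, h₄, sup_comm]
      exact hb.sup
    · intro x hx
      obtain ⟨a, ha, b, hb', rfl⟩ := Submodule.mem_sup.mp hx
      rw [map_add]
      exact Submodule.add_mem_sup (h₅ a ha) (kry_inv _ _ hb')
    · intro p hp x hx
      rw [← hb.sup] at hx
      obtain ⟨a, ha, b, hb', rfl⟩ := Submodule.mem_sup.mp hx
      rw [map_add, h₆ p hp b hb', add_zero]
      apply aeval_kills_kry _ ha
      apply aeval_dvd_kills hk₁
      refine dvd_trans ?_ (hdvd hp)
      rw [hμ]
      exact (pow_dvd_pow π hjj).trans (dvd_mul_right _ _)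
  · -- merge
    have hjle : j ≤ j₀ := by omega
    have hcop₀ : ∀ i : ℕ, IsCoprime (π ^ i) μ' := fun i => by
      apply IsCoprime.pow_left
      exact (hb.irr.coprime_iff_not_dvd).mpr hnd
    set c' := aeval A (π ^ j) c₁ with hc'
    set cπ := aeval A μ' c₁ with hcπ
    have hc'k : aeval A μ' c' = 0 := by
      rw [hc', ← Module.End.mul_apply, ← map_mul, mul_comm, ← hμ]
      exact hμk
    have hcπk : aeval A (π ^ j) cπ = 0 := by
      rw [hcπ, ← Module.End.mul_apply, ← map_mul, ← hμ]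
      exact hμk
    have hk' : kry A (v + c') = kry A v ⊔ kry A c' := kry_add_of_coprime hk₁ hc'k (hcop₀ _)
    have hc'mem : c' ∈ kry A c₁ := mem_kry.mpr ⟨_, rfl⟩
    have hcπmem : cπ ∈ kry A c₁ := mem_kry.mpr ⟨_, rfl⟩
    have hK1 : kry A c' ≤ kry A c₁ := kry_le (fun _ h => kry_inv _ _ h) hc'mem
    have hK2 : kry A cπ ≤ kry A c₁ := kry_le (fun _ h => kry_inv _ _ h) hcπmem
    obtain ⟨a', b', hab⟩ := hcop₀ j
    have hsup3 : kry A c' ⊔ kry A cπ = kry A c₁ := by
      apply le_antisymm (sup_le hK1 hK2)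
      apply kry_le
      · intro x hx
        obtain ⟨a, ha, b, hb', rfl⟩ := Submodule.mem_sup.mp hx
        rw [map_add]
        exact Submodule.add_mem_sup (kry_inv _ _ ha) (kry_inv _ _ hb')
      · have h1 : c₁ = aeval A a' c' + aeval A b' cπ := by
          rw [hc', hcπ, ← Module.End.mul_apply, ← Module.End.mul_apply, ← map_mul, ← map_mul,
            ← LinearMap.add_apply, ← map_add, hab]
          simp
        rw [h1]
        exact Submodule.add_mem_sup (mem_kry.mpr ⟨_, rfl⟩) (mem_kry.mpr ⟨_, rfl⟩)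
    have hdis3 : Disjoint (kry A c') (kry A cπ) := by
      rw [Submodule.disjoint_def]
      intro x hx hx'
      have h1 : aeval A μ' x = 0 := aeval_kills_kry hc'k hx
      have h2 : aeval A (π ^ j) x = 0 := aeval_kills_kry hcπk hx'
      have h3 : aeval A (a' * π ^ j + b' * μ') x = x := by rw [hab]; simp
      rw [map_add, LinearMap.add_apply, map_mul, map_mul, Module.End.mul_apply, Module.End.mul_apply,
        h1, h2, map_zero, map_zero, add_zero] at h3
      exact h3.symm
    have hKW : kry A c₁ ≤ W₁ := h₁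
    refine ⟨v + c', W₂ ⊔ kry A cπ, ?_, ?_, ?_, ?_, ?_, ?_⟩
    · rw [hk']
      exact sup_le hb.kry_le ((hK1.trans hKW).trans hb.W₁_le)
    · exact sup_le (h₂.trans hb.W₁_le) ((hK2.trans hKW).trans hb.W₁_le)
    · rw [hk']
      exact disj_sup₂ hb.disj h₃ hdis3 h₄ hsup3
    · rw [hk', ← hb.sup, ← h₄, ← hsup3]
      ac_rfl
    · intro x hx
      obtain ⟨a, ha, b, hb', rfl⟩ := Submodule.mem_sup.mp hx
      rw [map_add]
      exact Submodule.add_mem_sup (h₅ a ha) (kry_inv _ _ hb')
    · intro p hp x hx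
      rw [map_add] at hp
      have hp1 : aeval A p v = 0 := by
        apply Submodule.disjoint_def.mp hb.disj _ (mem_kry.mpr ⟨p, rfl⟩)
        have h1 : aeval A p v = -aeval A p c' := eq_neg_of_add_eq_zero_left hp
        rw [h1]
        exact W₁.neg_mem (hKW (hK1 (mem_kry.mpr ⟨p, rfl⟩)))
      have hp2 : aeval A p c' = 0 := by
        rw [hp1, zero_add] at hp
        exact hp
      have hd1 : π ^ (j₀ + 1) ∣ p := pow_dvd_of_kills hb.irr hk₁ hk₂ hp1
      have hd2 : μ' ∣ p := by
        have h1 : aeval A (p * π ^ j) c₁ = 0 := by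
          rw [map_mul, Module.End.mul_apply]
          exact hp2
        have h2 := hdvd h1
        rw [hμ, mul_comm] at h2
        exact (mul_dvd_mul_iff_right (pow_ne_zero _ hb.irr.ne_zero)).mp h2
      have hd3 : π ^ (j₀ + 1) * μ' ∣ p := (hcop₀ _).mul_dvd hd1 hd2
      have hd4 : μ₁ ∣ p := by
        rw [hμ]
        exact (mul_dvd_mul_right (pow_dvd_pow π (by omega)) μ').trans hd3
      rw [← hb.sup] at hx
      obtain ⟨a, ha, b, hb', rfl⟩ := Submodule.mem_sup.mp hx
      rw [map_add, aeval_kills_kry hp1 ha, zero_add]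
      exact aeval_dvd_kills (hW₁W b hb') hd4

end Cfsg.Agent.SLComm
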