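import Mathlib
import Cfsg.Agent.Lib.SLComm.Cyc

/-!
Rank one perturbations of scalars.
-/

set_option autoImplicit false

namespace Cfsg.Agent.SLComm

universe u
open Module Polynomial

variable {F : Type u} [Field F] {V : Type u} [AddCommGroup V] [Module F V]

section Wrappers

variable [Fintype F] [FiniteDimensional F V]

/-- the path gives commutators. -/
theorem comm_of_path {A : End F V} (hdet : LinearMap.det A = 1) {c : V} {W : Submodule F V}
    (hc : IsCompl (kry A c) W) (hinv : ∀ x ∈ W, A x ∈ W) (hcond : CondW A W)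
    (hD : 3 ≤ finrank F (kry A c)) : Comm A := by
  obtain ⟨τ, hτ4, hτ⟩ := exists_tau (F := F)
  obtain ⟨b, hb, -, -, hbW⟩ := exists_f_val hc hD 0
  have hV : 3 ≤ finrank F V := hD.trans (Submodule.finrank_le _)
  have h := (path_main hτ4 hτ (finrank F V) V rfl A W c b hdet hc hinv hbW
    (by rw [hb]; exact one_ne_zero) hcond).1 hD
  exact comm_of_good (two_sub_ne hτ4) (form_universal hτ4) rfl (by omega) h

end Wrappers

section RankOne

variable [FiniteDimensional F V]

lemma det_rank_one {A : End F V} {a : F} {u : V} {φ : V →ₗ[F] F} (ha : a ≠ 0)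
    (hA : ∀ x, A x = a • x + φ x • u) (hV : 1 ≤ finrank F V) :
    LinearMap.det A = a ^ (finrank F V - 1) * (a + φ u) := by
  classical
  let B := Module.finBasis F V
  have h1 : LinearMap.toMatrix B B A =
      a • ((1 : Matrix _ _ F) + Matrix.replicateCol Unit (fun i => a⁻¹ * B.repr u i) * Matrix.replicateRow Unit (fun i => φ (B i))) := by
    ext i j
    rw [LinearMap.toMatrix_apply, hA]
    simp only [map_add, map_smul, Finsupp.add_apply, Finsupp.smul_apply, smul_eq_mul, Basis.repr_self,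
      Matrix.smul_apply, Matrix.add_apply, Matrix.mul_apply, Matrix.replicateCol_apply,
      Matrix.replicateRow_apply, Fintype.sum_unique, Pi.smul_apply, Matrix.one_apply, Finsupp.single_apply]
    have : a * (a⁻¹ * B.repr u i * φ (B j)) = φ (B j) * B.repr u i := by
      field_simp
    rw [mul_add, this]
    congr 1
    by_cases hij : i = j
    · subst hij; simp
    · simp [hij, Ne.symm hij]
  rw [← LinearMap.det_toMatrix B, h1, Matrix.det_smul, Matrix.det_one_add_replicateCol_mul_replicateRow]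
  have h2 : (fun i => φ (B i)) ⬝ᵥ (fun i => a⁻¹ * B.repr u i) = a⁻¹ * φ u := by
    have h3 : φ u = ∑ i, B.repr u i * φ (B i) := by
      have := congrArg φ (B.sum_repr u)
      simp only [map_sum, map_smul, smul_eq_mul] at this
      exact this.symm
    rw [h3, Finset.mul_sum]
    simp only [dotProduct]
    apply Finset.sum_congr rfl
    intro i _
    ring
  rw [h2, Fintype.card_fin]
  obtain ⟨k, hk⟩ : ∃ k, finrank F V = k + 1 := ⟨finrank F V - 1, by omega⟩
  rw [hk, Nat.add_sub_cancel, pow_succ]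
  field_simp

lemma exists_e_li {u : V} {φ : V →ₗ[F] F} (hφ : φ ≠ 0) (hV : 2 ≤ finrank F V) (hu : u ≠ 0) :
    ∃ e, φ e = 1 ∧ LinearIndependent F ![e, u] := by
  obtain ⟨x, hx⟩ : ∃ x, φ x ≠ 0 := by
    by_contra hcon
    push Not at hcon
    exact hφ (LinearMap.ext hcon)
  by_cases h0 : φ u = 0
  · refine ⟨(φ x)⁻¹ • x, by simp [hx], ?_⟩
    rw [LinearIndependent.pair_iff]
    intro s t hst
    have h1 := congrArg φ hst
    simp only [map_add, map_smul, smul_eq_mul, h0, mul_zero, add_zero, map_zero, inv_mul_cancel₀ hx,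
      mul_one] at h1
    subst h1
    simp only [zero_smul, zero_add] at hst
    exact ⟨rfl, (smul_eq_zero.mp hst).resolve_right hu⟩
  · have hker : LinearMap.ker φ ≠ ⊥ := LinearMap.ker_ne_bot_of_finrank_lt (by
      rw [finrank_self]; omega)
    obtain ⟨h, hh, hh0⟩ := Submodule.exists_mem_ne_zero_of_ne_bot hker
    have hh' : φ h = 0 := hh
    refine ⟨(φ u)⁻¹ • u + h, by simp [hh', h0], ?_⟩
    rw [LinearIndependent.pair_iff]
    intro s t hst
    have h1 := congrArg φ hst
    simp only [map_add, map_smul, smul_eq_mul, hh', mul_zero, add_zero, map_zero, inv_mul_cancel₀ h0,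
      mul_one] at h1
    have h2 : s • h = 0 := by
      have h3 : s • ((φ u)⁻¹ • u + h) + t • u = (s * (φ u)⁻¹ + t) • u + s • h := by module
      rw [h3] at hst
      have h4 : s * (φ u)⁻¹ + t = 0 := by
        field_simp
        linear_combination h1
      rwa [h4, zero_smul, zero_add] at hst
    have hs : s = 0 := (smul_eq_zero.mp h2).resolve_right hh0
    subst hs
    simp only [zero_smul, zero_add] at hst
    exact ⟨rfl, (smul_eq_zero.mp hst).resolve_right hu⟩

lemma exists_w_li {e u : V} (hli : LinearIndependent F ![e, u]) (hV : 3 ≤ finrank F V) :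
    ∃ w, LinearIndependent F ![e, u, w] := by
  have hne : Submodule.span F (Set.range ![e, u]) ≠ ⊤ := by
    intro h
    have h1 := finrank_span_pair_le (F := F) e u
    rw [h, finrank_top] at h1
    omega
  obtain ⟨w, hw⟩ := SetLike.exists_of_lt (lt_top_iff_ne_top.mpr hne)
  refine ⟨w, ?_⟩
  have hs : (![e, u, w] : Fin 3 → V) = Fin.snoc ![e, u] w := by
    funext i
    fin_cases i <;> simp [Fin.snoc]
  rw [hs, linearIndependent_finSnoc]
  exact ⟨hli, hw.2⟩

section Step

variable {A : End F V} {a : F} {u : V} {φ : V →ₗ[F] F} {e : V} {f : V →ₗ[F] F}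

/-- the shape of the Schur complement. -/
lemma schur_rank_one (hA : ∀ x, A x = a • x + φ x • u) (hφe : φ e = 1) (h1 : f e = 1)
    (h2 : f (A e) = 1) (hfu : f u = 1 - a) (x : LinearMap.ker f) :
    schur A e f h2 x = a • x + (φ ∘ₗ (LinearMap.ker f).subtype) x • (a • cpr A e f h1 h2) := by
  apply Subtype.ext
  have hx : f (x : V) = 0 := x.2
  have hAx : f (A (x : V)) = φ x * (1 - a) := by
    rw [hA, map_add, map_smul, map_smul, hx, hfu]
    simp
  rw [schur_coe, hAx]
  simp only [Submodule.coe_add, Submodule.coe_smul, cpr_coe, LinearMap.comp_apply,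
    Submodule.subtype_apply]
  rw [hA, hA e, hφe]
  module

lemma bpr_rank_one (hA : ∀ x, A x = a • x + φ x • u) (hfu : f u = 1 - a) :
    bpr A f = (1 - a) • (φ ∘ₗ (LinearMap.ker f).subtype) := by
  ext x
  have hx : f (x : V) = 0 := x.2
  simp only [bpr_apply, LinearMap.smul_apply, LinearMap.comp_apply, Submodule.subtype_apply, smul_eq_mul]
  rw [hA, map_add, map_smul, map_smul, hx, hfu]
  simp only [smul_eq_mul]
  ring

end Step

end RankOne

lemma exists_li_of_rank_one [FiniteDimensional F V] {A : End F V} {a : F} {u : V} {φ : V →ₗ[F] F}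
    (hA : ∀ x, A x = a • x + φ x • u) (hu : u ≠ 0) (hφ : φ ≠ 0) (hV : 2 ≤ finrank F V) :
    ∃ v, LinearIndependent F ![v, A v] := by
  by_contra hcon
  push Not at hcon
  obtain ⟨l, hl⟩ := LinearMap.exists_eq_smul_id_of_forall_notLinearIndependent hcon
  have hker : LinearMap.ker φ ≠ ⊥ := LinearMap.ker_ne_bot_of_finrank_lt (by
    rw [finrank_self]; omega)
  obtain ⟨h, hh, hh0⟩ := Submodule.exists_mem_ne_zero_of_ne_bot hker
  have hh' : φ h = 0 := hh
  have h1 : l • h = a • h := by
    have h2 := hA h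
    rw [hl, hh', zero_smul, add_zero] at h2
    simpa using h2
  have hla : l = a := by
    have : (l - a) • h = 0 := by rw [sub_smul, h1, sub_self]
    have := (smul_eq_zero.mp this).resolve_right hh0
    linear_combination this
  subst hla
  apply hφ
  ext x
  have h2 := hA x
  rw [hl] at h2
  simp only [LinearMap.smul_apply, Module.End.one_apply] at h2
  have h3 : φ x • u = 0 := by simpa using h2.symm
  simpa using (smul_eq_zero.mp h3).resolve_right hu

section Main

variable [Fintype F] {τ : F}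

theorem q1_base_neg (hτ4 : τ * τ ≠ 4) (hτ : (τ = 0 ∧ (2 : F) ≠ 0) ∨ (τ = 1 ∧ (2 : F) = 0))
    (h2' : (2 : F) ≠ 0) [FiniteDimensional F V] (hV : finrank F V = 3) {A : End F V} {u : V}
    {φ : V →ₗ[F] F} (hA : ∀ x, A x = (-1 : F) • x + φ x • u) (hdet : LinearMap.det A = 1) (hu : u ≠ 0)
    {c : V} {b : V →ₗ[F] F} (hc : ∃ s : F, s ≠ 0 ∧ c = s • u) (hb : ∃ t : F, t ≠ 0 ∧ b = t • φ) :
    Good τ 3 A c b := by
  have hτ0 : τ = 0 := by
    rcases hτ with h | h
    · exact h.1
    · exact absurd h.2 h2'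
  have hφu : φ u = 2 := by
    have := det_rank_one (a := -1) (by simp) hA (by omega)
    rw [hdet, hV] at this
    norm_num at this
    linear_combination -this
  obtain ⟨s, hs, rfl⟩ := hc
  obtain ⟨t, ht, rfl⟩ := hb
  set e : V := (2 : F)⁻¹ • u with he
  have he0 : e ≠ 0 := by
    rw [he]
    exact smul_ne_zero (inv_ne_zero h2') hu
  have hφe : φ e = 1 := by
    rw [he, map_smul, hφu, smul_eq_mul, inv_mul_cancel₀ h2']
  have h3 : u = (2 : F) • e := by
    rw [he, smul_smul, mul_inv_cancel₀ h2', one_smul]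
  have hAe : A e = e := by
    calc A e = (-1 : F) • e + (1 : F) • u := by rw [hA, hφe]
      _ = (-1 : F) • e + (1 : F) • ((2 : F) • e) := by rw [← h3]
      _ = e := by module
  have hli1 : LinearIndependent F ![e] := linearIndependent_unique_iff.mpr (by simpa using he0)
  obtain ⟨f, hf, -⟩ := exists_functional hli1 (W := ⊥) disjoint_bot_right ![1]
  have h1 : f e = 1 := by simpa using hf 0
  have h2 : f (A e) = 1 := by rw [hAe, h1]
  have hfu : f u = 2 := by
    rw [h3, map_smul, h1, smul_eq_mul, mul_one]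
  refine level_step (two_sub_ne hτ4) (le_refl 3) h1 h2 (b := t • φ) (c := s • u) ?_ ?_ ?_
  · simp [hφe, ht]
  · simp [hfu, hs, h2']
  · have hH : finrank F (LinearMap.ker f) = 2 := by
      have := finrank_ker_add_one h1
      omega
    refine good2_of_neg_one hτ4 hτ0 h2' (finBasisOfFinrankEq F _ hH) ?_ _ _
    intro x
    apply Subtype.ext
    have hx : f (x : V) = 0 := x.2
    have h4 : φ (x : V) • u = (2 * φ (x : V)) • e := by
      rw [he, smul_smul]
      have : 2 * φ (x : V) * (2 : F)⁻¹ = φ (x : V) := by field_simp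
      rw [this]
    have hAx : A (x : V) = (-1 : F) • (x : V) + (2 * φ (x : V)) • e := by
      rw [hA, h4]
    rw [schur_coe, hAe, hAx]
    simp only [map_add, map_smul, hx, h1, smul_eq_mul]
    simp only [mul_zero, zero_add, mul_one, Submodule.coe_neg]
    module

/-- the functional used in the recursion. -/
lemma q1_prep [FiniteDimensional F V] (a : F) {u : V} {φ : V →ₗ[F] F} (hV : 3 ≤ finrank F V) (hu : u ≠ 0)
    (hφ : φ ≠ 0) : ∃ (e w : V) (f : V →ₗ[F] F), φ e = 1 ∧ LinearIndependent F ![e, u] ∧ f e = 1 ∧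
      f u = 1 - a ∧ f w = φ w + 1 := by
  obtain ⟨e, he, hli⟩ := exists_e_li hφ (by omega) hu
  obtain ⟨w, hw⟩ := exists_w_li hli hV
  obtain ⟨f, hf, -⟩ := exists_functional hw (W := ⊥) disjoint_bot_right ![1, 1 - a, φ w + 1]
  have h0 := hf 0
  have h1 := hf 1
  have h2 := hf 2
  simp only [Matrix.cons_val_zero, Matrix.cons_val_one, Matrix.cons_val] at h0 h1 h2
  exact ⟨e, w, f, he, hli, h0, h1, h2⟩

section Prep

variable [FiniteDimensional F V] {A : End F V} {a : F} {u : V} {φ : V →ₗ[F] F} {e w : V} {f : V →ₗ[F] F}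

lemma q1_f2 (hA : ∀ x, A x = a • x + φ x • u) (he : φ e = 1) (h1 : f e = 1) (hfu : f u = 1 - a) :
    f (A e) = 1 := by
  rw [hA, map_add, map_smul, map_smul, he, h1, hfu]
  simp

lemma q1_cpr_ne (hA : ∀ x, A x = a • x + φ x • u) (he : φ e = 1) (hli : LinearIndependent F ![e, u])
    (h1 : f e = 1) (h2 : f (A e) = 1) : cpr A e f h1 h2 ≠ 0 := by
  intro h0
  have h3 : ((cpr A e f h1 h2 : LinearMap.ker f) : V) = 0 := by rw [h0]; rfl
  rw [cpr_coe, hA, he] at h3
  have h4 := LinearIndependent.pair_iff.mp hli (a - 1) 1 (by rw [← h3]; module)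
  exact one_ne_zero h4.2

lemma q1_phi_ne (h1 : f e = 1) (hw : f w = φ w + 1) (he : φ e = 1) :
    φ ∘ₗ (LinearMap.ker f).subtype ≠ 0 := by
  intro h0
  have hx : f (w - f w • e) = 0 := by simp [h1]
  have h3 := LinearMap.congr_fun h0 ⟨w - f w • e, hx⟩
  simp only [LinearMap.comp_apply, Submodule.subtype_apply, LinearMap.zero_apply, map_sub, map_smul,
    he, smul_eq_mul, mul_one, hw] at h3
  have : (1 : F) = 0 := by linear_combination -h3
  exact one_ne_zero this

end Prep

/-- the statement proved by induction. -/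
def Q1Stmt (τ a : F) (m : ℕ) : Prop :=
  ∀ (V : Type u) [AddCommGroup V] [Module F V] [FiniteDimensional F V], finrank F V = m →
    ∀ (A : End F V) (u : V) (φ : V →ₗ[F] F), (∀ x, A x = a • x + φ x • u) → u ≠ 0 → φ ≠ 0 →
      LinearMap.det A = 1 → ∀ (c : V) (b : V →ₗ[F] F), (∃ s : F, s ≠ 0 ∧ c = s • u) →
        (∃ t : F, t ≠ 0 ∧ b = t • φ) → Good τ m A c b

theorem q1_base_gen (hτ4 : τ * τ ≠ 4) (hτ : (τ = 0 ∧ (2 : F) ≠ 0) ∨ (τ = 1 ∧ (2 : F) = 0)) {a : F}
    (ha0 : a ≠ 0) (ha1 : a ≠ 1) (ha2 : a * a ≠ 1) : Q1Stmt τ a 3 := by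
  intro V _ _ _ hV A u φ hA hu hφ hdet c b hc hb
  obtain ⟨e, w, f, he, hli, h1, hfu, hw⟩ := q1_prep a (by omega) hu hφ
  have h2 := q1_f2 hA he h1 hfu
  obtain ⟨s, hs, rfl⟩ := hc
  obtain ⟨t, ht, rfl⟩ := hb
  have h1a : (1 : F) - a ≠ 0 := fun h => ha1 (by linear_combination -h)
  refine level_step (two_sub_ne hτ4) (le_refl 3) h1 h2 ?_ ?_ ?_
  · simp [he, ht]
  · simp [hfu, hs, h1a]
  · have hH : finrank F (LinearMap.ker f) = 2 := by
      have := finrank_ker_add_one h1
      omega
    set φ' := φ ∘ₗ (LinearMap.ker f).subtype with hφ'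
    set u' := a • cpr A e f h1 h2 with hu'
    have hS : ∀ x, schur A e f h2 x = a • x + φ' x • u' := schur_rank_one hA he h1 h2 hfu
    have hu'0 : u' ≠ 0 := smul_ne_zero ha0 (q1_cpr_ne hA he hli h1 h2)
    have hφ'0 : φ' ≠ 0 := q1_phi_ne h1 hw he
    have hdetS : LinearMap.det (schur A e f h2) = 1 := by rw [det_schur h1 h2]; exact hdet
    have hd := det_rank_one ha0 hS (by omega)
    rw [hdetS, hH] at hd
    norm_num at hd
    have hφu : a + φ' u' = a⁻¹ := by
      field_simp
      linear_combination -hd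
    obtain ⟨v, hv⟩ := exists_li_of_rank_one hS hu'0 hφ'0 (by omega)
    refine good2_of_cyclic hτ4 hτ hH (t := a + a⁻¹) (n := 1) hv ?_ hdetS ?_ _ _
    · have hval : φ' (schur A e f h2 v) = φ' v * a⁻¹ := by
        rw [hS, map_add, map_smul, map_smul, smul_eq_mul, smul_eq_mul]
        rw [← hφu]
        ring
      rw [hS (schur A e f h2 v), hval, hS v]
      have ha' : a⁻¹ • a • v = v := by rw [smul_smul, inv_mul_cancel₀ ha0, one_smul]
      have : (a + a⁻¹) • (a • v + φ' v • u') - (1 : F) • v =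
          a • (a • v + φ' v • u') + (φ' v * a⁻¹) • u' + (a⁻¹ • a • v - v) := by module
      rw [this, ha']
      simp
    · intro h0
      apply ha2
      have h3 : (a - a⁻¹) * (a - a⁻¹) = 0 := by
        have h4 : a * a⁻¹ = 1 := mul_inv_cancel₀ ha0
        linear_combination h0 - 4 * h4
      have h5 : a - a⁻¹ = 0 := by simpa using h3
      have h6 : a = a⁻¹ := by linear_combination h5
      calc a * a = a * a⁻¹ := by rw [← h6]
        _ = 1 := mul_inv_cancel₀ ha0

theorem q1_succ (hτ4 : τ * τ ≠ 4) {a : F} (ha0 : a ≠ 0) (ha1 : a ≠ 1) {m : ℕ} (hm : 3 ≤ m)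
    (IH : Q1Stmt τ a m) : Q1Stmt τ a (m + 1) := by
  intro V _ _ _ hV A u φ hA hu hφ hdet c b hc hb
  obtain ⟨e, w, f, he, hli, h1, hfu, hw⟩ := q1_prep a (by omega) hu hφ
  have h2 := q1_f2 hA he h1 hfu
  obtain ⟨s, hs, rfl⟩ := hc
  obtain ⟨t, ht, rfl⟩ := hb
  have h1a : (1 : F) - a ≠ 0 := fun h => ha1 (by linear_combination -h)
  refine level_step (two_sub_ne hτ4) (by omega) h1 h2 ?_ ?_ ?_
  · simp [he, ht]
  · simp [hfu, hs, h1a]
  · have hH : finrank F (LinearMap.ker f) = m := by
      have := finrank_ker_add_one h1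
      omega
    refine IH (LinearMap.ker f) hH (schur A e f h2) (a • cpr A e f h1 h2)
      (φ ∘ₗ (LinearMap.ker f).subtype) (schur_rank_one hA he h1 h2 hfu)
      (smul_ne_zero ha0 (q1_cpr_ne hA he hli h1 h2)) (q1_phi_ne h1 hw he)
      (by rw [det_schur h1 h2]; exact hdet) _ _ ?_ ?_
    · exact ⟨a⁻¹, inv_ne_zero ha0, by rw [smul_smul, inv_mul_cancel₀ ha0, one_smul]⟩
    · exact ⟨1 - a, h1a, bpr_rank_one hA hfu⟩

/-- rank one perturbations of a scalar `≠ 1` are commutators. -/
theorem comm_of_rank_one [FiniteDimensional F V] (hV : 3 ≤ finrank F V) {A : End F V} {a : F}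
    {u : V} {φ : V →ₗ[F] F} (hA : ∀ x, A x = a • x + φ x • u) (ha1 : a ≠ 1) (hu : u ≠ 0) (hφ : φ ≠ 0)
    (hdet : LinearMap.det A = 1) : Comm A := by
  obtain ⟨τ, hτ4, hτ⟩ := exists_tau (F := F)
  have hinj := inj_of_det hdet
  have ha0 : a ≠ 0 := by
    rintro rfl
    have hker : LinearMap.ker φ ≠ ⊥ := LinearMap.ker_ne_bot_of_finrank_lt (by
      rw [finrank_self]; omega)
    obtain ⟨h, hh, hh0⟩ := Submodule.exists_mem_ne_zero_of_ne_bot hker
    have hh' : φ h = 0 := hh
    apply hh0
    apply hinj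
    rw [hA, hh', map_zero]
    simp
  have hgood : ∀ m : ℕ, Q1Stmt τ a (m + 3) := by
    intro m
    induction m with
    | zero =>
      by_cases ha2 : a * a = 1
      · have han : a = -1 := by
          have h3 : (a - 1) * (a + 1) = 0 := by linear_combination ha2
          rcases mul_eq_zero.mp h3 with h | h
          · exact absurd (by linear_combination h) ha1
          · linear_combination h
        subst han
        have h2' : (2 : F) ≠ 0 := by
          intro h
          apply ha1
          linear_combination -h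
        intro V _ _ _ hV A u φ hA hu _ hdet c b hc hb
        exact q1_base_neg hτ4 hτ h2' hV hA hdet hu hc hb
      · exact q1_base_gen hτ4 hτ ha0 ha1 ha2
    | succ m ih => exact q1_succ hτ4 ha0 ha1 (by omega) ih
  obtain ⟨k, hk⟩ : ∃ k, finrank F V = k + 3 := ⟨finrank F V - 3, by omega⟩
  have h := hgood k V hk A u φ hA hu hφ hdet u φ ⟨1, one_ne_zero, (one_smul _ _).symm⟩
    ⟨1, one_ne_zero, (one_smul _ _).symm⟩
  exact comm_of_good (two_sub_ne hτ4) (form_universal hτ4) hk (by omega) h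

end Main

end Cfsg.Agent.SLComm
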