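import Mathlib
import Cfsg.Agent.Lib.SLComm.Q1

/-!
Two two-dimensional cyclic summands with the same quadratic annihilator.
-/

set_option autoImplicit false

namespace Cfsg.Agent.SLComm

universe u
open Module Polynomial

variable {F : Type u} [Field F] {V : Type u} [AddCommGroup V] [Module F V]

section Three

variable [Fintype F]

lemma f3_cases (hq : Fintype.card F = 3) (x : F) : x = 0 ∨ x = 1 ∨ x = -1 := by
  have h := FiniteField.pow_card x
  rw [hq] at h
  have h1 : x * ((x - 1) * (x + 1)) = 0 := by linear_combination h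
  rcases mul_eq_zero.mp h1 with h2 | h2
  · exact Or.inl h2
  rcases mul_eq_zero.mp h2 with h3 | h3
  · exact Or.inr (Or.inl (by linear_combination h3))
  · exact Or.inr (Or.inr (by linear_combination h3))

lemma f3_three (hq : Fintype.card F = 3) : (3 : F) = 0 := by
  have := FiniteField.cast_card_eq_zero F
  rw [hq] at this
  exact_mod_cast this

lemma choose_z_bot (hq : 3 ≤ Fintype.card F) {α β ρ : F} (hρ : ρ = α - β) (hδ : 1 + α - β ≠ 0) :
    ∃ α' : F, α' * (α' + 4) ≠ 0 ∧ (α + ρ) - α' ≠ β := by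
  subst hρ
  by_cases h4 : 4 ≤ Fintype.card F
  · obtain ⟨x, h1, h2, h3⟩ := exists_ne₃ h4 0 (-4) ((α + (α - β)) - β)
    exact ⟨x, mul_ne_zero h1 (fun h => h2 (by linear_combination h)),
      fun h0 => h3 (by linear_combination -h0)⟩
  · have h3 : Fintype.card F = 3 := by omega
    have h30 := f3_three h3
    refine ⟨1, ?_, ?_⟩
    · intro h
      have : (1 : F) = 0 := by linear_combination 2 * h30 - h
      exact one_ne_zero this
    · intro h
      apply hδ
      linear_combination -h + (α - β) * h30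

lemma choose_z_blk (hq : 3 ≤ Fintype.card F) {α β ρ : F} (hρ : ρ = α - β) (hβ : β ≠ 0)
    (hδ : 1 + α - β ≠ 0) {A : End F V} {W W₂ : Submodule F V} {v : V} {π : F[X]} {k : ℕ}
    (hblk : Blk A W v W₂ π k) (hann : aeval A (polQ α β) v = 0) :
    ∃ z : F, z ≠ 0 ∧ z ≠ β ∧ IsCoprime (polQ ((α + ρ) - z) (((β - α * ρ) - (-(β * ρ))) - z)) (π ^ k) := by
  subst hρ
  by_cases h4 : 4 ≤ Fintype.card F
  · obtain ⟨zb, hzb⟩ := exists_zbad (polQ (α + (α - β)) ((β - α * (α - β)) - (-(β * (α - β))))) hblk.irr hblk.notX k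
    obtain ⟨z, h1, h2, h3⟩ := exists_ne₃ h4 0 β zb
    refine ⟨z, h1, h2, ?_⟩
    rw [polQ_sub]
    exact hzb z h3
  · have h3 : Fintype.card F = 3 := by omega
    have h30 := f3_three h3
    have h20 : (2 : F) ≠ 0 := by
      intro h
      have : (1 : F) = 0 := by linear_combination h30 - h
      exact one_ne_zero this
    have hπ := hblk.irr
    have hunit : ∀ t : F, t ≠ 0 → ¬ π ∣ C t := by
      intro t ht hd
      exact hπ.not_isUnit (isUnit_of_dvd_unit hd (Polynomial.isUnit_C.mpr ht.isUnit))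
    have hdv : π ∣ polQ α β := by
      by_contra hnd
      have hcop : IsCoprime (π ^ k) (polQ α β) :=
        IsCoprime.pow_left ((hπ.coprime_iff_not_dvd).mpr hnd)
      obtain ⟨a', b', hab⟩ := hcop
      have h5 : aeval A (a' * π ^ k + b' * polQ α β) v = v := by rw [hab]; simp
      rw [map_add, LinearMap.add_apply, map_mul, map_mul, Module.End.mul_apply, Module.End.mul_apply,
        hblk.ann, hann, map_zero, map_zero, add_zero] at h5
      exact hblk.v_ne h5.symm
    refine ⟨-β, neg_ne_zero.mpr hβ, ?_, ?_⟩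
    · intro h
      apply hβ
      have : (2 : F) * β = 0 := by linear_combination -h
      exact (mul_eq_zero.mp this).resolve_left h20
    apply IsCoprime.pow_right
    apply IsCoprime.symm
    rw [hπ.coprime_iff_not_dvd]
    intro hd
    set z : F := -β with hz
    have hz0 : z ≠ 0 := neg_ne_zero.mpr hβ
    have hdiff : polQ ((α + (α - β)) - z) (((β - α * (α - β)) - (-(β * (α - β)))) - z) - polQ α β =
        C (z - (α - β)) * X + C ((α - β) * (1 + α - β)) := by
      simp only [polQ, C_sub, C_mul, C_add, C_neg, C_1]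
      ring
    have hd2 : π ∣ C (z - (α - β)) * X + C ((α - β) * (1 + α - β)) := by
      rw [← hdiff]
      exact dvd_sub hd hdv
    rcases f3_cases h3 (1 + α - β) with h5 | h5 | h5
    · exact hδ h5
    · have h6 : α - β = 0 := by linear_combination h5
      rw [h6, sub_zero, zero_mul, C_0, add_zero] at hd2
      exact hblk.notX (((Polynomial.isUnit_C.mpr hz0.isUnit).dvd_mul_left).mp hd2)
    · have h6 : α - β = 1 := by linear_combination h5 - h30
      rw [h6, h5] at hd2
      rcases f3_cases h3 z with h7 | h7 | h7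
      · exact hz0 h7
      · rw [h7] at hd2
        simp only [sub_self, C_0, zero_mul, zero_add] at hd2
        exact hunit _ (by simp) hd2
      · have hX : π ∣ X - 1 := by
          have h8 : C (-1 - 1 : F) * X + C (1 * -1 : F) = X - 1 := by
            have h9 : (-1 - 1 : F) = 1 := by linear_combination -h30
            rw [h9]
            simp
            ring
          rw [h7, h8] at hd2
          exact hd2
        have h9 : π ∣ C β := by
          have h10 : C β = (X - 1) * ((X - 1) - C α) - polQ α β := by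
            simp only [polQ]
            ring
          rw [h10]
          exact dvd_sub (hX.trans (dvd_mul_right _ _)) hdv
        exact hunit _ hβ h9

end Three

section Dim

variable [FiniteDimensional F V]

lemma finrank_kry_eq_two {A : End F V} {v : V} {α β : F} (hv : LinearIndependent F ![v, (A - 1) v])
    (hrel : (A - 1) ((A - 1) v) = α • (A - 1) v + β • v) : finrank F (kry A v) = 2 := by
  have h1 := two_le_finrank_of_li hv
  have hle : kry A v ≤ Submodule.span F (Set.range ![v, (A - 1) v]) := by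
    apply kry_le
    · apply inv_of_sub_one
      intro x hx
      obtain ⟨t, rfl⟩ := Submodule.mem_span_range_iff_exists_fun F |>.mp hx
      simp only [Fin.sum_univ_two, Matrix.cons_val_zero, Matrix.cons_val_one, map_add, map_smul, hrel]
      apply Submodule.add_mem
      · exact Submodule.smul_mem _ _ (Submodule.subset_span ⟨1, by simp⟩)
      · apply Submodule.smul_mem
        apply Submodule.add_mem
        · exact Submodule.smul_mem _ _ (Submodule.subset_span ⟨1, by simp⟩)
        · exact Submodule.smul_mem _ _ (Submodule.subset_span ⟨0, by simp⟩)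
    · exact Submodule.subset_span ⟨0, by simp⟩
  have h2 := Submodule.finrank_mono hle
  have h3 := finrank_span_pair_le (F := F) v ((A - 1) v)
  omega

lemma delta_ne {A : End F V} (hA : Function.Injective A) {c : V} {α β : F}
    (hli2 : LinearIndependent F ![c, (A - 1) c]) (hrel : (A - 1) ((A - 1) c) = α • (A - 1) c + β • c) :
    1 + α - β ≠ 0 := by
  intro h0
  have h1 : A ((A - 1) c - (1 + α) • c) = 0 := by
    rw [map_sub, map_smul, A_e_eq A ((A - 1) c), A_e_eq A c, hrel]
    have : (A - 1) c + (α • (A - 1) c + β • c) - (1 + α) • (c + (A - 1) c) = (-(1 + α - β)) • c := by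
      module
    rw [this, h0]
    simp
  have h2 : (A - 1) c - (1 + α) • c = 0 := hA (by rw [h1, map_zero])
  have h3 := LinearIndependent.pair_iff.mp hli2 (-(1 + α)) 1 (by rw [← h2]; module)
  exact one_ne_zero h3.2

end Dim

section P1

variable [Fintype F] {τ : F}

/-- state: an eigenvector, a two dimensional block, and the rest. -/
theorem p1_good (hq : 3 ≤ Fintype.card F) (hτ4 : τ * τ ≠ 4)
    (hτ : (τ = 0 ∧ (2 : F) ≠ 0) ∨ (τ = 1 ∧ (2 : F) = 0)) {m : ℕ} [FiniteDimensional F V]
    (hV : finrank F V = m + 1) {A : End F V} (hdet : LinearMap.det A = 1) {c v : V}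
    {W₁ : Submodule F V} {α β ρ : F} (hρ : ρ = α - β) (hc : (A - 1) c = ρ • c) (hc0 : c ≠ 0)
    (hv : LinearIndependent F ![v, (A - 1) v])
    (hrelv : (A - 1) ((A - 1) v) = α • (A - 1) v + β • v)
    (hd0 : Disjoint (kry A c) (kry A v ⊔ W₁)) (hd1 : Disjoint (kry A v) W₁)
    (hs : kry A c ⊔ kry A v ⊔ W₁ = ⊤) (hinv : ∀ x ∈ W₁, A x ∈ W₁) {b : V →ₗ[F] F} (hbc : b c ≠ 0)
    (hbv : b v = 0) (hcond : CondW A W₁) (hann : ∀ x ∈ W₁, aeval A (polQ α β) x = 0) (hβ : β ≠ 0)
    (hδ : 1 + α - β ≠ 0) : Good τ (m + 1) A c b := by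
  have hA := inj_of_det hdet
  have hκ : ρ * ρ - α * ρ - β ≠ 0 := by
    have : ρ * ρ - α * ρ - β = -(β * (1 + α - β)) := by rw [hρ]; ring
    rw [this]
    exact neg_ne_zero.mpr (mul_ne_zero hβ hδ)
  -- the cyclic space of `c + v`
  have hpc : aeval A (X - C (1 + ρ)) c = 0 := by
    simp only [map_sub, aeval_X, aeval_C, LinearMap.sub_apply, Module.algebraMap_end_apply]
    rw [A_e_eq A c, hc]
    module
  have hpv : aeval A (polQ α β) v = 0 := by
    rw [aeval_polQ, hrelv]; abel
  have hcop : IsCoprime (X - C (1 + ρ)) (polQ α β) := by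
    rw [(irreducible_X_sub_C _).coprime_iff_not_dvd, dvd_iff_isRoot]
    intro hroot
    apply hκ
    have h1 : (polQ α β).eval (1 + ρ) = 0 := hroot
    simp only [polQ, eval_sub, eval_pow, eval_X, eval_one, eval_mul, eval_C] at h1
    linear_combination h1
  have hke : kry A (c + v) = kry A c ⊔ kry A v := kry_add_of_coprime hpc hpv hcop
  have hcomp : IsCompl (kry A (c + v)) W₁ := by
    rw [hke]
    constructor
    · rw [Submodule.disjoint_def]
      intro x hx hx'
      obtain ⟨a', ha, b', hb', rfl⟩ := Submodule.mem_sup.mp hx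
      have ha0 : a' = 0 := by
        apply Submodule.disjoint_def.mp hd0 a' ha
        have h1 : a' = (-b') + (a' + b') := by abel
        rw [h1]
        exact Submodule.add_mem_sup (Submodule.neg_mem _ hb') hx'
      subst ha0
      rw [zero_add] at hx' ⊢
      exact Submodule.disjoint_def.mp hd1 b' hb' hx'
    · rw [codisjoint_iff]
      exact hs
  have hk1 : kry A c = Submodule.span F {c} := kry_eigen hc
  have hfr : finrank F (kry A (c + v)) = 3 := by
    have hd : Disjoint (kry A c) (kry A v) := hd0.mono_right le_sup_left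
    have h1 := Submodule.finrank_sup_add_finrank_inf_eq (kry A c) (kry A v)
    rw [hd.eq_bot, finrank_bot, add_zero] at h1
    rw [hke, h1, hk1, finrank_span_singleton hc0, finrank_kry_eq_two hv hrelv]
  have hle : finrank F (kry A (c + v)) ≤ m + 1 := by
    rw [← hV]; exact Submodule.finrank_le _
  -- vectors
  have hRe : (A - 1) (c + v) = ρ • c + (A - 1) v := by
    rw [map_add, hc]
  have hRRe : (A - 1) ((A - 1) (c + v)) = (ρ * ρ) • c + α • (A - 1) v + β • v := by
    rw [hRe, map_add, map_smul, hc, hrelv]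
    module
  have hRRRe : (A - 1) ((A - 1) ((A - 1) (c + v))) =
      (α + ρ) • (A - 1) ((A - 1) (c + v)) + (β - α * ρ) • (A - 1) (c + v) + (-(β * ρ)) • (c + v) := by
    rw [hRRe, hRe]
    simp only [map_add, map_smul, hc, hrelv]
    module
  -- independence
  have hspan2 : Submodule.span F (Set.range ![v, (A - 1) v]) ≤ kry A v := by
    rw [Submodule.span_le]
    rintro _ ⟨i, rfl⟩
    fin_cases i
    · exact self_mem_kry A v
    · exact sub_one_mem_kry A v (self_mem_kry A v)
  have hli3 : LinearIndependent F ![v, (A - 1) v, c] := by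
    have hs' : (![v, (A - 1) v, c] : Fin 3 → V) = Fin.snoc ![v, (A - 1) v] c := by
      funext i
      fin_cases i <;> simp [Fin.snoc]
    rw [hs', linearIndependent_finSnoc]
    refine ⟨hv, fun hmem => hc0 ?_⟩
    exact Submodule.disjoint_def.mp (hd0.mono_right le_sup_left) c (self_mem_kry _ _) (hspan2 hmem)
  have hspan3 : Submodule.span F (Set.range ![v, (A - 1) v, c]) ≤ kry A (c + v) := by
    rw [hke, Submodule.span_le]
    rintro _ ⟨i, rfl⟩
    fin_cases i
    · exact Submodule.mem_sup_right (self_mem_kry A v)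
    · exact Submodule.mem_sup_right (sub_one_mem_kry A v (self_mem_kry A v))
    · exact Submodule.mem_sup_left (self_mem_kry A c)
  -- the functional, for each value of z
  have hfun : ∀ z : F, ∃ f : V →ₗ[F] F, f (c + v) = 1 ∧ f (A (c + v)) = 1 ∧
      f ((A - 1) ((A - 1) (c + v))) = z ∧ f c = (z - β) / (ρ * ρ - α * ρ - β) ∧ W₁ ≤ LinearMap.ker f := by
    intro z
    set φ₀ := (z - β) / (ρ * ρ - α * ρ - β) with hφ₀
    obtain ⟨f, hf, hfW⟩ := exists_functional hli3 (hcomp.disjoint.mono_left hspan3)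
      ![1 - φ₀, -(ρ * φ₀), φ₀]
    have h0 := hf 0
    have h1 := hf 1
    have h2 := hf 2
    simp only [Matrix.cons_val_zero, Matrix.cons_val_one, Matrix.cons_val] at h0 h1 h2
    have he1 : f (c + v) = 1 := by
      rw [map_add, h2, h0]; ring
    refine ⟨f, he1, ?_, ?_, h2, hfW⟩
    · rw [A_e_eq A (c + v), map_add, he1, hRe, map_add, map_smul, h2, h1]
      simp
    · rw [hRRe, map_add, map_add, map_smul, map_smul, map_smul, h2, h1, h0]
      simp only [smul_eq_mul]
      have : φ₀ * (ρ * ρ - α * ρ - β) = z - β := by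
        rw [hφ₀]; exact div_mul_cancel₀ _ hκ
      linear_combination this
  have hbe : b (c + v) ≠ 0 := by
    rwa [map_add, hbv, add_zero]
  have hφ : ∀ z : F, z ≠ β → (z - β) / (ρ * ρ - α * ρ - β) ≠ 0 := by
    intro z hz
    exact div_ne_zero (sub_ne_zero.mpr hz) hκ
  by_cases hW₁ : W₁ = ⊥
  · subst hW₁
    obtain ⟨α', hα', hz⟩ := choose_z_bot hq hρ hδ
    obtain ⟨f, h1, h2, hzf, hfc, -⟩ := hfun ((α + ρ) - α')
    have htop : kry A (c + v) = ⊤ := by
      have := hcomp.sup_eq_top
      simpa using this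
    have hV3 : finrank F V = 3 := by
      rw [← finrank_top (R := F) (M := V), ← htop]
      exact hfr
    have hm : m + 1 = 3 := by omega
    rw [hm]
    refine descend_level2 hτ4 hτ hV3 hdet h1 h2 htop hzf hRRRe ?_ hbe ?_
    · simpa using hα'
    · rw [hfc]
      exact hφ _ hz
  · rcases hcond with h | ⟨-, hNF⟩
    · exact absurd h hW₁
    obtain ⟨v₂, W₂, π, k, hblk⟩ := exists_blk hA hinv hW₁
    obtain ⟨z, hz0, hz1, hzc⟩ := choose_z_blk hq hρ hβ hδ hblk (hann v₂ (hblk.kry_le (self_mem_kry _ _)))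
    obtain ⟨f, h1, h2, hzf, hfc, hfW⟩ := hfun z
    exact descend_two hτ4 (path_main hτ4 hτ m) hV hdet h1 h2 hcomp hinv hfW (Or.inr ⟨hq, hNF⟩) hfr
      hzf hz0 hRRRe hblk hzc hbe (by rw [hfc]; exact hφ _ hz1) (by omega)

end P1

/-- direct sums of three pieces survive restriction to the hyperplane. -/
lemma triple_comap {f : V →ₗ[F] F} {K₀ K₁ W₁ : Submodule F V} (hK₁ : K₁ ≤ LinearMap.ker f)
    (hW₁ : W₁ ≤ LinearMap.ker f) (hd0 : Disjoint K₀ (K₁ ⊔ W₁)) (hd1 : Disjoint K₁ W₁)
    (hs : K₀ ⊔ K₁ ⊔ W₁ = ⊤) :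
    Disjoint (K₀.comap (kι f)) (K₁.comap (kι f) ⊔ W₁.comap (kι f)) ∧
      Disjoint (K₁.comap (kι f)) (W₁.comap (kι f)) ∧
      K₀.comap (kι f) ⊔ K₁.comap (kι f) ⊔ W₁.comap (kι f) = ⊤ := by
  refine ⟨?_, ?_, ?_⟩
  · rw [Submodule.disjoint_def]
    intro x hx hx'
    obtain ⟨a, ha, b, hb, hab⟩ := Submodule.mem_sup.mp hx'
    have h1 : (x : V) = (a : V) + (b : V) := by rw [← hab]; rfl
    have h2 : (x : V) ∈ K₁ ⊔ W₁ := by
      rw [h1]
      exact Submodule.add_mem_sup ha hb
    exact Subtype.ext (Submodule.disjoint_def.mp hd0 _ hx h2)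
  · rw [Submodule.disjoint_def]
    intro x hx hx'
    exact Subtype.ext (Submodule.disjoint_def.mp hd1 _ hx hx')
  · rw [eq_top_iff]
    intro x _
    have hx : (x : V) ∈ K₀ ⊔ K₁ ⊔ W₁ := by rw [hs]; trivial
    obtain ⟨y, hy, w, hw, hyw⟩ := Submodule.mem_sup.mp hx
    obtain ⟨k₀, hk₀, k₁, hk₁, rfl⟩ := Submodule.mem_sup.mp hy
    have hf1 : f k₁ = 0 := hK₁ hk₁
    have hf2 : f w = 0 := hW₁ hw
    have hf0 : f k₀ = 0 := by
      have hx0 : f (x : V) = 0 := x.2
      rw [← hyw, map_add, map_add, hf1, hf2, add_zero, add_zero] at hx0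
      exact hx0
    have : x = (⟨k₀, hf0⟩ + ⟨k₁, hf1⟩) + ⟨w, hf2⟩ := Subtype.ext hyw.symm
    rw [this]
    exact Submodule.add_mem_sup (Submodule.add_mem_sup hk₀ hk₁) hw

section First

variable [Fintype F] {τ : F}

theorem first_step (hq : 3 ≤ Fintype.card F) (hτ4 : τ * τ ≠ 4)
    (hτ : (τ = 0 ∧ (2 : F) ≠ 0) ∨ (τ = 1 ∧ (2 : F) = 0)) {m : ℕ} [FiniteDimensional F V]
    (hV : finrank F V = m + 2) {A : End F V} (hdet : LinearMap.det A = 1) {c₀ v : V}
    {W₁ : Submodule F V} {α β : F} (hc₀ : LinearIndependent F ![c₀, (A - 1) c₀])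
    (hrel₀ : (A - 1) ((A - 1) c₀) = α • (A - 1) c₀ + β • c₀)
    (hv : LinearIndependent F ![v, (A - 1) v])
    (hrelv : (A - 1) ((A - 1) v) = α • (A - 1) v + β • v)
    (hd0 : Disjoint (kry A c₀) (kry A v ⊔ W₁)) (hd1 : Disjoint (kry A v) W₁)
    (hs : kry A c₀ ⊔ kry A v ⊔ W₁ = ⊤) (hinv : ∀ x ∈ W₁, A x ∈ W₁) {b : V →ₗ[F] F}
    (hb : b c₀ ≠ 0) (hcond : CondW A W₁) (hann : ∀ x ∈ W₁, aeval A (polQ α β) x = 0) (hβ : β ≠ 0) :
    Good τ (m + 2) A c₀ b := by
  have hA := inj_of_det hdet
  have hδ := delta_ne hA hc₀ hrel₀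
  have hUinv : ∀ x ∈ kry A v ⊔ W₁, A x ∈ kry A v ⊔ W₁ := by
    intro x hx
    obtain ⟨a, ha, w, hw, rfl⟩ := Submodule.mem_sup.mp hx
    rw [map_add]
    exact Submodule.add_mem_sup (kry_inv _ _ ha) (hinv _ hw)
  have hspan : Submodule.span F (Set.range ![c₀, (A - 1) c₀]) ≤ kry A c₀ := by
    rw [Submodule.span_le]
    rintro _ ⟨i, rfl⟩
    fin_cases i
    · exact self_mem_kry A c₀
    · exact sub_one_mem_kry A c₀ (self_mem_kry A c₀)
  obtain ⟨f, hf, hfU⟩ := exists_functional hc₀ (hd0.mono_left hspan) ![1, 0]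
  have h1 : f c₀ = 1 := by simpa using hf 0
  have h0 : f ((A - 1) c₀) = 0 := by simpa using hf 1
  have h2 : f (A c₀) = 1 := by rw [A_e_eq, map_add, h1, h0, add_zero]
  have hKf : kry A v ≤ LinearMap.ker f := le_sup_left.trans hfU
  have hWf : W₁ ≤ LinearMap.ker f := le_sup_right.trans hfU
  have hdim : 4 ≤ finrank F V := by
    have hd : Disjoint (kry A c₀) (kry A v) := hd0.mono_right le_sup_left
    have h3 := Submodule.finrank_sup_add_finrank_inf_eq (kry A c₀) (kry A v)
    rw [hd.eq_bot, finrank_bot, add_zero] at h3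
    have h4 := two_le_finrank_of_li hc₀
    have h5 := two_le_finrank_of_li hv
    have h6 := Submodule.finrank_le (kry A c₀ ⊔ kry A v)
    omega
  refine level_step (two_sub_ne hτ4) (by omega) h1 h2 hb (by rw [h1]; exact one_ne_zero) ?_
  have hH : finrank F (LinearMap.ker f) = m + 1 := by
    have := finrank_ker_add_one h1
    omega
  set S := schur A c₀ f h2 with hS
  set c' := cpr A c₀ f h1 h2 with hc'
  have hvf : v ∈ LinearMap.ker f := hKf (self_mem_kry _ _)
  set v' : LinearMap.ker f := ⟨v, hvf⟩ with hv'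
  have hKc : kry S c' = (kry A c₀).comap (kι f) := kry_cpr h2 h1
  have hKv : kry S v' = (kry A v).comap (kι f) :=
    kry_schur_of_mem h2 hfU hUinv v' le_sup_left
  have hc'coe : (c' : V) = (A - 1) c₀ := by simp [hc']
  have hSc : (S - 1) c' = (α - β) • c' := by
    apply Subtype.ext
    rw [hS, schur_sub_one_coe h1 h2, hc'coe, hrel₀, map_add, map_smul, map_smul, h0, h1, A_e_eq A c₀,
      Submodule.coe_smul, hc'coe]
    simp only [smul_eq_mul, mul_zero, mul_one, zero_add]
    module
  have hRvmem : ∀ x : V, x ∈ kry A v → f ((A - 1) x) = 0 := fun x hx =>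
    hKf (sub_one_mem_kry _ _ hx)
  have hSv : (((S - 1) v' : LinearMap.ker f) : V) = (A - 1) v := by
    rw [hS, schur_sub_one_coe h1 h2]
    simp only [hv']
    rw [hRvmem v (self_mem_kry _ _)]
    simp
  have hRv'mem : (A - 1) v ∈ kry A v := sub_one_mem_kry _ _ (self_mem_kry _ _)
  have hSSv : (S - 1) ((S - 1) v') = α • (S - 1) v' + β • v' := by
    apply Subtype.ext
    rw [hS, schur_sub_one_coe h1 h2, ← hS, hSv, hRvmem _ hRv'mem, hrelv]
    simp only [zero_smul, sub_zero, Submodule.coe_add, Submodule.coe_smul, hSv]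
    rfl
  have hv'li : LinearIndependent F ![v', (S - 1) v'] := by
    rw [LinearIndependent.pair_iff]
    intro s t hst
    have h3 := congrArg (Subtype.val) hst
    simp only [Submodule.coe_add, Submodule.coe_smul, hSv, Submodule.coe_zero] at h3
    exact LinearIndependent.pair_iff.mp hv s t h3
  obtain ⟨hd0', hd1', hs'⟩ := triple_comap hKf hWf hd0 hd1 hs
  have hv'0 : c' ≠ 0 := by
    intro h3
    have h4 : (c' : V) = 0 := by rw [h3]; rfl
    rw [hc'coe] at h4
    exact (hc₀.ne_zero 1) (by simpa using h4)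
  show Good τ (m + 1) S c' (bpr A f)
  refine p1_good hq hτ4 hτ hH (by rw [hS, det_schur h1 h2]; exact hdet) (ρ := α - β) rfl hSc hv'0
    hv'li hSSv (by rw [hKc, hKv]; exact hd0') (by rw [hKv]; exact hd1') (by rw [hKc, hKv]; exact hs')
    (comap_inv_of_le h2 hWf hinv) ?_ ?_ (hcond.comap h2 hWf hinv) ?_ hβ hδ
  · rw [hc', bpr_cpr, hrel₀, map_add, map_smul, map_smul, h0, h1]
    simpa using hβ
  · rw [bpr_apply]
    exact hKf (kry_inv _ _ (self_mem_kry _ _))
  · intro x hx
    apply Subtype.ext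
    rw [hS, aeval_schur_coe h2 hWf hinv _ _ hx]
    exact hann _ hx

end First

end Cfsg.Agent.SLComm
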