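import Mathlib
import Cfsg.Agent.Lib.SLComm.First

/-!
Explicit commutators for sums of two by two unipotent blocks.
-/

set_option autoImplicit false

namespace Cfsg.Agent.SLComm

universe u
open Module Polynomial Matrix

variable {F : Type u} [Field F] {V : Type u} [AddCommGroup V] [Module F V]

section General

variable {ι : Type*} [Fintype ι] [DecidableEq ι] [Nonempty ι]

/-- the block construction. -/
lemma comm_block [FiniteDimensional F V] {A : End F V} (x : ι → V)
    (hli : LinearIndependent F (Sum.elim (fun i => (A - 1) (x i)) x))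
    (hV : finrank F V = Fintype.card ι + Fintype.card ι)
    (hR : ∀ i, (A - 1) ((A - 1) (x i)) = 0)
    (G G' X : Matrix ι ι F) (hG : G * G' = 1) (hdet : G.det = 1) (hX : X * G' - X = 1) :
    Comm A := by
  classical
  let B : Basis (ι ⊕ ι) F V := basisOfLinearIndependentOfCardEqFinrank hli (by
    rw [Fintype.card_sum, hV])
  have hB : ⇑B = Sum.elim (fun i => (A - 1) (x i)) x :=
    coe_basisOfLinearIndependentOfCardEqFinrank hli _
  have hl : ∀ i, B (Sum.inl i) = (A - 1) (x i) := fun i => by rw [hB]; rfl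
  have hr : ∀ i, B (Sum.inr i) = x i := fun i => by rw [hB]; rfl
  have hAl : ∀ i, A (B (Sum.inl i)) = B (Sum.inl i) := fun i => by
    rw [A_e_eq, hl, hR]; simp
  have hAr : ∀ i, A (B (Sum.inr i)) = B (Sum.inr i) + B (Sum.inl i) := fun i => by
    rw [A_e_eq, hl, hr]
  have hM : LinearMap.toMatrix B B A = fromBlocks 1 1 0 1 := by
    ext i j
    rw [LinearMap.toMatrix_apply]
    rcases j with j | j
    · rw [hAl]
      rcases i with i | i
      · simp [Matrix.one_apply, Finsupp.single_apply, eq_comm]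
      · simp [Finsupp.single_apply]
    · rw [hAr, map_add]
      rcases i with i | i
      · simp [Matrix.one_apply, Finsupp.single_apply, eq_comm]
      · simp [Matrix.one_apply, Finsupp.single_apply, eq_comm]
  refine comm_of_matrix B (fromBlocks 1 0 0 G) (fromBlocks 1 X 0 1) (fromBlocks 1 0 0 G')
    (fromBlocks 1 (-X) 0 1) ?_ ?_ ?_ ?_ ?_
  · simp [fromBlocks_multiply, hG]
  · simp [fromBlocks_multiply]
  · rw [det_fromBlocks_zero₁₂]
    simp [hdet]
  · rw [det_fromBlocks_zero₂₁]
    simp
  · rw [hM]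
    simp only [fromBlocks_multiply, Matrix.one_mul, Matrix.mul_one, Matrix.mul_zero, Matrix.zero_mul,
      add_zero, zero_add]
    congr 1
    · rw [← hX]
      abel
    · exact hG.symm

end General

section Explicit

lemma comm_block_two [FiniteDimensional F V] {A : End F V} (x : Fin 2 → V)
    (hli : LinearIndependent F (Sum.elim (fun i => (A - 1) (x i)) x))
    (hV : finrank F V = 4) (hR : ∀ i, (A - 1) ((A - 1) (x i)) = 0) : Comm A := by
  refine comm_block x hli (by simp [hV]) hR !![1, -1; 1, 0] !![0, 1; -1, 1] !![0, -1; 1, -1] ?_ ?_ ?_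
  · ext i j
    fin_cases i <;> fin_cases j <;> simp [Matrix.mul_apply, Fin.sum_univ_two]
  · simp [Matrix.det_fin_two_of]
  · ext i j
    fin_cases i <;> fin_cases j <;> simp [Matrix.mul_apply, Fin.sum_univ_two]

lemma comm_block_three [FiniteDimensional F V] {A : End F V} (x : Fin 3 → V)
    (hli : LinearIndependent F (Sum.elim (fun i => (A - 1) (x i)) x))
    (hV : finrank F V = 6) (hR : ∀ i, (A - 1) ((A - 1) (x i)) = 0) : Comm A := by
  refine comm_block x hli (by simp [hV]) hR !![1, -1, 1; 0, 1, -1; 1, -1, 2]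
    !![1, 1, 0; -1, 1, 1; -1, 0, 1] !![0, 0, -1; 1, 0, 0; 0, 1, -1] ?_ ?_ ?_
  · ext i j
    fin_cases i <;> fin_cases j <;> simp [Matrix.mul_apply, Fin.sum_univ_three] <;> ring
  · simp [Matrix.det_fin_three]
    ring
  · ext i j
    fin_cases i <;> fin_cases j <;> simp [Matrix.mul_apply, Fin.sum_univ_three]

/-- `J₂ ⊕ (1)`. -/
lemma comm_transvection [FiniteDimensional F V] {A : End F V} {c y : V} (hV : finrank F V = 3)
    (hli : LinearIndependent F ![(A - 1) c, y, c]) (hR : (A - 1) ((A - 1) c) = 0)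
    (hy : (A - 1) y = 0) : Comm A := by
  let B : Basis (Fin 3) F V := basisOfLinearIndependentOfCardEqFinrank hli (by simp [hV])
  have hB : ⇑B = ![(A - 1) c, y, c] :=
    coe_basisOfLinearIndependentOfCardEqFinrank hli _
  have h0 : B 0 = (A - 1) c := by rw [hB]; rfl
  have h1 : B 1 = y := by rw [hB]; rfl
  have h2 : B 2 = c := by rw [hB]; rfl
  have hA0 : A (B 0) = B 0 := by rw [A_e_eq, h0, hR]; simp
  have hA1 : A (B 1) = B 1 := by rw [A_e_eq, h1, hy]; simp
  have hA2 : A (B 2) = B 2 + B 0 := by rw [A_e_eq, h0, h2]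
  have hM : LinearMap.toMatrix B B A = !![1, 0, 1; 0, 1, 0; 0, 0, 1] := by
    ext i j
    rw [LinearMap.toMatrix_apply]
    fin_cases j
    · simp only [Fin.zero_eta, hA0]
      fin_cases i <;> simp
    · simp only [Fin.mk_one, hA1]
      fin_cases i <;> simp
    · simp only [Fin.reduceFinMk, hA2, map_add]
      fin_cases i <;> simp
  refine comm_of_matrix B !![1, 1, 0; 0, 1, 0; 0, 0, 1] !![1, 0, 0; 0, 1, 1; 0, 0, 1]
    !![1, -1, 0; 0, 1, 0; 0, 0, 1] !![1, 0, 0; 0, 1, -1; 0, 0, 1] ?_ ?_ ?_ ?_ ?_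
  · ext i j
    fin_cases i <;> fin_cases j <;> simp [Matrix.mul_apply, Fin.sum_univ_three]
  · ext i j
    fin_cases i <;> fin_cases j <;> simp [Matrix.mul_apply, Fin.sum_univ_three]
  · simp [Matrix.det_fin_three]
  · simp [Matrix.det_fin_three]
  · rw [hM]
    ext i j
    fin_cases i <;> fin_cases j <;> simp [Matrix.mul_apply, Fin.sum_univ_three]

end Explicit

end Cfsg.Agent.SLComm
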