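import Mathlib
import Cfsg.Agent.Lib.SLComm.J2

/-!
Dimension two.
-/

set_option autoImplicit false

namespace Cfsg.Agent.SLComm

universe u
open Module Polynomial

variable {F : Type u} [Field F] [Fintype F] {V : Type u} [AddCommGroup V] [Module F V]

/-- the exceptional elements. -/
def Exc (A : End F V) : Prop :=
  finrank F V = 2 ∧ Fintype.card F ≤ 3 ∧ ∃ ε : F, ε * ε = 1 ∧ A ≠ ε • 1 ∧ (A - ε • 1) * (A - ε • 1) = 0

lemma comm_of_entries [FiniteDimensional F V] (hV : finrank F V = 2) (B : Basis (Fin 2) F V)
    {A : End F V} {a₁ a₂ a₃ a₄ a b c d τ : F} (hτ4 : τ * τ ≠ 4)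
    (hA0 : A (B 0) = a₁ • B 0 + a₃ • B 1) (hA1 : A (B 1) = a₂ • B 0 + a₄ • B 1)
    (hdetA : a₁ * a₄ - a₂ * a₃ = 1) (htrC : a + d = τ) (hdetC : a * d - b * c = 1)
    (htrL : a * a₁ + c * a₂ + b * a₃ + d * a₄ = τ) : Comm A := by
  let C : End F V := B.constr F ![a • B 0 + c • B 1, b • B 0 + d • B 1]
  have hC0 : C (B 0) = a • B 0 + c • B 1 := by simp [C]
  have hC1 : C (B 1) = b • B 0 + d • B 1 := by simp [C]
  have hL0 : (A * C) (B 0) = (a * a₁ + c * a₂) • B 0 + (a * a₃ + c * a₄) • B 1 := by
    rw [Module.End.mul_apply, hC0, map_add, map_smul, map_smul, hA0, hA1]; module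
  have hL1 : (A * C) (B 1) = (b * a₁ + d * a₂) • B 0 + (b * a₃ + d * a₄) • B 1 := by
    rw [Module.End.mul_apply, hC1, map_add, map_smul, map_smul, hA0, hA1]; module
  have htr : (a * a₁ + c * a₂) + (b * a₃ + d * a₄) = τ := by linear_combination htrL
  have hdetL : (a * a₁ + c * a₂) * (b * a₃ + d * a₄) - (b * a₁ + d * a₂) * (a * a₃ + c * a₄) = 1 := by
    have : (a * a₁ + c * a₂) * (b * a₃ + d * a₄) - (b * a₁ + d * a₂) * (a * a₃ + c * a₄) =
        (a * d - b * c) * (a₁ * a₄ - a₂ * a₃) := by ring
    rw [this, hdetC, hdetA, one_mul]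
  have hgood : Good τ 2 A (0 : V) (0 : V →ₗ[F] F) := by
    refine ⟨A * C, C, ⟨rfl, ?_, ?_, ?_, ?_⟩, by omega, by omega⟩
    · simp [G_eq_zero_of_entries B hL0 hL1 htr hdetL]
    · simp [G_eq_zero_of_entries B hC0 hC1 htrC hdetC]
    · exact exists_y_of_entries hτ4 B hL0 hL1 htr hdetL
    · exact exists_y_of_entries hτ4 B hC0 hC1 htrC hdetC
  exact comm_of_good (two_sub_ne hτ4) (form_universal hτ4) hV (le_refl 2) hgood

/-- the parabolic case, with the Jordan form given. -/
lemma comm_parabolic [FiniteDimensional F V] (hq : 4 ≤ Fintype.card F) (hV : finrank F V = 2)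
    {A : End F V} {ε : F} (hε : ε * ε = 1) {x₁ x₂ : V} (hli : LinearIndependent F ![x₁, x₂])
    (h1 : A x₁ = ε • x₁) (h2 : A x₂ = ε • x₂ + x₁) : Comm A := by
  obtain ⟨B, hB0, hB1⟩ := exists_basis_pair hV hli
  have hε' : ε = 1 ∨ (ε = -1 ∧ (2 : F) ≠ 0) := by
    have h3 : (ε - 1) * (ε + 1) = 0 := by linear_combination hε
    rcases mul_eq_zero.mp h3 with h | h
    · exact Or.inl (by linear_combination h)
    · by_cases h20 : (2 : F) = 0
      · exact Or.inl (by linear_combination h - h20)
      · exact Or.inr ⟨by linear_combination h, h20⟩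
  rcases hε' with rfl | ⟨rfl, h20⟩
  · obtain ⟨μ, h3, h4, h5⟩ := exists_ne₃ hq 0 1 (-1)
    have hμ : μ * μ⁻¹ = 1 := mul_inv_cancel₀ h3
    refine comm_of_entries hV B (a₁ := 1) (a₂ := 1) (a₃ := 0) (a₄ := 1) (a := μ) (b := 0) (c := 0)
      (d := μ⁻¹) (τ := μ + μ⁻¹) ?_ ?_ ?_ (by ring) rfl ?_ (by ring)
    · intro h0
      have h6 : (μ - μ⁻¹) * (μ - μ⁻¹) = 0 := by linear_combination h0 - 4 * hμ
      have h7 : μ - μ⁻¹ = 0 := by simpa using h6
      have h8 : (μ - 1) * (μ + 1) = 0 := by
        have h9 : μ * μ = 1 := by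
          calc μ * μ = μ * μ⁻¹ + μ * (μ - μ⁻¹) := by ring
            _ = 1 := by rw [h7, hμ]; ring
        linear_combination h9
      rcases mul_eq_zero.mp h8 with h | h
      · exact h4 (by linear_combination h)
      · exact h5 (by linear_combination h)
    · rw [hB0, hB1, h1]; simp
    · rw [hB0, hB1, h2]; simp [add_comm]
    · linear_combination hμ
  · obtain ⟨τ, h3, h4, h5⟩ := exists_ne₃ hq 0 2 (-2)
    have h2τ : 2 * τ ≠ 0 := mul_ne_zero h20 h3
    have hμ : (2 * τ)⁻¹ * (2 * τ) = 1 := inv_mul_cancel₀ h2τ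
    refine comm_of_entries hV B (a₁ := -1) (a₂ := 1) (a₃ := 0) (a₄ := -1) (a := τ)
      (b := -(2 * τ)⁻¹) (c := 2 * τ) (d := 0) (τ := τ) ?_ ?_ ?_ (by ring) (by ring) ?_ (by ring)
    · intro h0
      have h8 : (τ - 2) * (τ + 2) = 0 := by linear_combination h0
      rcases mul_eq_zero.mp h8 with h | h
      · exact h4 (by linear_combination h)
      · exact h5 (by linear_combination h)
    · rw [hB0, hB1, h1]; simp
    · rw [hB0, hB1, h2]; simp [add_comm]
    · linear_combination hμ

/-- dimension two: everything except the exceptional elements. -/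
theorem comm_two [FiniteDimensional F V] (hV : finrank F V = 2) {A : End F V}
    (hdet : LinearMap.det A = 1) (hne : ¬ Exc A) : Comm A := by
  by_cases hs : ∃ v, LinearIndependent F ![v, A v]
  · obtain ⟨v, hv⟩ := hs
    obtain ⟨B, hB0, hB1⟩ := exists_basis_pair hV hv
    obtain ⟨t, n, hAA⟩ : ∃ t n : F, A (A v) = t • A v - n • v := by
      refine ⟨B.repr (A (A v)) 1, -B.repr (A (A v)) 0, ?_⟩
      have h3 := B.sum_repr (A (A v))
      rw [Fin.sum_univ_two, hB0, hB1] at h3
      rw [neg_smul, sub_neg_eq_add, add_comm]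
      exact h3.symm
    have hn : n = 1 := by
      have h0 : A (B 0) = B 1 := by rw [hB0, hB1]
      have h1 : A (B 1) = t • B 1 - n • B 0 := by rw [hB0, hB1, hAA]
      rw [← det_companion B h0 h1, hdet]
    subst hn
    rw [one_smul] at hAA
    by_cases ht : t * t = 4
    · -- parabolic
      obtain ⟨ε, hε, h2ε⟩ : ∃ ε : F, ε * ε = 1 ∧ 2 * ε = t := by
        by_cases h20 : (2 : F) = 0
        · refine ⟨1, by ring, ?_⟩
          have h4 : t * t = 0 := by
            rw [ht]
            linear_combination 2 * h20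
          have h5 : t = 0 := by simpa using h4
          rw [h5, h20]
          ring
        · refine ⟨t / 2, ?_, ?_⟩
          · field_simp
            linear_combination ht
          · field_simp
      have hAε : (A - ε • 1) v = A v - ε • v := by simp
      have hone : ∀ x, (A - ε • 1) ((A - ε • 1) x) = A (A x) - t • A x + x := by
        intro x
        simp only [LinearMap.sub_apply, LinearMap.smul_apply, Module.End.one_apply, map_sub, map_smul]
        rw [← h2ε]
        linear_combination (norm := module) hε • x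
      have hsq : (A - ε • 1) * (A - ε • 1) = 0 := by
        apply B.ext
        intro i
        fin_cases i
        · simp only [Fin.zero_eta, Module.End.mul_apply, LinearMap.zero_apply]
          rw [hone, hB0, hAA]
          module
        · simp only [Fin.mk_one, Module.End.mul_apply, LinearMap.zero_apply]
          rw [hone, hB1, hAA]
          simp only [map_sub, map_smul, hAA]
          module
      have hneq : A ≠ ε • 1 := by
        intro h3
        have h4 : A v = ε • v := by rw [h3]; simp
        rw [h4] at hv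
        have := LinearIndependent.pair_iff.mp hv ε (-1) (by module)
        simpa using this.2
      have hq : 4 ≤ Fintype.card F := by
        by_contra hq
        exact hne ⟨hV, by omega, ε, hε, hneq, hsq⟩
      refine comm_parabolic hq hV hε (x₁ := A v - ε • v) (x₂ := v) ?_ ?_ ?_
      · rw [LinearIndependent.pair_iff]
        intro s r h3
        have h4 := LinearIndependent.pair_iff.mp hv (r - s * ε) s (by
          rw [← h3]; module)
        have h5 := h4.2
        subst h5
        simpa using h4.1
      · rw [map_sub, map_smul, hAA, ← h2ε]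
        linear_combination (norm := module) hε • v
      · abel
    · -- nonparabolic
      obtain ⟨τ, hτ4, hτ⟩ := exists_tau (F := F)
      have hgood : Good τ 2 A (0 : V) (0 : V →ₗ[F] F) :=
        good2_of_cyclic hτ4 hτ hV (t := t) (n := 1) hv (by rw [hAA, one_smul]) hdet ht _ _
      exact comm_of_good (two_sub_ne hτ4) (form_universal hτ4) hV (le_refl 2) hgood
  · push Not at hs
    obtain ⟨a, rfl⟩ := LinearMap.exists_eq_smul_id_of_forall_notLinearIndependent hs
    have ha : a * a = 1 := by
      have h3 := LinearMap.det_smul a (1 : End F V)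
      rw [hdet, map_one, mul_one, hV] at h3
      rw [h3]
      ring
    have h3 : (a - 1) * (a + 1) = 0 := by linear_combination ha
    rcases mul_eq_zero.mp h3 with h | h
    · have : a = 1 := by linear_combination h
      subst this
      rw [one_smul]
      exact Comm.one
    · by_cases h20 : (2 : F) = 0
      · have : a = 1 := by linear_combination h - h20
        subst this
        rw [one_smul]
        exact Comm.one
      · have han : a = -1 := by linear_combination h
        subst han
        obtain ⟨τ, hτ4, hτ⟩ := exists_tau (F := F)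
        have hτ0 : τ = 0 := by
          rcases hτ with h' | h'
          · exact h'.1
          · exact absurd h'.2 h20
        have hgood : Good τ 2 ((-1 : F) • (1 : End F V)) (0 : V) (0 : V →ₗ[F] F) :=
          good2_of_neg_one hτ4 hτ0 h20 (finBasisOfFinrankEq F V hV) (by simp) _ _
        exact comm_of_good (two_sub_ne hτ4) (form_universal hτ4) hV (le_refl 2) hgood

end Cfsg.Agent.SLComm
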