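import Mathlib
import Cfsg.Agent.Lib.SLComm.Two

/-!
Scalar matrices of determinant one are commutators.
-/

set_option autoImplicit false

namespace Cfsg.Agent.SLComm

universe u
open Module Polynomial Matrix

variable {F : Type u} [Field F]

section Gen

variable {m o : Type*} [Fintype m] [Fintype o] [DecidableEq m] [DecidableEq o]

/-- generalised block monomial matrices. -/
def genM (τ : Equiv.Perm o) (Q : o → Matrix m m F) : Matrix (m × o) (m × o) F :=
  fun i j => if i.2 = τ j.2 then Q j.2 i.1 j.1 else 0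

lemma genM_mul (τ₁ τ₂ : Equiv.Perm o) (Q₁ Q₂ : o → Matrix m m F) :
    genM τ₁ Q₁ * genM τ₂ Q₂ = genM (τ₁ * τ₂) (fun s => Q₁ (τ₂ s) * Q₂ s) := by
  ext i j
  rw [Matrix.mul_apply, Fintype.sum_prod_type]
  simp only [genM, Equiv.Perm.coe_mul, Function.comp_apply]
  have h1 : ∀ (x : m) (y : o), (if i.2 = τ₁ y then Q₁ y i.1 x else 0) *
      (if y = τ₂ j.2 then Q₂ j.2 x j.1 else 0) =
      if y = τ₂ j.2 then (if i.2 = τ₁ (τ₂ j.2) then Q₁ (τ₂ j.2) i.1 x * Q₂ j.2 x j.1 else 0) else 0 := by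
    intro x y
    by_cases hy : y = τ₂ j.2
    · subst hy
      by_cases hi : i.2 = τ₁ (τ₂ j.2)
      · simp [hi]
      · simp [hi]
    · simp [hy]
  simp_rw [h1]
  simp only [Finset.sum_ite_eq', Finset.mem_univ, if_true]
  by_cases hi : i.2 = τ₁ (τ₂ j.2)
  · simp only [hi, if_true, Matrix.mul_apply]
  · simp [hi]

lemma genM_one_eq (Q : o → Matrix m m F) : genM 1 Q = blockDiagonal Q := by
  ext i j
  simp only [genM, Equiv.Perm.coe_one, id_eq, blockDiagonal_apply]
  by_cases h : i.2 = j.2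
  · simp [h]
  · simp [h]

lemma genM_smul (a : F) (τ : Equiv.Perm o) (Q : o → Matrix m m F) :
    a • genM τ Q = genM τ (fun s => a • Q s) := by
  ext i j
  simp only [genM, Matrix.smul_apply, smul_eq_mul]
  by_cases h : i.2 = τ j.2
  · simp [h]
  · simp [h]

lemma genM_congr (τ : Equiv.Perm o) {Q Q' : o → Matrix m m F} (h : ∀ s, Q s = Q' s) :
    genM τ Q = genM τ Q' := by
  rw [funext h]

lemma genM_one_one : genM (1 : Equiv.Perm o) (fun _ => (1 : Matrix m m F)) = 1 := by
  rw [genM_one_eq]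
  exact blockDiagonal_one

/-- the abstract form of the construction. -/
theorem exists_scalar_comm (a : F) (B : o → Matrix m m F) (T T' : Matrix m m F) (σ : Equiv.Perm o)
    (hT : T * T' = 1) (hB : ∀ s, B (σ s) * T = a • (T * B s)) (hdet : ∏ s, (B s).det = 1) (s₀ : o)
    (hZ : ∀ d : F, d ≠ 0 → ∃ Z₀ : Matrix m m F, Z₀ * B s₀ = B s₀ * Z₀ ∧ Z₀.det = d) :
    ∃ X Y X' Y' : Matrix (m × o) (m × o) F, X * X' = 1 ∧ Y * Y' = 1 ∧ X.det = 1 ∧ Y.det = 1 ∧
      a • (1 : Matrix (m × o) (m × o) F) = X * Y * X' * Y' := by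
  classical
  set L : Matrix (m × o) (m × o) F := genM 1 B with hL
  set Y₀ : Matrix (m × o) (m × o) F := genM σ (fun _ => T) with hY₀
  have hY₁ : Y₀ * genM σ⁻¹ (fun _ => T') = 1 := by
    rw [hY₀, genM_mul, mul_inv_cancel, genM_congr _ (fun s => hT), genM_one_one]
  have hdY : Y₀.det ≠ 0 := by
    intro h0
    have := congrArg Matrix.det hY₁
    rw [Matrix.det_mul, h0, zero_mul, Matrix.det_one] at this
    exact zero_ne_one this
  obtain ⟨Z₀, hZ₁, hZ₂⟩ := hZ (Y₀.det)⁻¹ (inv_ne_zero hdY)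
  set Zf : o → Matrix m m F := fun s => if s = s₀ then Z₀ else 1 with hZf
  set Z : Matrix (m × o) (m × o) F := genM 1 Zf with hZdef
  have hdZ : Z.det = (Y₀.det)⁻¹ := by
    rw [hZdef, genM_one_eq, det_blockDiagonal]
    have : ∀ s, (Zf s).det = if s = s₀ then Z₀.det else 1 := by
      intro s
      by_cases h : s = s₀
      · simp [hZf, h]
      · simp [hZf, h]
    simp_rw [this]
    rw [Finset.prod_ite_eq' Finset.univ s₀ (fun _ => Z₀.det)]
    simp [hZ₂]
  have hLZ : L * Z = Z * L := by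
    rw [hL, hZdef, genM_mul, genM_mul]
    apply genM_congr
    intro s
    show B s * Zf s = Zf s * B s
    by_cases h : s = s₀
    · subst h
      simp only [hZf, if_true]
      exact hZ₁.symm
    · simp [hZf, h]
  have hLY : L * Y₀ = a • (Y₀ * L) := by
    rw [hL, hY₀, genM_mul, genM_mul, genM_smul, mul_one, one_mul]
    apply genM_congr
    intro s
    exact hB s
  have hdL : L.det = 1 := by
    rw [hL, genM_one_eq, det_blockDiagonal, hdet]
  set Y₂ := Y₀ * Z with hY₂
  have hdY₂ : Y₂.det = 1 := by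
    rw [hY₂, Matrix.det_mul, hdZ, mul_inv_cancel₀ hdY]
  have hLY₂ : L * Y₂ = a • (Y₂ * L) := by
    rw [hY₂, ← mul_assoc, hLY, Matrix.smul_mul, mul_assoc, hLZ, mul_assoc]
  have hUL : IsUnit L.det := by rw [hdL]; exact isUnit_one
  have hUY : IsUnit Y₂.det := by rw [hdY₂]; exact isUnit_one
  refine ⟨L, Y₂, L⁻¹, Y₂⁻¹, Matrix.mul_nonsing_inv _ hUL, Matrix.mul_nonsing_inv _ hUY, hdL, hdY₂, ?_⟩
  rw [hLY₂, Matrix.smul_mul, Matrix.smul_mul, mul_assoc Y₂, Matrix.mul_nonsing_inv _ hUL, mul_one,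
    Matrix.mul_nonsing_inv _ hUY]

end Gen

lemma pow_val_succ {N : ℕ} {b : F} (hb : b ^ (N + 1) = 1) (s : Fin (N + 1)) :
    b ^ ((s + 1 : Fin (N + 1)) : ℕ) = b * b ^ (s : ℕ) := by
  rw [Fin.val_add_one]
  split_ifs with h
  · subst h
    rw [Fin.val_last, ← pow_succ', hb, pow_zero]
  · rw [pow_succ']

lemma prod_pow_val {N : ℕ} (b : F) : ∏ s : Fin N, b ^ (s : ℕ) = b ^ (∑ i ∈ Finset.range N, i) := by
  rw [Finset.prod_pow_eq_pow_sum, Fin.sum_univ_eq_sum_range (fun i => i) N]

/-- odd size. -/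
theorem scalar_odd {a : F} {j : ℕ} (ha : a ^ (2 * j + 1) = 1) :
    ∃ X Y X' Y' : Matrix (Fin 1 × Fin (2 * j + 1)) (Fin 1 × Fin (2 * j + 1)) F,
      X * X' = 1 ∧ Y * Y' = 1 ∧ X.det = 1 ∧ Y.det = 1 ∧ a • 1 = X * Y * X' * Y' := by
  refine exists_scalar_comm a (fun s => !![a ^ (s : ℕ)]) 1 1 (Equiv.addRight 1) (by simp) ?_ ?_ 0 ?_
  · intro s
    simp only [Equiv.coe_addRight, mul_one, one_mul]
    rw [pow_val_succ ha]
    ext i k
    fin_cases i
    fin_cases k
    simp
  · simp only [Matrix.det_fin_one_of]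
    rw [prod_pow_val]
    have h1 : (∑ i ∈ Finset.range (2 * j + 1), i) = (2 * j + 1) * j := by
      have h2 := Finset.sum_range_id_mul_two (2 * j + 1)
      have h3 : (2 * j + 1) * (2 * j + 1 - 1) = ((2 * j + 1) * j) * 2 := by
        rw [Nat.add_sub_cancel]
        ring
      rw [h3] at h2
      omega
    rw [h1, pow_mul, ha, one_pow]
  · intro d _
    refine ⟨!![d], ?_, by simp⟩
    ext i k
    fin_cases i
    fin_cases k
    simp [mul_comm]

lemma exists_sum_squares [Fintype F] {n₀ d : F} (hn : n₀ ≠ 0) : ∃ x y : F, x * x + n₀ * (y * y) = d := by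
  classical
  by_cases h2 : ringChar F = 2
  · obtain ⟨a, ha⟩ := FiniteField.isSquare_of_char_two h2 d
    exact ⟨a, 0, by simp [ha]⟩
  · have hodd : Fintype.card F % 2 = 1 := FiniteField.odd_card_of_char_ne_two h2
    let f : Polynomial F := Polynomial.X ^ 2
    let g : Polynomial F := Polynomial.C n₀ * Polynomial.X ^ 2 + Polynomial.C 0 * Polynomial.X +
      Polynomial.C (-d)
    have hf : f.degree = 2 := by simp [f]
    have hg : g.degree = 2 := Polynomial.degree_quadratic hn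
    obtain ⟨u, w, huw⟩ := FiniteField.exists_root_sum_quadratic hf hg hodd
    simp only [f, g, Polynomial.eval_pow, Polynomial.eval_X, Polynomial.eval_add,
      Polynomial.eval_mul, Polynomial.eval_C] at huw
    exact ⟨u, w, by linear_combination huw⟩

/-- even size. -/
theorem scalar_even [Fintype F] {a : F} {k : ℕ} (ha : a ^ (2 * (k + 1)) = 1) :
    ∃ X Y X' Y' : Matrix (Fin 2 × Fin (k + 1)) (Fin 2 × Fin (k + 1)) F,
      X * X' = 1 ∧ Y * Y' = 1 ∧ X.det = 1 ∧ Y.det = 1 ∧ a • 1 = X * Y * X' * Y' := by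
  have ha0 : a ≠ 0 := by
    rintro rfl
    rw [zero_pow (by omega)] at ha
    exact zero_ne_one ha
  have hlam : (a * a) ^ (k + 1) = 1 := by
    rw [← ha, ← pow_two, ← pow_mul]
  set n₁ : F := (a ^ k)⁻¹ with hn₁
  have hn₁0 : n₁ ≠ 0 := inv_ne_zero (pow_ne_zero _ ha0)
  set n : Fin (k + 1) → F := fun s => n₁ * (a * a) ^ (s : ℕ) with hn
  have hsucc : ∀ s, n (s + 1) = (a * a) * n s := by
    intro s
    simp only [hn]
    rw [pow_val_succ hlam]
    ring
  have hinv : a⁻¹ * a = 1 := inv_mul_cancel₀ ha0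
  refine exists_scalar_comm a (fun s => !![0, -n s; 1, 0]) !![1, 0; 0, a⁻¹] !![1, 0; 0, a]
    (Equiv.addRight 1) ?_ ?_ ?_ 0 ?_
  · ext i j
    fin_cases i <;> fin_cases j <;> simp [Matrix.mul_apply, Fin.sum_univ_two, hinv]
  · intro s
    simp only [Equiv.coe_addRight]
    rw [hsucc]
    ext i j
    fin_cases i <;> fin_cases j <;> simp [Matrix.mul_apply, Fin.sum_univ_two]
    · field_simp
    · field_simp
  · simp only [Matrix.det_fin_two_of]
    have h1 : ∀ s : Fin (k + 1), 0 * 0 - -n s * 1 = n₁ * (a * a) ^ (s : ℕ) := by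
      intro s
      simp [hn]
    simp_rw [h1]
    rw [Finset.prod_mul_distrib, prod_pow_val, Finset.prod_const, Finset.card_univ, Fintype.card_fin]
    have h2 : (a * a) ^ (∑ i ∈ Finset.range (k + 1), i) = a ^ (k * (k + 1)) := by
      rw [← pow_two, ← pow_mul]
      congr 1
      have h3 := Finset.sum_range_id_mul_two (k + 1)
      rw [Nat.add_sub_cancel] at h3
      rw [mul_comm 2, h3, mul_comm]
    rw [h2, hn₁, inv_pow, ← pow_mul]
    exact inv_mul_cancel₀ (pow_ne_zero _ ha0)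
  · intro d _
    have hn0 : n 0 ≠ 0 := by
      simp only [hn]
      simpa using hn₁0
    obtain ⟨x, y, hxy⟩ := exists_sum_squares (d := d) hn0
    refine ⟨!![x, -(n 0) * y; y, x], ?_, ?_⟩
    · ext i j
      fin_cases i <;> fin_cases j <;> simp [Matrix.mul_apply, Fin.sum_univ_two] <;> ring
    · rw [Matrix.det_fin_two_of, ← hxy]
      ring

variable {V : Type u} [AddCommGroup V] [Module F V]

lemma comm_of_scalar_matrices [FiniteDimensional F V] {m o : Type*} [Fintype m] [Fintype o]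
    [DecidableEq m] [DecidableEq o] {a : F}
    (hc : Fintype.card (m × o) = finrank F V)
    (h : ∃ X Y X' Y' : Matrix (m × o) (m × o) F, X * X' = 1 ∧ Y * Y' = 1 ∧ X.det = 1 ∧ Y.det = 1 ∧
      a • 1 = X * Y * X' * Y') : Comm (a • (1 : End F V)) := by
  obtain ⟨X, Y, X', Y', h1, h2, h3, h4, h5⟩ := h
  let B : Basis (m × o) F V := (finBasis F V).reindex (Fintype.equivFinOfCardEq hc).symm
  refine comm_of_matrix B X Y X' Y' h1 h2 h3 h4 ?_
  rw [← h5, map_smul, LinearMap.toMatrix_one]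

/-- scalars of determinant one are commutators. -/
theorem comm_scalar [Fintype F] [FiniteDimensional F V] {a : F}
    (hdet : LinearMap.det (a • (1 : End F V)) = 1) : Comm (a • (1 : End F V)) := by
  have hpow : a ^ finrank F V = 1 := by
    have h3 := LinearMap.det_smul a (1 : End F V)
    rw [hdet, map_one, mul_one] at h3
    exact h3.symm
  by_cases h0 : finrank F V = 0
  · haveI : Subsingleton V := finrank_zero_iff.mp h0
    have : a • (1 : End F V) = 1 := by
      ext x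
      exact Subsingleton.elim _ _
    rw [this]
    exact Comm.one
  rcases Nat.even_or_odd' (finrank F V) with ⟨c, hc | hc⟩
  · obtain ⟨k, rfl⟩ : ∃ k, c = k + 1 := ⟨c - 1, by omega⟩
    rw [hc] at hpow
    exact comm_of_scalar_matrices (by simp [hc]) (scalar_even hpow)
  · rw [hc] at hpow
    exact comm_of_scalar_matrices (by simp [hc]) (scalar_odd hpow)

end Cfsg.Agent.SLComm
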