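import Mathlib
import Cfsg.Agent.Lib.SLComm.Scalar

/-!
The sum of a `J₂` and a unipotent cyclic block of size at least three.
-/

set_option autoImplicit false

namespace Cfsg.Agent.SLComm

universe u
open Module Polynomial

variable {F : Type u} [Field F] {V : Type u} [AddCommGroup V] [Module F V]

lemma li_four_of_disjoint {p q r s : V} {T U : Submodule F V} (h1 : LinearIndependent F ![p, q])
    (h2 : LinearIndependent F ![r, s]) (hp : p ∈ T) (hq : q ∈ T) (hr : r ∈ U) (hs : s ∈ U)
    (hd : Disjoint T U) : LinearIndependent F ![p, q, r, s] := by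
  rw [Fintype.linearIndependent_iff]
  intro g hg
  rw [Fin.sum_univ_four] at hg
  simp only [Matrix.cons_val_zero, Matrix.cons_val_one, Matrix.cons_val] at hg
  have hT : g 0 • p + g 1 • q ∈ T := T.add_mem (T.smul_mem _ hp) (T.smul_mem _ hq)
  have hU : g 2 • r + g 3 • s ∈ U := U.add_mem (U.smul_mem _ hr) (U.smul_mem _ hs)
  have h3 : g 0 • p + g 1 • q = -(g 2 • r + g 3 • s) := by
    rw [eq_neg_iff_add_eq_zero, ← hg]
    abel
  have h4 : g 0 • p + g 1 • q = 0 :=
    Submodule.disjoint_def.mp hd _ hT (by rw [h3]; exact U.neg_mem hU)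
  have h5 : g 2 • r + g 3 • s = 0 := neg_eq_zero.mp (h3.symm.trans h4)
  obtain ⟨h6, h7⟩ := LinearIndependent.pair_iff.mp h1 _ _ h4
  obtain ⟨h8, h9⟩ := LinearIndependent.pair_iff.mp h2 _ _ h5
  intro i
  fin_cases i
  · exact h6
  · exact h7
  · exact h8
  · exact h9

lemma pow_sub_one_mem_kry [FiniteDimensional F V] (A : End F V) (v : V) (j : ℕ) :
    ((A - 1) ^ j) v ∈ kry A v := by
  induction j with
  | zero => simpa using self_mem_kry A v
  | succ j ih =>
    rw [pow_succ', Module.End.mul_apply]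
    exact sub_one_mem_kry A v ih

section SchurPrj

variable {A : End F V} {e : V} {f : V →ₗ[F] F}

/-- the Schur complement on projected vectors. -/
lemma schur_prj (h1 : f e = 1) (h2 : f (A e) = 1) (x : V) :
    schur A e f h2 (prj e f h1 x) = prj e f h1 (A x) - f (A x) • cpr A e f h1 h2 := by
  apply Subtype.ext
  simp only [schur_coe, prj_coe, Submodule.coe_sub, Submodule.coe_smul, cpr_coe]
  rw [map_sub, map_smul, map_sub, map_smul, h2]
  simp only [smul_eq_mul, mul_one]
  module

lemma schur_prj_sub (h1 : f e = 1) (h2 : f (A e) = 1) (x : V) :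
    (schur A e f h2 - 1) (prj e f h1 x) =
      prj e f h1 ((A - 1) x) - f (A x) • cpr A e f h1 h2 := by
  rw [LinearMap.sub_apply, schur_prj, Module.End.one_apply, LinearMap.sub_apply, map_sub,
    Module.End.one_apply]
  abel

lemma kry_top_of_mem [FiniteDimensional F V] (h1 : f e = 1) (h2 : f (A e) = 1) {x₀ : V}
    (hs : kry A e ⊔ kry A x₀ = ⊤)
    (hm : cpr A e f h1 h2 ∈ kry (schur A e f h2) (prj e f h1 x₀)) :
    kry (schur A e f h2) (prj e f h1 x₀) = ⊤ := by
  set K := kry (schur A e f h2) (prj e f h1 x₀) with hK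
  have hinv : ∀ x ∈ K.comap (prj e f h1), A x ∈ K.comap (prj e f h1) := by
    intro x hx
    simp only [Submodule.mem_comap] at hx ⊢
    have h3 : prj e f h1 (A x) = schur A e f h2 (prj e f h1 x) + f (A x) • cpr A e f h1 h2 := by
      rw [schur_prj]; abel
    rw [h3]
    exact K.add_mem (kry_inv _ _ hx) (K.smul_mem _ hm)
  have hetop : kry A e ≤ K.comap (prj e f h1) := by
    apply kry_le hinv
    simp only [Submodule.mem_comap, prj_self h1]
    exact K.zero_mem
  have hxtop : kry A x₀ ≤ K.comap (prj e f h1) := by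
    apply kry_le hinv
    show prj e f h1 x₀ ∈ K
    exact self_mem_kry _ _
  have htop : K.comap (prj e f h1) = ⊤ := by
    rw [eq_top_iff, ← hs]
    exact sup_le hetop hxtop
  rw [eq_top_iff]
  intro h _
  have h3 : (h : V) ∈ K.comap (prj e f h1) := by rw [htop]; trivial
  simp only [Submodule.mem_comap, prj_sub] at h3
  exact h3

end SchurPrj

section Main

variable [Fintype F]

/-- the sum of `J₂` and a longer unipotent block. -/
theorem comm_special [FiniteDimensional F V] {A : End F V} (hdet : LinearMap.det A = 1) {c x₀ : V}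
    {k : ℕ} (hk : 3 ≤ k) (hcR : (A - 1) ((A - 1) c) = 0)
    (hcli : LinearIndependent F ![c, (A - 1) c]) (h0 : ((A - 1) ^ k) x₀ = 0)
    (h1' : ((A - 1) ^ (k - 1)) x₀ ≠ 0) (hs : kry A c ⊔ kry A x₀ = ⊤)
    (hdisj : Disjoint (kry A c) (kry A x₀)) : Comm A := by
  obtain ⟨τ, hτ4, hτ⟩ := exists_tau (F := F)
  -- the first functional
  have hch := chain_li (A - 1) k x₀ h0 (by
    intro j hj
    have : j = k - 1 := by omega
    rw [this]
    exact h1')
  have hpair : LinearIndependent F ![(A - 1) x₀, ((A - 1) ^ (k - 1)) x₀] := by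
    let g : Fin 2 → Fin k := ![⟨1, by omega⟩, ⟨k - 1, by omega⟩]
    have hg : Function.Injective g := by
      intro i j hij
      fin_cases i <;> fin_cases j <;> simp [g, Fin.ext_iff] at hij ⊢ <;> omega
    have := hch.comp g hg
    have h3 : ((fun i : Fin k => ((A - 1) ^ (i : ℕ)) x₀) ∘ g) =
        ![(A - 1) x₀, ((A - 1) ^ (k - 1)) x₀] := by
      funext i
      fin_cases i <;> simp [g]
    rwa [h3] at this
  have hNmem : (A - 1) x₀ ∈ kry A x₀ := sub_one_mem_kry _ _ (self_mem_kry _ _)
  have hfour := li_four_of_disjoint hcli hpair (self_mem_kry A c)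
    (sub_one_mem_kry _ _ (self_mem_kry _ _)) hNmem (pow_sub_one_mem_kry A x₀ (k - 1)) hdisj
  obtain ⟨f, hf, -⟩ := exists_functional hfour (W := ⊥) disjoint_bot_right ![1, 0, 1, 1]
  have h1 : f c = 1 := by simpa using hf 0
  have hf1 : f ((A - 1) c) = 0 := by simpa using hf 1
  have hf2 : f ((A - 1) x₀) = 1 := by simpa using hf 2
  have hf3 : f (((A - 1) ^ (k - 1)) x₀) = 1 := by simpa using hf 3
  have h2 : f (A c) = 1 := by rw [A_e_eq, map_add, h1, hf1, add_zero]
  set S := schur A c f h2 with hS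
  set c' := cpr A c f h1 h2 with hc'
  set y := prj c f h1 x₀ with hy
  have hc'coe : (c' : V) = (A - 1) c := by simp [hc']
  have hSc : (S - 1) c' = 0 := by
    apply Subtype.ext
    rw [hS, schur_sub_one_coe h1 h2, hc'coe, hcR]
    simp
  have hc'0 : c' ≠ 0 := by
    intro h3
    have h4 : (c' : V) = 0 := by rw [h3]; rfl
    rw [hc'coe] at h4
    exact (hcli.ne_zero 1) (by simpa using h4)
  -- the chain of `y`
  have hchain : ∀ j : ℕ, ∃ t : F, ((S - 1) ^ j) y = prj c f h1 (((A - 1) ^ j) x₀) + t • c' := by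
    intro j
    induction j with
    | zero => exact ⟨0, by simp [hy]⟩
    | succ j ih =>
      obtain ⟨t, ht⟩ := ih
      refine ⟨-f (A (((A - 1) ^ j) x₀)), ?_⟩
      rw [pow_succ', Module.End.mul_apply, ht, map_add, map_smul, hSc, smul_zero, add_zero, hS,
        schur_prj_sub h1 h2, pow_succ', Module.End.mul_apply, neg_smul, sub_eq_add_neg]
  have hk1 : k = (k - 1) + 1 := by omega
  have hlast : ((S - 1) ^ k) y = -c' := by
    obtain ⟨t, ht⟩ := hchain (k - 1)
    rw [hk1, pow_succ', Module.End.mul_apply, ht, map_add, map_smul, hSc, smul_zero, add_zero, hS,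
      schur_prj_sub h1 h2]
    have h3 : (A - 1) (((A - 1) ^ (k - 1)) x₀) = 0 := by
      rw [← Module.End.mul_apply, ← pow_succ', ← hk1, h0]
    have h4 : f (A (((A - 1) ^ (k - 1)) x₀)) = 1 := by
      rw [A_e_eq, map_add, hf3, h3, map_zero, add_zero]
    rw [h3, map_zero, h4, one_smul, zero_sub]
  have hc'mem : c' ∈ kry S y := by
    have h3 := pow_sub_one_mem_kry S y k
    rw [hlast] at h3
    simpa using (kry S y).neg_mem h3
  have htop : kry S y = ⊤ := kry_top_of_mem h1 h2 hs hc'mem
  -- the second functional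
  have hch2 := chain_li (S - 1) (k + 1) y (by
      rw [pow_succ', Module.End.mul_apply, hlast, map_neg, hSc, neg_zero]) (by
      intro j hj
      have : j = k := by omega
      rw [this, hlast]
      exact neg_ne_zero.mpr hc'0)
  have hfour₂ : LinearIndependent F ![y, (S - 1) y, (S - 1) ((S - 1) y), ((S - 1) ^ k) y] := by
    let g : Fin 4 → Fin (k + 1) := ![⟨0, by omega⟩, ⟨1, by omega⟩, ⟨2, by omega⟩, ⟨k, by omega⟩]
    have hg : Function.Injective g := by
      intro i j hij
      fin_cases i <;> fin_cases j <;> simp [g, Fin.ext_iff] at hij ⊢ <;> omega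
    have := hch2.comp g hg
    have h3 : ((fun i : Fin (k + 1) => ((S - 1) ^ (i : ℕ)) y) ∘ g) =
        ![y, (S - 1) y, (S - 1) ((S - 1) y), ((S - 1) ^ k) y] := by
      funext i
      fin_cases i <;> simp [g, pow_two]
    rwa [h3] at this
  obtain ⟨f₂, hf₂, -⟩ := exists_functional hfour₂ (W := ⊥) disjoint_bot_right ![1, 0, 1, -1]
  have h1₂ : f₂ y = 1 := by simpa using hf₂ 0
  have hg1 : f₂ ((S - 1) y) = 0 := by simpa using hf₂ 1
  have hg2 : f₂ ((S - 1) ((S - 1) y)) = 1 := by simpa using hf₂ 2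
  have hg3 : f₂ (((S - 1) ^ k) y) = -1 := by simpa using hf₂ 3
  have h2₂ : f₂ (S y) = 1 := by rw [A_e_eq S y, map_add, h1₂, hg1, add_zero]
  have hfc' : f₂ c' = 1 := by
    rw [hlast, map_neg] at hg3
    simpa using hg3
  -- dimensions
  have hH4 : 4 ≤ finrank F (LinearMap.ker f) := by
    have := hfour₂.fintype_card_le_finrank
    simpa using this
  have hH₁ : finrank F (LinearMap.ker f) + 1 = finrank F V := finrank_ker_add_one h1
  have hH₂ : finrank F (LinearMap.ker f₂) + 1 = finrank F (LinearMap.ker f) := finrank_ker_add_one h1₂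
  have hktop : kry (schur S y f₂ h2₂) (cpr S y f₂ h1₂ h2₂) = ⊤ := by
    rw [kry_cpr h2₂ h1₂, htop, Submodule.comap_top]
  have hlow : Good τ (finrank F (LinearMap.ker f₂)) (schur S y f₂ h2₂) (cpr S y f₂ h1₂ h2₂) (bpr S f₂) := by
    refine (path_main hτ4 hτ _ (LinearMap.ker f₂) rfl (schur S y f₂ h2₂) ⊥ _ (bpr S f₂)
      (by rw [det_schur h1₂ h2₂, hS, det_schur h1 h2]; exact hdet) ?_ ?_ ?_ ?_ (Or.inl rfl)).1 ?_
    · rw [hktop]
      exact isCompl_top_bot
    · intro x hx
      have : x = 0 := by simpa using hx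
      subst this
      simp
    · exact bot_le
    · rw [bpr_cpr, hg2]
      exact one_ne_zero
    · rw [hktop, finrank_top]
      omega
  have hmid : Good τ (finrank F (LinearMap.ker f)) S c' (bpr A f) := by
    refine level_step (two_sub_ne hτ4) (by omega) h1₂ h2₂ ?_ (by rw [hfc']; exact one_ne_zero) ?_
    · rw [bpr_apply, hy, prj_coe, map_sub, map_smul, map_sub, map_smul, h2]
      have h3 : f (A x₀) = f x₀ + 1 := by
        rw [A_e_eq, map_add, hf2]
      rw [h3]
      simp
    · have : finrank F (LinearMap.ker f) - 1 = finrank F (LinearMap.ker f₂) := by omega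
      rw [this]
      exact hlow
  have htopgood : Good τ (finrank F V) A c f := by
    refine level_step (two_sub_ne hτ4) (by omega) h1 h2 (by rw [h1]; exact one_ne_zero)
      (by rw [h1]; exact one_ne_zero) ?_
    have : finrank F V - 1 = finrank F (LinearMap.ker f) := by omega
    rw [this]
    exact hmid
  exact comm_of_good (two_sub_ne hτ4) (form_universal hτ4) rfl (by omega) htopgood

end Main

end Cfsg.Agent.SLComm
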