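import Mathlib
import Cfsg.Agent.Lib.SLComm.Special

/-!
Preparations for the top level induction.
-/

set_option autoImplicit false

namespace Cfsg.Agent.SLComm

universe u
open Module Polynomial

variable {F : Type u} [Field F] {V : Type u} [AddCommGroup V] [Module F V]

lemma NoFix.of_isCompl {A : End F V} {M W : Submodule F V} (h : NoFix A ⊤) (hc : IsCompl M W)
    (hM : ∀ x ∈ M, A x ∈ M) : NoFix A W := by
  intro y hy hy0 hfix W₂ hW₂ hinv hd hs
  refine h y trivial hy0 hfix (W₂ ⊔ M) le_top ?_ ?_ ?_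
  · intro x hx
    obtain ⟨a, ha, b, hb, rfl⟩ := Submodule.mem_sup.mp hx
    rw [map_add]
    exact Submodule.add_mem_sup (hinv a ha) (hM b hb)
  · rw [Submodule.disjoint_def]
    intro x hx hx'
    obtain ⟨a, ha, b, hb, rfl⟩ := Submodule.mem_sup.mp hx'
    have hyW : Submodule.span F {y} ≤ W := by
      rw [Submodule.span_le]; simpa using hy
    have h1 : b ∈ W := by
      have h2 : a + b ∈ W := hyW hx
      have h3 : a ∈ W := hW₂ ha
      simpa using W.sub_mem h2 h3
    have hb0 : b = 0 := Submodule.disjoint_def.mp hc.disjoint b hb h1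
    subst hb0
    rw [add_zero] at hx ⊢
    exact Submodule.disjoint_def.mp hd a hx ha
  · rw [← sup_assoc, hs, sup_comm]
    exact hc.sup_eq_top

lemma kry_le_span_two [FiniteDimensional F V] {A : End F V} {v : V} {α β : F}
    (hrel : (A - 1) ((A - 1) v) = α • (A - 1) v + β • v) :
    kry A v ≤ Submodule.span F (Set.range ![v, (A - 1) v]) := by
  apply kry_le
  · apply inv_of_sub_one
    intro x hx
    obtain ⟨t, rfl⟩ := Submodule.mem_span_range_iff_exists_fun F |>.mp hx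
    simp only [Fin.sum_univ_two, Matrix.cons_val_zero, Matrix.cons_val_one, map_add, map_smul, hrel]
    apply Submodule.add_mem
    · exact Submodule.smul_mem _ _ (Submodule.subset_span ⟨1, by simp⟩)
    · apply Submodule.smul_mem
      apply Submodule.add_mem
      · exact Submodule.smul_mem _ _ (Submodule.subset_span ⟨1, by simp⟩)
      · exact Submodule.smul_mem _ _ (Submodule.subset_span ⟨0, by simp⟩)
  · exact Submodule.subset_span ⟨0, by simp⟩

lemma li_three_mid {p q y : V} {W : Submodule F V} (h : LinearIndependent F ![p, q]) (hp : p ∈ W)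
    (hq : q ∈ W) (hy : y ≠ 0) (hd : Disjoint (Submodule.span F {y}) W) :
    LinearIndependent F ![p, y, q] := by
  rw [Fintype.linearIndependent_iff]
  intro g hg
  rw [Fin.sum_univ_three] at hg
  simp only [Matrix.cons_val_zero, Matrix.cons_val_one, Matrix.cons_val] at hg
  have h1 : g 1 • y = -(g 0 • p + g 2 • q) := by
    rw [eq_neg_iff_add_eq_zero, ← hg]
    abel
  have h2 : g 1 • y = 0 := Submodule.disjoint_def.mp hd _
    (Submodule.smul_mem _ _ (Submodule.mem_span_singleton_self y))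
    (by rw [h1]; exact W.neg_mem (W.add_mem (W.smul_mem _ hp) (W.smul_mem _ hq)))
  have h3 : g 1 = 0 := (smul_eq_zero.mp h2).resolve_right hy
  have h4 : g 0 • p + g 2 • q = 0 := neg_eq_zero.mp (h1.symm.trans h2)
  obtain ⟨h5, h6⟩ := LinearIndependent.pair_iff.mp h _ _ h4
  intro i
  fin_cases i
  · exact h5
  · exact h3
  · exact h6

lemma li_pair_of_nil {N : End F V} {w : V} (h1 : N w ≠ 0) (h2 : N (N w) = 0) :
    LinearIndependent F ![w, N w] := by
  rw [LinearIndependent.pair_iff]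
  intro s t hst
  have h3 := congrArg N hst
  simp only [map_add, map_smul, h2, smul_zero, add_zero, map_zero] at h3
  have hs : s = 0 := (smul_eq_zero.mp h3).resolve_right h1
  subst hs
  simp only [zero_smul, zero_add] at hst
  exact ⟨rfl, (smul_eq_zero.mp hst).resolve_right h1⟩

/-- the sums of `J₂`. -/
lemma li_block_two {A : End F V} {c₁ c₂ : V} (h1 : LinearIndependent F ![c₁, (A - 1) c₁])
    (h2 : LinearIndependent F ![c₂, (A - 1) c₂]) {T U : Submodule F V} (hT : c₁ ∈ T) (hT' : (A - 1) c₁ ∈ T)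
    (hU : c₂ ∈ U) (hU' : (A - 1) c₂ ∈ U) (hd : Disjoint T U) :
    LinearIndependent F (Sum.elim (fun i => (A - 1) ((![c₁, c₂] : Fin 2 → V) i)) ![c₁, c₂]) := by
  rw [Fintype.linearIndependent_iff]
  intro g hg
  rw [Fintype.sum_sum_type, Fin.sum_univ_two, Fin.sum_univ_two] at hg
  simp only [Sum.elim_inl, Sum.elim_inr, Matrix.cons_val_zero, Matrix.cons_val_one] at hg
  have h3 : g (Sum.inr 0) • c₁ + g (Sum.inl 0) • (A - 1) c₁ =
      -(g (Sum.inr 1) • c₂ + g (Sum.inl 1) • (A - 1) c₂) := by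
    rw [eq_neg_iff_add_eq_zero, ← hg]
    abel
  have h4 : g (Sum.inr 0) • c₁ + g (Sum.inl 0) • (A - 1) c₁ = 0 :=
    Submodule.disjoint_def.mp hd _ (T.add_mem (T.smul_mem _ hT) (T.smul_mem _ hT'))
      (by rw [h3]; exact U.neg_mem (U.add_mem (U.smul_mem _ hU) (U.smul_mem _ hU')))
  have h5 : g (Sum.inr 1) • c₂ + g (Sum.inl 1) • (A - 1) c₂ = 0 :=
    neg_eq_zero.mp (h3.symm.trans h4)
  obtain ⟨h6, h7⟩ := LinearIndependent.pair_iff.mp h1 _ _ h4
  obtain ⟨h8, h9⟩ := LinearIndependent.pair_iff.mp h2 _ _ h5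
  rintro (i | i)
  · fin_cases i
    · exact h7
    · exact h9
  · fin_cases i
    · exact h6
    · exact h8

lemma li_block_three {A : End F V} {c₁ c₂ c₃ : V} (h1 : LinearIndependent F ![c₁, (A - 1) c₁])
    (h2 : LinearIndependent F ![c₂, (A - 1) c₂]) (h3 : LinearIndependent F ![c₃, (A - 1) c₃])
    {T U W : Submodule F V} (hT : c₁ ∈ T) (hT' : (A - 1) c₁ ∈ T) (hU : c₂ ∈ U) (hU' : (A - 1) c₂ ∈ U)
    (hW : c₃ ∈ W) (hW' : (A - 1) c₃ ∈ W) (hd : Disjoint T (U ⊔ W)) (hd' : Disjoint U W) :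
    LinearIndependent F (Sum.elim (fun i => (A - 1) ((![c₁, c₂, c₃] : Fin 3 → V) i)) ![c₁, c₂, c₃]) := by
  rw [Fintype.linearIndependent_iff]
  intro g hg
  rw [Fintype.sum_sum_type, Fin.sum_univ_three, Fin.sum_univ_three] at hg
  simp only [Sum.elim_inl, Sum.elim_inr, Matrix.cons_val_zero, Matrix.cons_val_one, Matrix.cons_val] at hg
  set a₁ := g (Sum.inr 0) • c₁ + g (Sum.inl 0) • (A - 1) c₁ with ha₁
  set a₂ := g (Sum.inr 1) • c₂ + g (Sum.inl 1) • (A - 1) c₂ with ha₂
  set a₃ := g (Sum.inr 2) • c₃ + g (Sum.inl 2) • (A - 1) c₃ with ha₃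
  have hsum : a₁ + a₂ + a₃ = 0 := by
    rw [← hg]
    simp only [ha₁, ha₂, ha₃]
    abel
  have ha₁T : a₁ ∈ T := T.add_mem (T.smul_mem _ hT) (T.smul_mem _ hT')
  have ha₂U : a₂ ∈ U := U.add_mem (U.smul_mem _ hU) (U.smul_mem _ hU')
  have ha₃W : a₃ ∈ W := W.add_mem (W.smul_mem _ hW) (W.smul_mem _ hW')
  have h4 : a₁ = -(a₂ + a₃) := by
    rw [eq_neg_iff_add_eq_zero, ← hsum]
    abel
  have h5 : a₁ = 0 := Submodule.disjoint_def.mp hd _ ha₁T
    (by rw [h4]; exact Submodule.neg_mem _ (Submodule.add_mem_sup ha₂U ha₃W))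
  have h6 : a₂ + a₃ = 0 := neg_eq_zero.mp (h4.symm.trans h5)
  have h7 : a₂ = -a₃ := eq_neg_of_add_eq_zero_left h6
  have h8 : a₂ = 0 := Submodule.disjoint_def.mp hd' _ ha₂U (by rw [h7]; exact W.neg_mem ha₃W)
  have h9 : a₃ = 0 := by
    rw [h8, zero_add] at h6
    exact h6
  obtain ⟨h10, h11⟩ := LinearIndependent.pair_iff.mp h1 _ _ h5
  obtain ⟨h12, h13⟩ := LinearIndependent.pair_iff.mp h2 _ _ h8
  obtain ⟨h14, h15⟩ := LinearIndependent.pair_iff.mp h3 _ _ h9
  rintro (i | i)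
  · fin_cases i
    · exact h11
    · exact h13
    · exact h15
  · fin_cases i
    · exact h10
    · exact h12
    · exact h14

section Restrict

variable [FiniteDimensional F V] {A : End F V}

/-- `J₂ ⊕ J₂` on the subspace they span. -/
lemma comm_J22_restrict {c₁ c₂ : V} (h1 : LinearIndependent F ![c₁, (A - 1) c₁])
    (h2 : LinearIndependent F ![c₂, (A - 1) c₂]) (hR₁ : (A - 1) ((A - 1) c₁) = 0)
    (hR₂ : (A - 1) ((A - 1) c₂) = 0) (hd : Disjoint (kry A c₁) (kry A c₂))
    (hN : ∀ x ∈ kry A c₁ ⊔ kry A c₂, A x ∈ kry A c₁ ⊔ kry A c₂) :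
    Comm (A.restrict hN) := by
  have hm₁ : c₁ ∈ kry A c₁ ⊔ kry A c₂ := Submodule.mem_sup_left (self_mem_kry _ _)
  have hm₂ : c₂ ∈ kry A c₁ ⊔ kry A c₂ := Submodule.mem_sup_right (self_mem_kry _ _)
  let x : Fin 2 → ↥(kry A c₁ ⊔ kry A c₂) := ![⟨c₁, hm₁⟩, ⟨c₂, hm₂⟩]
  have hfr : finrank F ↥(kry A c₁ ⊔ kry A c₂) = 4 := by
    have h3 := Submodule.finrank_sup_add_finrank_inf_eq (kry A c₁) (kry A c₂)
    rw [hd.eq_bot, finrank_bot, add_zero, finrank_kry_eq_two (α := 0) (β := 0) h1 (by simpa using hR₁),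
      finrank_kry_eq_two (α := 0) (β := 0) h2 (by simpa using hR₂)] at h3
    omega
  have hli := li_block_two h1 h2 (self_mem_kry A c₁) (sub_one_mem_kry _ _ (self_mem_kry _ _))
    (self_mem_kry A c₂) (sub_one_mem_kry _ _ (self_mem_kry _ _)) hd
  refine comm_block_two x ?_ hfr ?_
  · apply LinearIndependent.of_comp (kry A c₁ ⊔ kry A c₂).subtype
    convert hli using 1
    funext i
    rcases i with i | i
    · fin_cases i
      · simp [x]
      · simp [x]
    · fin_cases i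
      · simp [x]
      · simp [x]
  · intro i
    apply Subtype.ext
    fin_cases i
    · simp only [Fin.zero_eta, x, Matrix.cons_val_zero, restrict_sub_one_coe]
      exact hR₁
    · simp only [Fin.mk_one, x, Matrix.cons_val_one, Matrix.cons_val_zero, restrict_sub_one_coe]
      exact hR₂

end Restrict

end Cfsg.Agent.SLComm
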