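import Mathlib
import Cfsg.Agent.Lib.SLComm.Top1

/-!
The top level induction, fields with at least three elements.
-/

set_option autoImplicit false

namespace Cfsg.Agent.SLComm

universe u
open Module Polynomial

variable {F : Type u} [Field F] [Fintype F] {V : Type u} [AddCommGroup V] [Module F V]

variable (F) in
/-- the statement of the top induction. -/
def MainStmt (n : ℕ) : Prop :=
  ∀ (V : Type u) [AddCommGroup V] [Module F V] [FiniteDimensional F V], finrank F V = n →
    ∀ A : End F V, LinearMap.det A = 1 → ¬ Exc A → Comm A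

lemma exc_data {A : End F V} {W : Submodule F V} (hW : ∀ x ∈ W, A x ∈ W)
    (h : Exc (A.restrict hW)) : finrank F W = 2 ∧ Fintype.card F ≤ 3 ∧ ∃ ε : F, ε * ε = 1 ∧
      (∃ w ∈ W, (A - ε • 1) w ≠ 0) ∧ ∀ x ∈ W, (A - ε • 1) ((A - ε • 1) x) = 0 := by
  obtain ⟨h1, h2, ε, hε, hne, hsq⟩ := h
  refine ⟨h1, h2, ε, hε, ?_, ?_⟩
  · by_contra hcon
    push Not at hcon
    apply hne
    ext x
    have := hcon x x.2
    simp only [LinearMap.sub_apply, LinearMap.smul_apply, Module.End.one_apply] at this
    simp only [LinearMap.restrict_coe_apply, LinearMap.smul_apply, Module.End.one_apply,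
      Submodule.coe_smul]
    exact sub_eq_zero.mp this
  · intro x hx
    have h3 := LinearMap.congr_fun hsq ⟨x, hx⟩
    have h4 := congrArg Subtype.val h3
    simpa using h4

lemma isCompl_of_triple {K₀ K₁ W₁ : Submodule F V} (hd0 : Disjoint K₀ (K₁ ⊔ W₁)) (hd1 : Disjoint K₁ W₁)
    (hs : K₀ ⊔ K₁ ⊔ W₁ = ⊤) : IsCompl (K₀ ⊔ K₁) W₁ := by
  constructor
  · rw [Submodule.disjoint_def]
    intro x hx hx'
    obtain ⟨a', ha, b', hb', rfl⟩ := Submodule.mem_sup.mp hx
    have ha0 : a' = 0 := by
      apply Submodule.disjoint_def.mp hd0 a' ha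
      have h1 : a' = (-b') + (a' + b') := by abel
      rw [h1]
      exact Submodule.add_mem_sup (Submodule.neg_mem _ hb') hx'
    subst ha0
    rw [zero_add] at hx' ⊢
    exact Submodule.disjoint_def.mp hd1 b' hb' hx'
  · rw [codisjoint_iff]
    exact hs

lemma sup_inv {A : End F V} {M N : Submodule F V} (hM : ∀ x ∈ M, A x ∈ M) (hN : ∀ x ∈ N, A x ∈ N) :
    ∀ x ∈ M ⊔ N, A x ∈ M ⊔ N := by
  intro x hx
  obtain ⟨a, ha, b, hb, rfl⟩ := Submodule.mem_sup.mp hx
  rw [map_add]
  exact Submodule.add_mem_sup (hM a ha) (hN b hb)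

/-- two copies of `J₂` and the rest. -/
theorem comm_two_J2 {n : ℕ} (IH : ∀ m < n, MainStmt F m) [FiniteDimensional F V]
    (hV : finrank F V = n) {A : End F V} (hdet : LinearMap.det A = 1) {c₁ c₂ : V}
    {W₂ : Submodule F V} (h1 : LinearIndependent F ![c₁, (A - 1) c₁])
    (h2 : LinearIndependent F ![c₂, (A - 1) c₂]) (hR₁ : (A - 1) ((A - 1) c₁) = 0)
    (hR₂ : (A - 1) ((A - 1) c₂) = 0) (hd0 : Disjoint (kry A c₁) (kry A c₂ ⊔ W₂))
    (hd1 : Disjoint (kry A c₂) W₂) (hs : kry A c₁ ⊔ kry A c₂ ⊔ W₂ = ⊤) (hinv : ∀ x ∈ W₂, A x ∈ W₂)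
    (hnil : Exc (A.restrict hinv) → ∀ x ∈ W₂, (A - 1) ((A - 1) x) = 0) : Comm A := by
  have hf₁ : finrank F (kry A c₁) = 2 := finrank_kry_eq_two (α := 0) (β := 0) h1 (by simpa using hR₁)
  have hf₂ : finrank F (kry A c₂) = 2 := finrank_kry_eq_two (α := 0) (β := 0) h2 (by simpa using hR₂)
  have hc := isCompl_of_triple hd0 hd1 hs
  have hfN : finrank F ↥(kry A c₁ ⊔ kry A c₂) = 4 := by
    have hd := hd0.mono_right (le_sup_left : kry A c₂ ≤ kry A c₂ ⊔ W₂)
    have h3 := Submodule.finrank_sup_add_finrank_inf_eq (kry A c₁) (kry A c₂)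
    rw [hd.eq_bot, finrank_bot, add_zero, hf₁, hf₂] at h3
    omega
  have hsum := Submodule.finrank_add_eq_of_isCompl hc
  by_cases hE : Exc (A.restrict hinv)
  · obtain ⟨hW2, -, ε, hε, ⟨w₀, hw₀, hw₀ne⟩, hsq⟩ := exc_data hinv hE
    have hnil' := hnil hE
    obtain ⟨w, hw, hRw⟩ : ∃ w ∈ W₂, (A - 1) w ≠ 0 := by
      by_contra hcon
      push Not at hcon
      have h3 : ∀ x ∈ W₂, (A - ε • 1) x = (1 - ε) • x := by
        intro x hx
        have h4 := hcon x hx
        simp only [LinearMap.sub_apply, Module.End.one_apply, sub_eq_zero] at h4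
        simp [h4, sub_smul]
      have hw₁ := hsq w₀ hw₀
      rw [h3 w₀ hw₀, map_smul, h3 w₀ hw₀, smul_smul] at hw₁
      apply hw₀ne
      rw [h3 w₀ hw₀]
      have h4 : (1 - ε) * (1 - ε) = 0 := by
        have hw0 : w₀ ≠ 0 := by
          rintro rfl
          simp at hw₀ne
        exact (smul_eq_zero.mp hw₁).resolve_right hw0
      have h5 : 1 - ε = 0 := by simpa using h4
      rw [h5, zero_smul]
    have hRRw := hnil' w hw
    have h3 : LinearIndependent F ![w, (A - 1) w] := li_pair_of_nil hRw hRRw
    have hkw : kry A w = W₂ := by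
      apply Submodule.eq_of_le_of_finrank_eq
      · exact kry_le hinv hw
      · rw [hW2]
        exact finrank_kry_eq_two (α := 0) (β := 0) h3 (by simpa using hRRw)
    have hV6 : finrank F V = 6 := by
      omega
    refine comm_block_three ![c₁, c₂, w] ?_ hV6 ?_
    · exact li_block_three h1 h2 h3 (self_mem_kry A c₁) (sub_one_mem_kry _ _ (self_mem_kry _ _))
        (self_mem_kry A c₂) (sub_one_mem_kry _ _ (self_mem_kry _ _)) hw
        (by rw [← hkw]; exact sub_one_mem_kry _ _ (self_mem_kry _ _)) hd0 hd1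
    · intro i
      fin_cases i
      · exact hR₁
      · exact hR₂
      · exact hRRw
  · have hN := sup_inv (fun _ h => kry_inv A c₁ h) (fun _ h => kry_inv A c₂ h)
    have hcN : Comm (A.restrict hN) := comm_J22_restrict h1 h2 hR₁ hR₂
      (hd0.mono_right le_sup_left) hN
    have hdW : LinearMap.det (A.restrict hinv) = 1 := by
      have h3 := det_of_isCompl hN hinv hc
      rw [hdet, hcN.det_eq_one, one_mul] at h3
      exact h3.symm
    refine Comm.of_isCompl hN hinv hc hcN (IH _ ?_ W₂ rfl _ hdW hE)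
    omega

/-- fields with at least three elements, a fixed line splits off. -/
theorem top_fix {n : ℕ} (IH : ∀ m < n, MainStmt F m) [FiniteDimensional F V]
    (hV : finrank F V = n) (hn : 3 ≤ n) {A : End F V} (hdet : LinearMap.det A = 1) {y : V}
    {W₂ : Submodule F V} (hy0 : y ≠ 0) (hfix : A y = y) (hinv : ∀ x ∈ W₂, A x ∈ W₂)
    (hd : Disjoint (Submodule.span F {y}) W₂) (hs : Submodule.span F {y} ⊔ W₂ = ⊤) : Comm A := by
  have hRy : (A - 1) y = 0 := by simp [hfix]
  have hN : ∀ x ∈ Submodule.span F {y}, A x ∈ Submodule.span F {y} := by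
    intro x hx
    obtain ⟨t, rfl⟩ := Submodule.mem_span_singleton.mp hx
    rw [map_smul, hfix]
    exact hx
  have hc : IsCompl (Submodule.span F {y}) W₂ := ⟨hd, codisjoint_iff.mpr hs⟩
  have hone : A.restrict hN = 1 := by
    ext x
    obtain ⟨t, ht⟩ := Submodule.mem_span_singleton.mp x.2
    simp only [LinearMap.restrict_coe_apply, Module.End.one_apply]
    rw [← ht, map_smul, hfix]
  have hcN : Comm (A.restrict hN) := by
    rw [hone]
    exact Comm.one
  have hdW : LinearMap.det (A.restrict hinv) = 1 := by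
    have h3 := det_of_isCompl hN hinv hc
    rw [hdet, hcN.det_eq_one, one_mul] at h3
    exact h3.symm
  have hsum := Submodule.finrank_add_eq_of_isCompl hc
  rw [finrank_span_singleton hy0] at hsum
  by_cases hE : Exc (A.restrict hinv)
  · obtain ⟨hW2, hq3, ε, hε, ⟨w, hw, hwne⟩, hsq⟩ := exc_data hinv hE
    have hV3 : finrank F V = 3 := by omega
    have hsqw := hsq w hw
    have hli₀ : LinearIndependent F ![(A - ε • 1) w, w] := by
      have := li_pair_of_nil hwne hsqw
      rw [LinearIndependent.pair_iff] at this ⊢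
      intro s t hst
      obtain ⟨h3, h4⟩ := this t s (by rw [← hst]; abel)
      exact ⟨h4, h3⟩
    have hRwmem : (A - ε • 1) w ∈ W₂ := by
      simp only [LinearMap.sub_apply, LinearMap.smul_apply, Module.End.one_apply]
      exact W₂.sub_mem (hinv _ hw) (W₂.smul_mem _ hw)
    have hli₃ := li_three_mid hli₀ hRwmem hw hy0 hd
    have hε' : ε = 1 ∨ (ε = -1 ∧ (2 : F) ≠ 0) := by
      have h3 : (ε - 1) * (ε + 1) = 0 := by linear_combination hε
      rcases mul_eq_zero.mp h3 with h | h
      · exact Or.inl (by linear_combination h)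
      · by_cases h20 : (2 : F) = 0
        · exact Or.inl (by linear_combination h - h20)
        · exact Or.inr ⟨by linear_combination h, h20⟩
    rcases hε' with rfl | ⟨rfl, h20⟩
    · rw [one_smul] at hli₃ hsqw
      exact comm_transvection hV3 hli₃ hsqw hRy
    · -- a cyclic vector
      have hone' : (A - (-1 : F) • 1) = A + 1 := by
        simp
      rw [hone'] at hli₃ hsqw
      have hpy : aeval A (X - C (1 : F)) y = 0 := by simp [hfix]
      have hpw : aeval A ((X - C (-1 : F)) ^ 2) w = 0 := by
        have e : aeval A (X - C (-1 : F)) = A + 1 := by simp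
        rw [map_pow, e, pow_two, Module.End.mul_apply]
        exact hsqw
      have hcop : IsCoprime (X - C (1 : F)) ((X - C (-1 : F)) ^ 2) := by
        apply IsCoprime.pow_right
        apply Polynomial.isCoprime_X_sub_C_of_isUnit_sub
        have : (1 : F) - -1 = 2 := by ring
        rw [this]
        exact h20.isUnit
      have hke := kry_add_of_coprime hpy hpw hcop
      have hAw : (A + 1) w ∈ kry A w := by
        have := (kry A w).add_mem (kry_inv A w (self_mem_kry _ _)) (self_mem_kry _ _)
        simpa using this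
      have hle : Submodule.span F (Set.range ![(A + 1) w, y, w]) ≤ kry A (y + w) := by
        rw [hke, Submodule.span_le]
        rintro _ ⟨i, rfl⟩
        fin_cases i
        · exact Submodule.mem_sup_right hAw
        · exact Submodule.mem_sup_left (self_mem_kry _ _)
        · exact Submodule.mem_sup_right (self_mem_kry _ _)
      have hfr : finrank F (Submodule.span F (Set.range ![(A + 1) w, y, w])) = 3 := by
        rw [finrank_span_eq_card hli₃]
        simp
      have h3le := Submodule.finrank_mono hle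
      have htop : kry A (y + w) = ⊤ := by
        apply Submodule.eq_top_of_finrank_eq
        have := Submodule.finrank_le (kry A (y + w))
        omega
      refine comm_of_path hdet (c := y + w) (W := ⊥) (by rw [htop]; exact isCompl_top_bot) ?_
        (Or.inl rfl) (by omega)
      intro x hx
      have : x = 0 := by simpa using hx
      subst this
      simp
  · exact Comm.of_isCompl hN hinv hc hcN (IH _ (by omega) W₂ rfl _ hdW hE)

end Cfsg.Agent.SLComm
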