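import Mathlib
import Cfsg.Agent.Lib.SLComm.Top2

/-!
The top level induction, no fixed line splits off.
-/

set_option autoImplicit false

namespace Cfsg.Agent.SLComm

universe u
open Module Polynomial

variable {F : Type u} [Field F] [Fintype F] {V : Type u} [AddCommGroup V] [Module F V]

/-- the rank one case. -/
lemma top_rank_one [FiniteDimensional F V] (hV : 3 ≤ finrank F V) {A : End F V}
    (hdet : LinearMap.det A = 1) {c : V} {W' : Submodule F V} (hc : IsCompl (kry A c) W')
    (hli : LinearIndependent F ![c, (A - 1) c]) {α β ρ : F}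
    (hrel : (A - 1) ((A - 1) c) = α • (A - 1) c + β • c) (hW' : ∀ x ∈ W', A x = (1 + ρ) • x)
    (ha : 1 + ρ ≠ 1) (hroot : ρ * ρ - α * ρ - β = 0) : Comm A := by
  set u : V := (A - 1) c - ρ • c with hu
  set θ : F := α - 2 * ρ with hθ
  have hβ : β = ρ * ρ - α * ρ := by linear_combination -hroot
  have hNc : A c = (1 + ρ) • c + u := by
    rw [hu, A_e_eq A c]
    module
  have hNu : A u = (1 + ρ) • u + θ • u := by
    rw [hu, map_sub, map_smul, A_e_eq A ((A - 1) c), A_e_eq A c, hrel, hθ, hβ]
    module
  have hliu : LinearIndependent F ![c, u] := by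
    rw [LinearIndependent.pair_iff]
    intro s t hst
    have h3 := LinearIndependent.pair_iff.mp hli (s - t * ρ) t (by
      rw [← hst, hu]; module)
    have h4 := h3.2
    subst h4
    simpa using h3.1
  have hu0 : u ≠ 0 := by
    have := hliu.ne_zero 1
    simpa using this
  have hspan : Submodule.span F (Set.range ![c, u]) ≤ kry A c := by
    rw [Submodule.span_le]
    rintro _ ⟨i, rfl⟩
    fin_cases i
    · exact self_mem_kry A c
    · exact (kry A c).sub_mem (sub_one_mem_kry _ _ (self_mem_kry _ _))
        ((kry A c).smul_mem _ (self_mem_kry _ _))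
  obtain ⟨φ, hφ, hφW⟩ := exists_functional hliu (hc.disjoint.mono_left hspan) ![1, θ]
  have hφc : φ c = 1 := by simpa using hφ 0
  have hφu : φ u = θ := by simpa using hφ 1
  have hφ0 : φ ≠ 0 := by
    rintro rfl
    simp at hφc
  have hA' : ∀ x, A x = (1 + ρ) • x + φ x • u := by
    let D : End F V := A - (1 + ρ) • 1 - φ.smulRight u
    have hDc : c ∈ LinearMap.ker D := by
      simp only [LinearMap.mem_ker, D, LinearMap.sub_apply, LinearMap.smul_apply, Module.End.one_apply,
        LinearMap.smulRight_apply, hφc, hNc]
      module
    have hDu : u ∈ LinearMap.ker D := by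
      simp only [LinearMap.mem_ker, D, LinearMap.sub_apply, LinearMap.smul_apply, Module.End.one_apply,
        LinearMap.smulRight_apply, hφu, hNu]
      module
    have hDR : (A - 1) c ∈ LinearMap.ker D := by
      have : (A - 1) c = u + ρ • c := by rw [hu]; abel
      rw [this]
      exact Submodule.add_mem _ hDu (Submodule.smul_mem _ _ hDc)
    have hkry : kry A c ≤ LinearMap.ker D := by
      refine (kry_le_span_two hrel).trans ?_
      rw [Submodule.span_le]
      rintro _ ⟨i, rfl⟩
      fin_cases i
      · exact hDc
      · exact hDR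
    have hWker : W' ≤ LinearMap.ker D := by
      intro x hx
      have h3 : φ x = 0 := hφW hx
      simp only [LinearMap.mem_ker, D, LinearMap.sub_apply, LinearMap.smul_apply, Module.End.one_apply,
        LinearMap.smulRight_apply, h3, hW' x hx]
      simp
    have htop : LinearMap.ker D = ⊤ := by
      rw [eq_top_iff, ← hc.sup_eq_top]
      exact sup_le hkry hWker
    intro x
    have h3 : x ∈ LinearMap.ker D := by rw [htop]; trivial
    simp only [LinearMap.mem_ker, D, LinearMap.sub_apply, LinearMap.smul_apply, Module.End.one_apply,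
      LinearMap.smulRight_apply] at h3
    rw [sub_sub, sub_eq_zero] at h3
    exact h3
  exact comm_of_rank_one hV hA' ha hu0 hφ0 hdet

/-- no fixed line. -/
theorem top_nofix {n : ℕ} (IH : ∀ m < n, MainStmt F m) [FiniteDimensional F V]
    (hV : finrank F V = n) (hn : 3 ≤ n) (hq : 3 ≤ Fintype.card F) {A : End F V}
    (hdet : LinearMap.det A = 1) (hNF : NoFix A ⊤) : Comm A := by
  have hA := inj_of_det hdet
  obtain ⟨c, W', -, -, hd, hs, hinv', hann⟩ := exists_cyc hA n ⊤ (by rw [finrank_top]; exact hV)
    (fun _ _ => trivial)
  have hc : IsCompl (kry A c) W' := ⟨hd, codisjoint_iff.mpr hs⟩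
  have hAll : ∀ p : F[X], aeval A p c = 0 → ∀ x, aeval A p x = 0 := fun p hp x => hann p hp x trivial
  have hNW' : NoFix A W' := hNF.of_isCompl hc (fun _ h => kry_inv _ _ h)
  by_cases hD : 3 ≤ finrank F (kry A c)
  · exact comm_of_path hdet hc hinv' (Or.inr ⟨hq, hNW'⟩) hD
  have hVne : Nontrivial V := by
    apply Module.nontrivial_of_finrank_pos (R := F)
    omega
  have hc0 : c ≠ 0 := by
    rintro rfl
    obtain ⟨x, hx⟩ := exists_ne (0 : V)
    have := hAll 1 (by simp) x
    simp only [map_one, Module.End.one_apply] at this
    exact hx this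
  by_cases hli : LinearIndependent F ![c, (A - 1) c]
  swap
  · -- scalar
    obtain ⟨ρ, hρ⟩ := eq_smul_of_not_li hc0 hli
    have hAa : ∀ x, A x = (1 + ρ) • x := by
      intro x
      have h1 : aeval A (X - C (1 + ρ)) c = 0 := by
        simp only [map_sub, aeval_X, aeval_C, LinearMap.sub_apply, Module.algebraMap_end_apply]
        rw [A_e_eq A c, hρ]
        module
      have h2 := hAll _ h1 x
      simp only [map_sub, aeval_X, aeval_C, LinearMap.sub_apply, Module.algebraMap_end_apply] at h2
      exact sub_eq_zero.mp h2
    have hAs : A = (1 + ρ) • 1 := by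
      ext x
      simp [hAa x]
    rw [hAs] at hdet ⊢
    exact comm_scalar hdet
  have hD2 : finrank F (kry A c) = 2 := by
    have := two_le_finrank_of_li hli
    omega
  obtain ⟨α, β, hrel⟩ := exists_rel_two hD2
  have hQ : ∀ x, (A - 1) ((A - 1) x) = α • (A - 1) x + β • x := by
    intro x
    have h1 : aeval A (polQ α β) c = 0 := by
      rw [aeval_polQ, hrel]; abel
    have h2 := hAll _ h1 x
    rw [aeval_polQ] at h2
    have h3 : (A - 1) ((A - 1) x) = ((A - 1) ((A - 1) x) - α • (A - 1) x - β • x) +
        (α • (A - 1) x + β • x) := by abel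
    rw [h3, h2, zero_add]
  have hW'ne : W' ≠ ⊥ := by
    rintro rfl
    have h1 : kry A c = ⊤ := by simpa using hc.sup_eq_top
    rw [h1, finrank_top] at hD
    omega
  obtain ⟨c₂, W₂, h₁, h₂, hd₂, hs₂, hinv₂, hann₂⟩ := exists_cyc hA _ W' rfl hinv'
  have hc₂0 : c₂ ≠ 0 := by
    rintro rfl
    apply hW'ne
    rw [eq_bot_iff]
    intro x hx
    have := hann₂ 1 (by simp) x hx
    simpa using this
  have hc₂W : c₂ ∈ W' := h₁ (self_mem_kry _ _)
  have hd0 : Disjoint (kry A c) (kry A c₂ ⊔ W₂) := by rw [hs₂]; exact hd
  have hs3 : kry A c ⊔ kry A c₂ ⊔ W₂ = ⊤ := by rw [sup_assoc, hs₂]; exact hs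
  by_cases hli₂ : LinearIndependent F ![c₂, (A - 1) c₂]
  · by_cases hβ : β = 0
    · by_cases hα : α = 0
      · -- unipotent of class two
        have hR : ∀ x, (A - 1) ((A - 1) x) = 0 := by
          intro x
          rw [hQ x, hα, hβ]
          simp
        exact comm_two_J2 IH hV hdet hli hli₂ (hR c) (hR c₂) hd0 hd₂ hs3 hinv₂ (fun _ x _ => hR x)
      · -- a fixed line splits off
        exfalso
        set y : V := (A - 1) c - α • c with hy
        have hRy : (A - 1) y = 0 := by
          rw [hy, map_sub, map_smul, hrel, hβ]
          simp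
        have hfix : A y = y := by
          rw [A_e_eq A y, hRy, add_zero]
        have hy0 : y ≠ 0 := by
          intro h0
          have h3 := LinearIndependent.pair_iff.mp hli (-α) 1 (by rw [← h0, hy]; module)
          exact one_ne_zero h3.2
        refine hNF y trivial hy0 hfix (Submodule.span F {(A - 1) c} ⊔ W') le_top ?_ ?_ ?_
        · apply sup_inv _ hinv'
          intro x hx
          obtain ⟨t, rfl⟩ := Submodule.mem_span_singleton.mp hx
          rw [map_smul, A_e_eq A ((A - 1) c), hrel, hβ]
          have : (A - 1) c + (α • (A - 1) c + (0 : F) • c) = (1 + α) • (A - 1) c := by module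
          rw [this]
          exact Submodule.smul_mem _ _ (Submodule.smul_mem _ _ (Submodule.mem_span_singleton_self _))
        · rw [Submodule.disjoint_def]
          intro x hx hx'
          obtain ⟨t, rfl⟩ := Submodule.mem_span_singleton.mp hx
          obtain ⟨p, hp, w, hw, hpw⟩ := Submodule.mem_sup.mp hx'
          obtain ⟨r, rfl⟩ := Submodule.mem_span_singleton.mp hp
          have h3 : t • y - r • (A - 1) c = w := by rw [← hpw]; abel
          have h4 : t • y - r • (A - 1) c ∈ kry A c := by
            apply Submodule.sub_mem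
            · apply Submodule.smul_mem
              exact (kry A c).sub_mem (sub_one_mem_kry _ _ (self_mem_kry _ _))
                ((kry A c).smul_mem _ (self_mem_kry _ _))
            · exact Submodule.smul_mem _ _ (sub_one_mem_kry _ _ (self_mem_kry _ _))
          have h5 : t • y - r • (A - 1) c = 0 :=
            Submodule.disjoint_def.mp hd _ h4 (by rw [h3]; exact hw)
          have h6 := LinearIndependent.pair_iff.mp hli (-(t * α)) (t - r) (by
            rw [← h5, hy]; module)
          have ht : t = 0 := by
            have := h6.1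
            have h7 : t * α = 0 := by linear_combination -this
            exact (mul_eq_zero.mp h7).resolve_right hα
          rw [ht, zero_smul]
        · rw [eq_top_iff, ← hc.sup_eq_top]
          apply sup_le
          · refine (kry_le_span_two hrel).trans ?_
            rw [Submodule.span_le]
            rintro _ ⟨i, rfl⟩
            fin_cases i
            · have h3 : c = α⁻¹ • ((A - 1) c - y) := by
                rw [hy]
                have : (A - 1) c - ((A - 1) c - α • c) = α • c := by abel
                rw [this, smul_smul, inv_mul_cancel₀ hα, one_smul]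
              simp only [Fin.zero_eta, Matrix.cons_val_zero]
              have h4 : α⁻¹ • ((A - 1) c - y) ∈ Submodule.span F {y} ⊔
                  (Submodule.span F {(A - 1) c} ⊔ W') := by
                apply Submodule.smul_mem
                apply Submodule.sub_mem
                · exact Submodule.mem_sup_right (Submodule.mem_sup_left
                    (Submodule.mem_span_singleton_self _))
                · exact Submodule.mem_sup_left (Submodule.mem_span_singleton_self _)
              rw [← h3] at h4
              exact h4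
            · exact Submodule.mem_sup_right (Submodule.mem_sup_left
                (Submodule.mem_span_singleton_self _))
          · exact le_sup_right.trans le_sup_right
    · -- the first step
      obtain ⟨τ, hτ4, hτ⟩ := exists_tau (F := F)
      obtain ⟨k, hk⟩ : ∃ k, n = k + 2 := ⟨n - 2, by omega⟩
      have hli1 : LinearIndependent F ![c] := linearIndependent_unique_iff.mpr (by simpa using hc0)
      obtain ⟨b, hb, -⟩ := exists_functional hli1 (W := ⊥) disjoint_bot_right ![1]
      have hbc : b c ≠ 0 := by
        have := hb 0
        simp only [Matrix.cons_val_zero] at this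
        rw [this]
        exact one_ne_zero
      have hcN : IsCompl (kry A c ⊔ kry A c₂) W₂ := isCompl_of_triple hd0 hd₂ hs3
      have hNW₂ : NoFix A W₂ :=
        hNF.of_isCompl hcN (sup_inv (fun _ h => kry_inv _ _ h) (fun _ h => kry_inv _ _ h))
      have hgood : Good τ (k + 2) A c b := first_step hq hτ4 hτ (hV.trans hk) hdet hli hrel hli₂
        (hQ c₂) hd0 hd₂ hs3 hinv₂ hbc (Or.inr ⟨hq, hNW₂⟩) (by
          intro x _
          rw [aeval_polQ, hQ x]
          abel) hβ
      exact comm_of_good (two_sub_ne hτ4) (form_universal hτ4) (hV.trans hk) (by omega) hgood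
  · -- a scalar on `W'`
    obtain ⟨ρ, hρ⟩ := eq_smul_of_not_li hc₂0 hli₂
    have hW'A : ∀ x ∈ W', A x = (1 + ρ) • x := by
      intro x hx
      have h1 : aeval A (X - C (1 + ρ)) c₂ = 0 := by
        simp only [map_sub, aeval_X, aeval_C, LinearMap.sub_apply, Module.algebraMap_end_apply]
        rw [A_e_eq A c₂, hρ]
        module
      have h2 := hann₂ _ h1 x hx
      simp only [map_sub, aeval_X, aeval_C, LinearMap.sub_apply, Module.algebraMap_end_apply] at h2
      exact sub_eq_zero.mp h2
    have hroot : ρ * ρ - α * ρ - β = 0 := by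
      have h3 := hQ c₂
      rw [hρ, map_smul, hρ] at h3
      have h4 : (ρ * ρ - α * ρ - β) • c₂ = 0 := by
        linear_combination (norm := module) h3
      exact (smul_eq_zero.mp h4).resolve_right hc₂0
    have ha : 1 + ρ ≠ 1 := by
      intro h0
      have hρ0 : ρ = 0 := by linear_combination h0
      have hfix : A c₂ = c₂ := by
        rw [A_e_eq A c₂, hρ, hρ0]
        simp
      have hk := kry_eigen hρ
      refine hNF c₂ trivial hc₂0 hfix (W₂ ⊔ kry A c) le_top
        (sup_inv hinv₂ (fun _ h => kry_inv _ _ h)) ?_ ?_
      · rw [← hk]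
        exact disj_sup₁ hd hd₂ hs₂
      · rw [← hk, ← sup_assoc, hs₂, sup_comm]
        exact hs
    exact top_rank_one (by omega) hdet hc hli hrel hW'A ha hroot

end Cfsg.Agent.SLComm
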