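import Mathlib
import Cfsg.Agent.Lib.SLComm.Top3

/-!
The top level induction, the field with two elements; and the final theorem.
-/

set_option autoImplicit false

namespace Cfsg.Agent.SLComm

universe u
open Module Polynomial

variable {F : Type u} [Field F] [Fintype F] {V : Type u} [AddCommGroup V] [Module F V]

lemma f2_cases (hq : Fintype.card F = 2) (x : F) : x = 0 ∨ x = 1 := by
  have h := FiniteField.pow_card x
  rw [hq] at h
  have h1 : x * (x - 1) = 0 := by linear_combination h
  rcases mul_eq_zero.mp h1 with h2 | h2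
  · exact Or.inl h2
  · exact Or.inr (by linear_combination h2)

lemma det_restrict_q2 (hq : Fintype.card F = 2) [FiniteDimensional F V] {A : End F V}
    (hA : Function.Injective A) {W : Submodule F V} (hW : ∀ x ∈ W, A x ∈ W) :
    LinearMap.det (A.restrict hW) = 1 := by
  have hinj : Function.Injective (A.restrict hW) := by
    intro x y hxy
    apply Subtype.ext
    apply hA
    exact congrArg Subtype.val hxy
  have hbij : Function.Bijective (A.restrict hW) :=
    ⟨hinj, LinearMap.injective_iff_surjective.mp hinj⟩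
  have hu : IsUnit (A.restrict hW) := (Module.End.isUnit_iff _).mpr hbij
  have hdu := (LinearMap.isUnit_iff_isUnit_det _).mp hu
  rcases f2_cases hq (LinearMap.det (A.restrict hW)) with h | h
  · rw [h] at hdu
    exact absurd hdu not_isUnit_zero
  · exact h

lemma exc_q2 (hq : Fintype.card F = 2) {A : End F V} {W : Submodule F V} (hW : ∀ x ∈ W, A x ∈ W)
    (h : Exc (A.restrict hW)) : finrank F W = 2 ∧ (∃ w ∈ W, (A - 1) w ≠ 0) ∧
      ∀ x ∈ W, (A - 1) ((A - 1) x) = 0 := by
  obtain ⟨h1, -, ε, hε, hw, hsq⟩ := exc_data hW h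
  have hε1 : ε = 1 := by
    rcases f2_cases hq ε with h0 | h0
    · rw [h0] at hε
      simp at hε
    · exact h0
  subst hε1
  simp only [one_smul] at hw hsq
  exact ⟨h1, hw, hsq⟩

/-- an exceptional summand is generated by one vector. -/
lemma exc_q2_kry (hq : Fintype.card F = 2) [FiniteDimensional F V] {A : End F V} {W : Submodule F V}
    (hW : ∀ x ∈ W, A x ∈ W) (h : Exc (A.restrict hW)) :
    ∃ c, kry A c = W ∧ LinearIndependent F ![c, (A - 1) c] ∧ (A - 1) ((A - 1) c) = 0 := by
  obtain ⟨h1, ⟨w, hw, hRw⟩, hsq⟩ := exc_q2 hq hW h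
  have hli := li_pair_of_nil hRw (hsq w hw)
  refine ⟨w, ?_, hli, hsq w hw⟩
  apply Submodule.eq_of_le_of_finrank_eq (kry_le hW hw)
  rw [h1]
  exact finrank_kry_eq_two (α := 0) (β := 0) hli (by simpa using hsq w hw)

/-- `J₂` plus one more cyclic block. -/
theorem comm_J2_plus [FiniteDimensional F V] {A : End F V} (hdet : LinearMap.det A = 1) {c v : V}
    (hli : LinearIndependent F ![c, (A - 1) c]) (hR : (A - 1) ((A - 1) c) = 0) {π : F[X]} {k : ℕ}
    (hπ : Irreducible π) (hann : aeval A (π ^ k) v = 0) (hv0 : v ≠ 0)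
    (hd : Disjoint (kry A c) (kry A v)) (hs : kry A c ⊔ kry A v = ⊤) : Comm A := by
  have hfc : finrank F (kry A c) = 2 := finrank_kry_eq_two (α := 0) (β := 0) hli (by simpa using hR)
  have hsum : finrank F (kry A c) + finrank F (kry A v) = finrank F V := by
    have h3 := Submodule.finrank_sup_add_finrank_inf_eq (kry A c) (kry A v)
    rw [hd.eq_bot, finrank_bot, add_zero, hs, finrank_top] at h3
    exact h3.symm
  have hv1 : 1 ≤ finrank F (kry A v) := by
    have h3 : kry A v ≠ ⊥ := by
      intro h0
      have := self_mem_kry A v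
      rw [h0] at this
      exact hv0 (by simpa using this)
    exact Nat.one_le_iff_ne_zero.mpr (fun h0 => h3 (Submodule.finrank_eq_zero.mp h0))
  by_cases hdv : π ∣ X - C (1 : F)
  · -- unipotent
    have hpow : ∀ j : ℕ, aeval A ((X - C (1 : F)) ^ j) v = ((A - 1) ^ j) v := by
      intro j
      have e : aeval A (X - C (1 : F)) = A - 1 := by simp
      rw [map_pow, e]
    have hex : ∃ j, ((A - 1 : End F V) ^ j) v = 0 := by
      refine ⟨k, ?_⟩
      rw [← hpow]
      exact aeval_dvd_kills hann (pow_dvd_pow_of_dvd hdv k)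
    classical
    have hj := Nat.find_spec hex
    have hmin := fun m (hm : m < Nat.find hex) => Nat.find_min hex hm
    set j := Nat.find hex with hjdef
    have hj0 : j ≠ 0 := by
      intro h0
      rw [h0] at hj
      exact hv0 (by simpa using hj)
    by_cases hj1 : j = 1
    · rw [hj1, pow_one] at hj
      have hkv := kry_eigen (A := A) (v := v) (ρ := 0) (by rw [hj, zero_smul])
      have hV3 : finrank F V = 3 := by
        rw [← hsum, hfc, hkv, finrank_span_singleton hv0]
      have hli' : LinearIndependent F ![(A - 1) c, c] := by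
        rw [LinearIndependent.pair_iff] at hli ⊢
        intro s t hst
        obtain ⟨h3, h4⟩ := hli t s (by rw [← hst]; abel)
        exact ⟨h4, h3⟩
      have hli₃ := li_three_mid hli' (sub_one_mem_kry _ _ (self_mem_kry _ _)) (self_mem_kry A c) hv0
        (by rw [← hkv]; exact hd.symm)
      exact comm_transvection hV3 hli₃ hR hj
    · by_cases hj2 : j = 2
      · have hRR : (A - 1) ((A - 1) v) = 0 := by
          rw [hj2, pow_two, Module.End.mul_apply] at hj
          exact hj
        have hRv : (A - 1) v ≠ 0 := by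
          have := hmin 1 (by omega)
          simpa using this
        have hliv := li_pair_of_nil hRv hRR
        have hV4 : finrank F V = 4 := by
          rw [← hsum, hfc, finrank_kry_eq_two (α := 0) (β := 0) hliv (by simpa using hRR)]
        refine comm_block_two ![c, v] ?_ hV4 ?_
        · exact li_block_two hli hliv (self_mem_kry A c) (sub_one_mem_kry _ _ (self_mem_kry _ _))
            (self_mem_kry A v) (sub_one_mem_kry _ _ (self_mem_kry _ _)) hd
        · intro i
          fin_cases i
          · exact hR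
          · exact hRR
      · exact comm_special hdet (k := j) (by omega) hR hli hj (hmin _ (by omega)) hs hd
  · -- coprime blocks: a cyclic vector
    have hpc : aeval A ((X - C (1 : F)) ^ 2) c = 0 := by
      have e : aeval A (X - C (1 : F)) = A - 1 := by simp
      rw [map_pow, e, pow_two, Module.End.mul_apply]
      exact hR
    have hcop : IsCoprime ((X - C (1 : F)) ^ 2) (π ^ k) := by
      apply IsCoprime.pow
      exact ((hπ.coprime_iff_not_dvd).mpr hdv).symm
    have hke := kry_add_of_coprime hpc hann hcop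
    have htop : kry A (c + v) = ⊤ := by rw [hke, hs]
    refine comm_of_path hdet (c := c + v) (W := ⊥) (by rw [htop]; exact isCompl_top_bot) ?_
      (Or.inl rfl) (by rw [htop, finrank_top]; omega)
    intro x hx
    have : x = 0 := by simpa using hx
    subst this
    simp

lemma li_restrict {A : End F V} {N : Submodule F V} (hN : ∀ x ∈ N, A x ∈ N) {x : V} (hx : x ∈ N)
    (hli : LinearIndependent F ![x, (A - 1) x]) :
    LinearIndependent F ![(⟨x, hx⟩ : N), (A.restrict hN - 1) ⟨x, hx⟩] := by
  rw [LinearIndependent.pair_iff]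
  intro s t hst
  have h3 := congrArg Subtype.val hst
  simp only [Submodule.coe_add, Submodule.coe_smul, restrict_sub_one_coe, Submodule.coe_zero] at h3
  exact LinearIndependent.pair_iff.mp hli s t h3

/-- the field with two elements, a `J₂` summand. -/
theorem top_q2_aux {n : ℕ} (IH : ∀ m < n, MainStmt F m) [FiniteDimensional F V]
    (hV : finrank F V = n) (hq : Fintype.card F = 2) {A : End F V}
    (hdet : LinearMap.det A = 1) {c : V} {W : Submodule F V} (hc : IsCompl (kry A c) W)
    (hinv : ∀ x ∈ W, A x ∈ W) (hW : W ≠ ⊥) (hli : LinearIndependent F ![c, (A - 1) c])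
    (hR : (A - 1) ((A - 1) c) = 0) : Comm A := by
  have hA := inj_of_det hdet
  obtain ⟨v₂, W₂, π, k, hb⟩ := exists_blk hA hinv hW
  have hd0 : Disjoint (kry A c) (kry A v₂ ⊔ W₂) := by rw [hb.sup]; exact hc.disjoint
  have hs3 : kry A c ⊔ kry A v₂ ⊔ W₂ = ⊤ := by rw [sup_assoc, hb.sup]; exact hc.sup_eq_top
  by_cases hE : Exc (A.restrict hb.inv₁)
  · obtain ⟨c₂, hk₂, hli₂, hR₂⟩ := exc_q2_kry hq hb.inv₁ hE
    have hUinv : ∀ x ∈ kry A v₂, A x ∈ kry A v₂ := fun _ h => kry_inv _ _ h
    refine comm_two_J2 IH hV hdet (W₂ := kry A v₂) hli hli₂ hR hR₂ ?_ ?_ ?_ hUinv ?_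
    · rw [hk₂, sup_comm]
      exact hd0
    · rw [hk₂]
      exact hb.disj.symm
    · rw [hk₂, sup_assoc, sup_comm W₂, ← sup_assoc]
      exact hs3
    · intro hE'
      exact (exc_q2 hq hUinv hE').2.2
  · have hcN := isCompl_of_triple hd0 hb.disj hs3
    have hN := sup_inv (fun _ h => kry_inv A c h) (fun _ h => kry_inv A v₂ h)
    have hsum := Submodule.finrank_add_eq_of_isCompl hcN
    have hfN : 1 ≤ finrank F ↥(kry A c ⊔ kry A v₂) := by
      have h3 := Submodule.finrank_mono (le_sup_left : kry A c ≤ kry A c ⊔ kry A v₂)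
      have h4 := two_le_finrank_of_li hli
      omega
    have hcW : Comm (A.restrict hb.inv₁) :=
      IH _ (by omega) W₂ rfl _ (det_restrict_q2 hq hA _) hE
    refine Comm.of_isCompl hN hb.inv₁ hcN ?_ hcW
    have hm₁ : c ∈ kry A c ⊔ kry A v₂ := Submodule.mem_sup_left (self_mem_kry _ _)
    have hm₂ : v₂ ∈ kry A c ⊔ kry A v₂ := Submodule.mem_sup_right (self_mem_kry _ _)
    have hd' : Disjoint (kry A c) (kry A v₂) := hd0.mono_right le_sup_left
    have hcc := isCompl_comap_of_sup hd' (rfl : kry A c ⊔ kry A v₂ = kry A c ⊔ kry A v₂)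
    refine comm_J2_plus (c := ⟨c, hm₁⟩) (v := ⟨v₂, hm₂⟩) (det_restrict_q2 hq hA hN) (li_restrict hN hm₁ hli)
      ?_ hb.irr (k := k) ?_ ?_ ?_ ?_
    · apply Subtype.ext
      simp only [restrict_sub_one_coe]
      exact hR
    · apply Subtype.ext
      rw [aeval_restrict_coe]
      exact hb.ann
    · intro h0
      exact hb.v_ne (congrArg Subtype.val h0)
    · rw [kry_restrict, kry_restrict]
      exact hcc.disjoint
    · rw [kry_restrict, kry_restrict]
      exact hcc.sup_eq_top

/-- the field with two elements. -/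
theorem top_q2 {n : ℕ} (IH : ∀ m < n, MainStmt F m) [FiniteDimensional F V]
    (hV : finrank F V = n) (hn : 3 ≤ n) (hq : Fintype.card F = 2) {A : End F V}
    (hdet : LinearMap.det A = 1) : Comm A := by
  have hA := inj_of_det hdet
  haveI hVne : Nontrivial V := by
    apply Module.nontrivial_of_finrank_pos (R := F)
    omega
  obtain ⟨v, W₁, π, k, hb⟩ := exists_blk hA (W := ⊤) (fun _ _ => trivial) top_ne_bot
  have hcU : IsCompl (kry A v) W₁ := ⟨hb.disj, codisjoint_iff.mpr hb.sup⟩
  have hUinv : ∀ x ∈ kry A v, A x ∈ kry A v := fun _ h => kry_inv _ _ h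
  by_cases hW₁ : W₁ = ⊥
  · subst hW₁
    have htop : kry A v = ⊤ := by
      have := hb.sup
      simpa using this
    refine comm_of_path hdet (c := v) (W := ⊥) hcU ?_ (Or.inl rfl)
      (by rw [htop, finrank_top]; omega)
    intro x hx
    have : x = 0 := by simpa using hx
    subst this
    simp
  have hsum := Submodule.finrank_add_eq_of_isCompl hcU
  have hU1 : 1 ≤ finrank F (kry A v) := by
    have h3 : kry A v ≠ ⊥ := by
      intro h0
      have := self_mem_kry A v
      rw [h0] at this
      exact hb.v_ne (by simpa using this)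
    exact Nat.one_le_iff_ne_zero.mpr (fun h0 => h3 (Submodule.finrank_eq_zero.mp h0))
  have hW1 : 1 ≤ finrank F W₁ :=
    Nat.one_le_iff_ne_zero.mpr (fun h0 => hW₁ (Submodule.finrank_eq_zero.mp h0))
  by_cases hEU : Exc (A.restrict hUinv)
  · obtain ⟨c, hk, hli, hR⟩ := exc_q2_kry hq hUinv hEU
    exact top_q2_aux IH hV hq hdet (c := c) (W := W₁) (by rw [hk]; exact hcU) hb.inv₁ hW₁ hli hR
  · by_cases hEW : Exc (A.restrict hb.inv₁)
    · obtain ⟨c, hk, hli, hR⟩ := exc_q2_kry hq hb.inv₁ hEW
      refine top_q2_aux IH hV hq hdet (c := c) (W := kry A v) (by rw [hk]; exact hcU.symm) hUinv ?_ hli hR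
      intro h0
      rw [h0, finrank_bot] at hU1
      omega
    · exact Comm.of_isCompl hUinv hb.inv₁ hcU
        (IH _ (by omega) _ rfl _ (det_restrict_q2 hq hA _) hEU)
        (IH _ (by omega) _ rfl _ (det_restrict_q2 hq hA _) hEW)

/-- every element of determinant one is a commutator, except for a few in dimension two. -/
theorem main_comm (n : ℕ) : MainStmt F n := by
  induction n using Nat.strong_induction_on with
  | _ n IH =>
  intro V _ _ _ hV A hdet hE
  by_cases h2 : n = 2
  · subst h2
    exact comm_two hV hdet hE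
  by_cases h3 : n < 2
  · have hno : ∀ v, ¬ LinearIndependent F ![v, A v] := by
      intro v hv
      have := hv.fintype_card_le_finrank
      simp only [Fintype.card_fin] at this
      omega
    obtain ⟨a, rfl⟩ := LinearMap.exists_eq_smul_id_of_forall_notLinearIndependent hno
    exact comm_scalar hdet
  have hn : 3 ≤ n := by omega
  have hq1 : 1 < Fintype.card F := Fintype.one_lt_card
  by_cases hq : Fintype.card F = 2
  · exact top_q2 IH hV hn hq hdet
  · have hq3 : 3 ≤ Fintype.card F := by omega
    by_cases hNF : NoFix A ⊤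
    · exact top_nofix IH hV hn hq3 hdet hNF
    · simp only [NoFix] at hNF
      push Not at hNF
      obtain ⟨y, -, hy0, hfix, W₂, -, hinv, hd, hs⟩ := hNF
      exact top_fix IH hV hn hdet hy0 hfix hinv hd hs.1

end Cfsg.Agent.SLComm
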